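import Mathlib
import Cfsg.Prelude.Def_Blocks
import Cfsg.Agent.S0925
import Cfsg.Agent.H78.Constancy
import Cfsg.Agent.H80.Block
import Cfsg.Agent.H84.SectionOrth
import Cfsg.Agent.H20.SecondMain

/-!
# S4482-TI: the section indicator of the principal block (helper4, for helper84)

For a `p`-element `π` and `K` the normal `p`-complement of `C_G(π)`:
`(∑_{χ ∈ B₀} χ(g) χ(π⁻¹)) · |K| = #{w : w⁻¹ g w ∈ π K}`.
-/

set_option autoImplicit false
set_option linter.style.haveILetI false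

namespace Cfsg.Agent.H4.Dih

open Cfsg

universe u

variable {G : Type u} [Group G] [Finite G]

omit [Finite G] in
theorem orderOf_conj_eq (v y : G) : orderOf (v⁻¹ * y * v) = orderOf y := by
  have h := MulEquiv.orderOf_eq (MulAut.conj v⁻¹) y
  rw [MulAut.conj_apply, inv_inv] at h
  exact h

omit [Finite G] in
theorem isPPart_conj {p : ℕ} {u z : G} (h : IsPPart p u z) (v : G) :
    IsPPart p (v⁻¹ * u * v) (v⁻¹ * z * v) := by
  obtain ⟨y, hzy, hc, ⟨k, hk⟩, hy⟩ := h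
  refine ⟨v⁻¹ * y * v, ?_, ?_, ⟨k, ?_⟩, ?_⟩
  · rw [← hzy]
    group
  · show v⁻¹ * z * v * (v⁻¹ * y * v) = v⁻¹ * y * v * (v⁻¹ * z * v)
    have h1 : z * y = y * z := hc.eq
    calc v⁻¹ * z * v * (v⁻¹ * y * v) = v⁻¹ * (z * y) * v := by group
      _ = v⁻¹ * (y * z) * v := by rw [h1]
      _ = v⁻¹ * y * v * (v⁻¹ * z * v) := by group
  · rw [orderOf_conj_eq, hk]
  · rw [orderOf_conj_eq]
    exact hy

omit [Finite G] in
theorem not_dvd_orderOf_of_mem {p : ℕ} [Fact p.Prime] (K : Subgroup G)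
    (hKcop : (Nat.card K).Coprime p) {ρ : G} (hρ : ρ ∈ K) : ¬ p ∣ orderOf ρ := by
  intro hdvd
  have hp : p.Prime := Fact.out
  have h1 : orderOf ρ ∣ Nat.card K := by
    have h0 := orderOf_dvd_natCard (⟨ρ, hρ⟩ : K)
    rwa [Subgroup.orderOf_mk] at h0
  exact (Nat.Prime.coprime_iff_not_dvd hp).1 hKcop.symm (hdvd.trans h1)

omit [Finite G] in
theorem isPPart_mul_of_mem {p : ℕ} [Fact p.Prime] (π : G) (k : ℕ) (hπ : orderOf π = p ^ k)
    (K : Subgroup G) (hKc : K ≤ Subgroup.centralizer ({π} : Set G))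
    (hKcop : (Nat.card K).Coprime p) {ρ : G} (hρ : ρ ∈ K) : IsPPart p (π * ρ) π :=
  ⟨ρ, rfl, (Subgroup.mem_centralizer_singleton_iff.1 (hKc hρ)).symm, ⟨k, hπ⟩,
    not_dvd_orderOf_of_mem K hKcop hρ⟩

/-- Off the section of `π`, the principal block sum vanishes (block orthogonality). -/
theorem theta_eq_zero (p : ℕ) [Fact p.Prime] {M : Ideal AlgInt} (hM : IsPModular p M)
    (π : G) (k : ℕ) (hπ : orderOf π = p ^ k) (K : Subgroup G)
    (hK : ∀ c ∈ Subgroup.centralizer ({π} : Set G), ¬ p ∣ orderOf c → c ∈ K) (g : G)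
    (hg : ¬ ∃ w : G, ∃ ρ ∈ K, w⁻¹ * g * w = π * ρ) :
    ∑ᶠ χ ∈ principalBlock M G, (χ : G → ℂ) g * (χ : G → ℂ) π⁻¹ = 0 := by
  have hp : p.Prime := Fact.out
  obtain ⟨a, b, c, hab, hac, hb⟩ := Cfsg.Agent.H20.exists_pPart_decomp hp g
  have hcomm : g ^ a * g ^ b = g ^ b * g ^ a := by
    rw [← pow_add, ← pow_add, add_comm]
  have hx : IsPPart p g (g ^ a) := by
    refine ⟨g ^ b, hab, hcomm, ?_, hb⟩
    have h1 : orderOf (g ^ a) ∣ p ^ c := orderOf_dvd_of_pow_eq_one hac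
    obtain ⟨j, -, hj⟩ := (Nat.dvd_prime_pow hp).1 h1
    exact ⟨j, hj⟩
  have hππ : IsPPart p π π := Cfsg.Agent.H84.isPPart_self hp ⟨k, hπ⟩
  have hnc : ¬ IsConj (g ^ a) π := by
    intro hconj
    obtain ⟨w, hw⟩ := isConj_iff.1 hconj
    apply hg
    refine ⟨w⁻¹, w * g ^ b * w⁻¹, hK _ ?_ ?_, ?_⟩
    · rw [Subgroup.mem_centralizer_singleton_iff, ← hw]
      calc w * g ^ b * w⁻¹ * (w * g ^ a * w⁻¹) = w * (g ^ b * g ^ a) * w⁻¹ := by group
        _ = w * (g ^ a * g ^ b) * w⁻¹ := by rw [hcomm]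
        _ = w * g ^ a * w⁻¹ * (w * g ^ b * w⁻¹) := by group
    · have h2 := orderOf_conj_eq w⁻¹ (g ^ b)
      rw [inv_inv] at h2
      rw [h2]
      exact hb
    · rw [← hw, inv_inv]
      calc w * g * w⁻¹ = w * (g ^ a * g ^ b) * w⁻¹ := by rw [hab]
        _ = w * g ^ a * w⁻¹ * (w * g ^ b * w⁻¹) := by group
  exact (Cfsg.Agent.S0925.result p M hM).2 g π (g ^ a) π hx hππ hnc (principalBlock M G)
    (Cfsg.Agent.H80.isPBlock_principalBlock M G)

/-- On the section of `π`, the principal block sum is the constant `∑ χ(π) χ(π⁻¹)`. -/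
theorem theta_eq_const (p : ℕ) [Fact p.Prime] {M : Ideal AlgInt} (hM : IsPModular p M)
    (π : G) (k : ℕ) (hπ : orderOf π = p ^ k) (K : Subgroup G)
    (hKc : K ≤ Subgroup.centralizer ({π} : Set G))
    (hKn : ∀ c ∈ Subgroup.centralizer ({π} : Set G), ∀ x ∈ K, c * x * c⁻¹ ∈ K)
    (hKcop : (Nat.card K).Coprime p) (g w ρ : G) (hρ : ρ ∈ K) (hw : w⁻¹ * g * w = π * ρ) :
    ∑ᶠ χ ∈ principalBlock M G, (χ : G → ℂ) g * (χ : G → ℂ) π⁻¹ =
      ∑ᶠ χ ∈ principalBlock M G, (χ : G → ℂ) π * (χ : G → ℂ) π⁻¹ := by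
  have hnorm : (K.subgroupOf (Subgroup.centralizer ({π} : Set G))).Normal := by
    constructor
    intro x hx c
    rw [Subgroup.mem_subgroupOf] at hx ⊢
    exact hKn c c.2 x hx
  have hcop' : (Nat.card (K.subgroupOf (Subgroup.centralizer ({π} : Set G)))).Coprime p := by
    rw [Nat.card_congr (Subgroup.subgroupOfEquivOfLe hKc).toEquiv]
    exact hKcop
  apply finsum_mem_congr rfl
  intro χ hχ
  have h1 : (χ : G → ℂ) (w⁻¹ * g * w) = (χ : G → ℂ) g := by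
    have h0 := Cfsg.Agent.H4.irr_isClassFunction χ g w⁻¹
    rwa [inv_inv] at h0
  have h2 := Cfsg.Agent.H78.principal_const_on_core p hM π hπ
    (K.subgroupOf (Subgroup.centralizer ({π} : Set G))) hcop' χ hχ ⟨ρ, hKc hρ⟩
    (Subgroup.mem_subgroupOf.2 hρ)
  have h3 : (χ : G → ℂ) (π * ρ) = (χ : G → ℂ) π := h2
  rw [← h1, hw, h3]

/-- On the section of `π`, the conjugating elements form a coset of `C_G(π)`. -/
theorem card_section_of_mem (p : ℕ) [Fact p.Prime] (π : G) (k : ℕ) (hπ : orderOf π = p ^ k)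
    (K : Subgroup G) (hKc : K ≤ Subgroup.centralizer ({π} : Set G))
    (hKn : ∀ c ∈ Subgroup.centralizer ({π} : Set G), ∀ x ∈ K, c * x * c⁻¹ ∈ K)
    (hKcop : (Nat.card K).Coprime p) (g w₀ ρ₀ : G) (hρ₀ : ρ₀ ∈ K)
    (hw₀ : w₀⁻¹ * g * w₀ = π * ρ₀) :
    Nat.card {w : G // ∃ ρ ∈ K, w⁻¹ * g * w = π * ρ} =
      Nat.card (Subgroup.centralizer ({π} : Set G)) := by
  have hp : p.Prime := Fact.out
  have hfwd : ∀ c : Subgroup.centralizer ({π} : Set G),
      ∃ ρ ∈ K, (w₀ * (c : G))⁻¹ * g * (w₀ * (c : G)) = π * ρ := by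
    intro c
    refine ⟨(c : G)⁻¹ * ρ₀ * c, ?_, ?_⟩
    · have h0 := hKn ((c : G)⁻¹) (inv_mem c.2) ρ₀ hρ₀
      rwa [inv_inv] at h0
    · have hc : (c : G) * π = π * c := Subgroup.mem_centralizer_singleton_iff.1 c.2
      have hc' : (c : G)⁻¹ * π = π * (c : G)⁻¹ := by
        rw [inv_mul_eq_iff_eq_mul, ← mul_assoc, hc, mul_assoc, mul_inv_cancel, mul_one]
      calc (w₀ * (c : G))⁻¹ * g * (w₀ * (c : G)) = (c : G)⁻¹ * (w₀⁻¹ * g * w₀) * c := by group
        _ = (c : G)⁻¹ * (π * ρ₀) * c := by rw [hw₀]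
        _ = (c : G)⁻¹ * π * (ρ₀ * c) := by group
        _ = π * (c : G)⁻¹ * (ρ₀ * c) := by rw [hc']
        _ = π * ((c : G)⁻¹ * ρ₀ * c) := by group
  have hbwd : ∀ w : {w : G // ∃ ρ ∈ K, w⁻¹ * g * w = π * ρ},
      w₀⁻¹ * (w : G) ∈ Subgroup.centralizer ({π} : Set G) := by
    intro w
    obtain ⟨ρ, hρ, hw⟩ := w.2
    have h1 : (w₀⁻¹ * (w : G))⁻¹ * (π * ρ₀) * (w₀⁻¹ * (w : G)) = π * ρ := by
      rw [← hw₀, ← hw]
      group
    have h2 : IsPPart p ((w₀⁻¹ * (w : G))⁻¹ * (π * ρ₀) * (w₀⁻¹ * (w : G)))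
        ((w₀⁻¹ * (w : G))⁻¹ * π * (w₀⁻¹ * (w : G))) :=
      isPPart_conj (isPPart_mul_of_mem π k hπ K hKc hKcop hρ₀) _
    rw [h1] at h2
    have h3 : IsPPart p (π * ρ) π := isPPart_mul_of_mem π k hπ K hKc hKcop hρ
    have h4 : (w₀⁻¹ * (w : G))⁻¹ * π * (w₀⁻¹ * (w : G)) = π :=
      Cfsg.Agent.H84.isPPart_unique hp h2 h3
    rw [Subgroup.mem_centralizer_singleton_iff]
    calc w₀⁻¹ * (w : G) * π
        = w₀⁻¹ * (w : G) * ((w₀⁻¹ * (w : G))⁻¹ * π * (w₀⁻¹ * (w : G))) := by rw [h4]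
      _ = π * (w₀⁻¹ * (w : G)) := by group
  symm
  exact Nat.card_congr
    { toFun := fun c => ⟨w₀ * (c : G), hfwd c⟩
      invFun := fun w => ⟨w₀⁻¹ * (w : G), hbwd w⟩
      left_inv := fun c => Subtype.ext (inv_mul_cancel_left w₀ (c : G))
      right_inv := fun w => Subtype.ext (mul_inv_cancel_left w₀ (w : G)) }

omit [Finite G] in
/-- Double counting of the pairs `(g, w)` with `w⁻¹ g w ∈ π K`. -/
theorem sum_card_section [Fintype G] (π : G) (K : Subgroup G) :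
    ∑ g : G, Nat.card {w : G // ∃ ρ ∈ K, w⁻¹ * g * w = π * ρ} = Nat.card G * Nat.card K := by
  classical
  have h1 : ∀ w : G, Nat.card {g : G // ∃ ρ ∈ K, w⁻¹ * g * w = π * ρ} = Nat.card K := by
    intro w
    symm
    exact Nat.card_congr
      { toFun := fun ρ => ⟨w * (π * (ρ : G)) * w⁻¹, ρ, ρ.2, by group⟩
        invFun := fun g => ⟨π⁻¹ * (w⁻¹ * (g : G) * w), by
          obtain ⟨ρ, hρ, hg⟩ := g.2
          rw [hg, inv_mul_cancel_left]
          exact hρ⟩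
        left_inv := fun ρ => Subtype.ext (by
          show π⁻¹ * (w⁻¹ * (w * (π * (ρ : G)) * w⁻¹) * w) = ρ
          group)
        right_inv := fun g => Subtype.ext (by
          show w * (π * (π⁻¹ * (w⁻¹ * (g : G) * w))) * w⁻¹ = g
          group) }
  rw [← Nat.card_sigma,
    Nat.card_congr (Equiv.subtypeProdEquivSigmaSubtype
      (fun g w : G => ∃ ρ ∈ K, w⁻¹ * g * w = π * ρ)).symm,
    Nat.card_congr ((Equiv.prodComm G G).subtypeEquiv
      (p := fun q : G × G => ∃ ρ ∈ K, q.2⁻¹ * q.1 * q.2 = π * ρ)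
      (q := fun q : G × G => ∃ ρ ∈ K, q.1⁻¹ * q.2 * q.1 = π * ρ) (fun q => Iff.rfl)),
    Nat.card_congr (Equiv.subtypeProdEquivSigmaSubtype
      (fun w g : G => ∃ ρ ∈ K, w⁻¹ * g * w = π * ρ)),
    Nat.card_sigma, Finset.sum_congr rfl (fun w _ => h1 w), Finset.sum_const, Finset.card_univ,
    smul_eq_mul, ← Nat.card_eq_fintype_card]

/-- The sum over the group of the principal block sum. -/
theorem sum_theta [Fintype G] (p : ℕ) [Fact p.Prime] {M : Ideal AlgInt} (hM : IsPModular p M)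
    (π : G) :
    ∑ g : G, ∑ᶠ χ ∈ principalBlock M G, (χ : G → ℂ) g * (χ : G → ℂ) π⁻¹ =
      (Nat.card G : ℂ) := by
  classical
  letI := Cfsg.Agent.H4.fintypeIrr G
  have hMp := Cfsg.Agent.H20.isPrime_of_isPModular hM
  have hG0 : (Nat.card G : ℂ) ≠ 0 := by
    have := Nat.card_pos (α := G)
    exact_mod_cast this.ne'
  have h0 : ∀ g : G, ∑ᶠ χ ∈ principalBlock M G, (χ : G → ℂ) g * (χ : G → ℂ) π⁻¹ =
      ∑ χ : IrrCharacter G, if χ ∈ principalBlock M G then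
        (χ : G → ℂ) g * (χ : G → ℂ) π⁻¹ else 0 := fun g => Cfsg.Agent.H20.finsum_mem_irr _ _
  rw [Finset.sum_congr rfl (fun g _ => h0 g), Finset.sum_comm]
  have h1 : ∀ χ : IrrCharacter G,
      ∑ g : G, (if χ ∈ principalBlock M G then (χ : G → ℂ) g * (χ : G → ℂ) π⁻¹ else 0) =
        if χ = Cfsg.Agent.H80.trivChar G then (Nat.card G : ℂ) else 0 := by
    intro χ
    have hsum : ∑ g : G, (χ : G → ℂ) g =
        (Nat.card G : ℂ) * (if χ = Cfsg.Agent.H80.trivChar G then 1 else 0) := by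
      rw [← Cfsg.Agent.H4.irr_inner χ (Cfsg.Agent.H80.trivChar G)]
      unfold classInner
      rw [← mul_assoc, mul_inv_cancel₀ hG0, one_mul]
      apply Finset.sum_congr rfl
      intro g _
      rw [Cfsg.Agent.H80.trivChar_apply, map_one, mul_one]
    by_cases hB : χ ∈ principalBlock M G
    · simp only [if_pos hB]
      rw [← Finset.sum_mul, hsum]
      by_cases hχ : χ = Cfsg.Agent.H80.trivChar G
      · rw [if_pos hχ, if_pos hχ, hχ, Cfsg.Agent.H80.trivChar_apply, mul_one, mul_one]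
      · rw [if_neg hχ, if_neg hχ, mul_zero, zero_mul]
    · have hχ : χ ≠ Cfsg.Agent.H80.trivChar G := by
        rintro rfl
        exact hB (Cfsg.Agent.H80.trivChar_mem_principalBlock hMp)
      simp only [if_neg hB, if_neg hχ, Finset.sum_const_zero]
  rw [Finset.sum_congr rfl (fun χ _ => h1 χ), Finset.sum_ite_eq' Finset.univ
    (Cfsg.Agent.H80.trivChar G) (fun _ => (Nat.card G : ℂ)), if_pos (Finset.mem_univ _)]

/-- **S4482-TI.** -/
theorem section_indicator (p : ℕ) [Fact p.Prime] {M : Ideal AlgInt} (hM : IsPModular p M)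
    (π : G) (k : ℕ) (hπ : orderOf π = p ^ k) (K : Subgroup G)
    (hKc : K ≤ Subgroup.centralizer ({π} : Set G))
    (hKn : ∀ c ∈ Subgroup.centralizer ({π} : Set G), ∀ x ∈ K, c * x * c⁻¹ ∈ K)
    (hKcop : (Nat.card K).Coprime p)
    (hK : ∀ c ∈ Subgroup.centralizer ({π} : Set G), ¬ p ∣ orderOf c → c ∈ K) (g : G) :
    (∑ᶠ χ ∈ principalBlock M G, (χ : G → ℂ) g * (χ : G → ℂ) π⁻¹) * (Nat.card K : ℂ) =
      (Nat.card {w : G // ∃ ρ ∈ K, w⁻¹ * g * w = π * ρ} : ℂ) := by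
  classical
  letI : Fintype G := Fintype.ofFinite G
  obtain ⟨c₀, hc₀⟩ : ∃ c₀ : ℂ,
      c₀ = ∑ᶠ χ ∈ principalBlock M G, (χ : G → ℂ) π * (χ : G → ℂ) π⁻¹ := ⟨_, rfl⟩
  obtain ⟨Sec, hSec⟩ : ∃ Sec : Finset G,
      Sec = Finset.univ.filter (fun g => ∃ w : G, ∃ ρ ∈ K, w⁻¹ * g * w = π * ρ) := ⟨_, rfl⟩
  have hmem : ∀ g : G, g ∈ Sec ↔ ∃ w : G, ∃ ρ ∈ K, w⁻¹ * g * w = π * ρ := by
    intro g
    rw [hSec, Finset.mem_filter]
    exact ⟨fun h => h.2, fun h => ⟨Finset.mem_univ _, h⟩⟩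
  have hθ : ∀ g : G, ∑ᶠ χ ∈ principalBlock M G, (χ : G → ℂ) g * (χ : G → ℂ) π⁻¹ =
      if g ∈ Sec then c₀ else 0 := by
    intro g
    by_cases hg : g ∈ Sec
    · rw [if_pos hg, hc₀]
      obtain ⟨w, ρ, hρ, hw⟩ := (hmem g).1 hg
      exact theta_eq_const p hM π k hπ K hKc hKn hKcop g w ρ hρ hw
    · rw [if_neg hg]
      exact theta_eq_zero p hM π k hπ K hK g (fun h => hg ((hmem g).2 h))
  have hS : ∀ g : G, Nat.card {w : G // ∃ ρ ∈ K, w⁻¹ * g * w = π * ρ} =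
      if g ∈ Sec then Nat.card (Subgroup.centralizer ({π} : Set G)) else 0 := by
    intro g
    by_cases hg : g ∈ Sec
    · rw [if_pos hg]
      obtain ⟨w, ρ, hρ, hw⟩ := (hmem g).1 hg
      exact card_section_of_mem p π k hπ K hKc hKn hKcop g w ρ hρ hw
    · rw [if_neg hg]
      have : IsEmpty {w : G // ∃ ρ ∈ K, w⁻¹ * g * w = π * ρ} :=
        ⟨fun w => hg ((hmem g).2 ⟨w.1, w.2⟩)⟩
      exact Nat.card_of_isEmpty
  have e1 : c₀ * (Sec.card : ℂ) = (Nat.card G : ℂ) := by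
    rw [← sum_theta p hM π, Finset.sum_congr rfl (fun g _ => hθ g), Finset.sum_ite_mem,
      Finset.univ_inter, Finset.sum_const, nsmul_eq_mul, mul_comm]
  have e2 : Nat.card (Subgroup.centralizer ({π} : Set G)) * Sec.card =
      Nat.card G * Nat.card K := by
    rw [← sum_card_section π K, Finset.sum_congr rfl (fun g _ => hS g), Finset.sum_ite_mem,
      Finset.univ_inter, Finset.sum_const, smul_eq_mul, mul_comm]
  have hG0 : (Nat.card G : ℂ) ≠ 0 := by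
    have := Nat.card_pos (α := G)
    exact_mod_cast this.ne'
  have hSec0 : (Sec.card : ℂ) ≠ 0 := by
    intro h
    rw [h, mul_zero] at e1
    exact hG0 e1.symm
  have e2' : (Nat.card (Subgroup.centralizer ({π} : Set G)) : ℂ) * (Sec.card : ℂ) =
      (Nat.card G : ℂ) * (Nat.card K : ℂ) := by exact_mod_cast e2
  have e3 : c₀ * (Nat.card K : ℂ) = (Nat.card (Subgroup.centralizer ({π} : Set G)) : ℂ) := by
    apply mul_right_cancel₀ hSec0
    rw [e2', ← e1]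
    ring
  rw [hθ g, hS g]
  by_cases hg : g ∈ Sec
  · rw [if_pos hg, if_pos hg, e3]
  · rw [if_neg hg, if_neg hg, zero_mul, Nat.cast_zero]

end Cfsg.Agent.H4.Dih

section check
open Cfsg
universe u
variable {G : Type u} [Group G] [Finite G]
example (p : ℕ) [Fact p.Prime] {M : Ideal AlgInt} (hM : IsPModular p M)
    (π : G) (k : ℕ) (hπ : orderOf π = p ^ k) (K : Subgroup G)
    (hKc : K ≤ Subgroup.centralizer ({π} : Set G))
    (hKn : ∀ c ∈ Subgroup.centralizer ({π} : Set G), ∀ x ∈ K, c * x * c⁻¹ ∈ K)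
    (hKcop : (Nat.card K).Coprime p)
    (hK : ∀ c ∈ Subgroup.centralizer ({π} : Set G), ¬ p ∣ orderOf c → c ∈ K) (g : G) :
    (∑ᶠ χ ∈ principalBlock M G, (χ : G → ℂ) g * (χ : G → ℂ) π⁻¹) * (Nat.card K : ℂ) =
      (Nat.card {w : G // ∃ ρ ∈ K, w⁻¹ * g * w = π * ρ} : ℂ) :=
  Cfsg.Agent.H4.Dih.section_indicator p hM π k hπ K hKc hKn hKcop hK g
end check
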