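import Cfsg.Agent.H21.BRDefs
import Cfsg.Agent.H21.BRSplit
import Cfsg.Agent.H21.BRMDefs
import Cfsg.Agent.H16.BRTypeA

/-!
# BRM-FIX (for helper21, S0996 + S4700)

The number of Sylow `p`-subgroups normalized by an element `s ∈ N(P) \ P` is `n + 1`
(the permutation character on the Sylow `p`-subgroups is `1 + Σ_{ψ outside} (ψ(1)/p) ψ`).
-/

set_option autoImplicit false

namespace Cfsg.Agent.H4.BRM

open Cfsg Cfsg.Agent.H21.BR Cfsg.Agent.H16.BR
open scoped ComplexConjugate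

/-- A sum over a subgroup of a function supported on a smaller subgroup. -/
theorem sum_subgroup_support {G : Type*} [Group G] [Fintype G] (N P : Subgroup G) [Fintype N]
    [Fintype P] (hPN : P ≤ N) (F : G → ℂ) (hF : ∀ g ∈ N, g ∉ P → F g = 0) :
    ∑ h : N, F h = ∑ x : P, F x := by
  rw [← Cfsg.Agent.H4.sum_extendByZero N (fun h : N => F h),
    ← Cfsg.Agent.H4.sum_extendByZero P (fun x : P => F x)]
  apply Finset.sum_congr rfl
  intro g _
  by_cases hgP : g ∈ P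
  · rw [Cfsg.Agent.H4.extendByZero_of_mem N _ (hPN hgP),
      Cfsg.Agent.H4.extendByZero_of_mem P _ hgP]
  · rw [Cfsg.Agent.H4.extendByZero_of_not_mem P _ hgP]
    by_cases hgN : g ∈ N
    · rw [Cfsg.Agent.H4.extendByZero_of_mem N _ hgN]
      exact hF g hgN hgP
    · exact Cfsg.Agent.H4.extendByZero_of_not_mem N _ hgN

/-- The permutation character on the Sylow `p`-subgroups counts the normalized ones. -/
theorem indFun_one_sylow {G : Type*} [Group G] [Fintype G] (p : ℕ) [Fact p.Prime]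
    (P : Sylow p G) (g : G) :
    indFun (Subgroup.normalizer ((P : Subgroup G) : Set G)) (fun _ => (1 : ℂ)) g
      = (Nat.card {Q : Sylow p G // g ∈ Subgroup.normalizer ((Q : Subgroup G) : Set G)} : ℂ) := by
  classical
  have : Fintype (Sylow p G) := Fintype.ofFinite _
  obtain ⟨N, hNdef⟩ : ∃ N : Subgroup G, N = Subgroup.normalizer ((P : Subgroup G) : Set G) :=
    ⟨_, rfl⟩
  rw [← hNdef]
  have hNpos : (Nat.card N : ℂ) ≠ 0 := by exact_mod_cast (Nat.card_pos (α := N)).ne'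
  have hmem : ∀ (Q : Sylow p G) (y : G),
      y ∈ Subgroup.normalizer ((Q : Subgroup G) : Set G) ↔ y • Q = Q :=
    fun Q y => Sylow.smul_eq_iff_mem_normalizer.symm
  rw [Cfsg.Agent.H4.indFun_apply]
  have h1 : ∀ x : G, extendByZero N (fun _ => (1 : ℂ)) (x⁻¹ * g * x)
      = if g • (x • P) = x • P then 1 else 0 := by
    intro x
    have hiff : x⁻¹ * g * x ∈ N ↔ g • (x • P) = x • P := by
      rw [hNdef, hmem P, mul_smul, mul_smul, inv_smul_eq_iff]
    by_cases hx : g • (x • P) = x • P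
    · rw [if_pos hx, Cfsg.Agent.H4.extendByZero_of_mem N _ (hiff.mpr hx)]
    · rw [if_neg hx, Cfsg.Agent.H4.extendByZero_of_not_mem N _ (fun h' => hx (hiff.mp h'))]
  rw [Finset.sum_congr rfl (fun x _ => h1 x)]
  have h2 : ∀ x : G, (if g • (x • P) = x • P then (1 : ℂ) else 0)
      = ∑ Q : Sylow p G, if x • P = Q then (if g • Q = Q then (1 : ℂ) else 0) else 0 := by
    intro x
    rw [Finset.sum_ite_eq]
    simp
  rw [Finset.sum_congr rfl (fun x _ => h2 x), Finset.sum_comm]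
  have h3 : ∀ Q : Sylow p G,
      ∑ x : G, (if x • P = Q then (if g • Q = Q then (1 : ℂ) else 0) else 0)
        = (Nat.card N : ℂ) * (if g • Q = Q then 1 else 0) := by
    intro Q
    rw [← Finset.sum_filter, Finset.sum_const, nsmul_eq_mul]
    congr 1
    obtain ⟨y, hy⟩ := MulAction.exists_smul_eq G P Q
    have h4 : (Finset.univ.filter (fun x : G => x • P = Q)).card = Nat.card N := by
      rw [← Fintype.card_subtype, ← Nat.card_eq_fintype_card]
      apply Nat.card_congr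
      exact (Equiv.mulLeft y⁻¹).subtypeEquiv (fun x => by
        show x • P = Q ↔ (y⁻¹ * x) ∈ N
        rw [hNdef, hmem P, mul_smul, inv_smul_eq_iff, hy])
    exact_mod_cast h4
  rw [Finset.sum_congr rfl (fun Q _ => h3 Q), ← Finset.mul_sum, ← mul_assoc,
    inv_mul_cancel₀ hNpos, one_mul, Finset.sum_boole]
  congr 1
  rw [← Fintype.card_subtype, ← Nat.card_eq_fintype_card]
  apply Nat.card_congr
  exact Equiv.subtypeEquivRight (fun Q => (hmem Q g).symm)

set_option linter.unusedVariables false in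
theorem fix_count {G : Type*} [Group G] [Finite G] (p : ℕ) [Fact p.Prime] (hp2 : p ≠ 2)
    (P : Sylow p G) (hP : Nat.card (P : Subgroup G) = p)
    (e n : ℕ) (hN : Nat.card (Subgroup.normalizer ((P : Subgroup G) : Set G)) = p * e)
    (hnp : Nat.card (Sylow p G) = 1 + n * p)
    (X Y : Finset (IrrCharacter G)) (δ : IrrCharacter G → ℤ) (ε : ℤ)
    (h : B0Data p (P : Subgroup G) e X Y δ ε)
    (Z : Finset (IrrCharacter G)) (hZ : ∀ ψ, ψ ∈ Z ↔ ψ ∉ X ∧ ψ ∉ Y)
    (hsq : ∑ ψ ∈ Z, charDegree (ψ : G → ℂ) ^ 2 = p ^ 2 * n)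
    (hout : ∀ g ∈ Subgroup.normalizer ((P : Subgroup G) : Set G), g ∉ (P : Subgroup G) →
      ∀ ψ ∈ Z, (charDegree (ψ : G → ℂ) : ℂ) = (p : ℂ) * (ψ : G → ℂ) g)
    (s : G) (hsN : s ∈ Subgroup.normalizer ((P : Subgroup G) : Set G))
    (hsP : s ∉ (P : Subgroup G)) :
    Nat.card {Q : Sylow p G // s ∈ Subgroup.normalizer ((Q : Subgroup G) : Set G)} = n + 1 := by
  classical
  have : Fintype G := Fintype.ofFinite G
  have hp : p.Prime := Fact.out
  have hp0 : 0 < p := hp.pos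
  have hpC : (p : ℂ) ≠ 0 := by exact_mod_cast hp0.ne'
  obtain ⟨N, hNdef⟩ : ∃ N : Subgroup G, N = Subgroup.normalizer ((P : Subgroup G) : Set G) :=
    ⟨_, rfl⟩
  rw [← hNdef] at hN hout hsN
  have : Fintype N := Fintype.ofFinite N
  have : Fintype (P : Subgroup G) := Fintype.ofFinite _
  have hPN : (P : Subgroup G) ≤ N := by
    rw [hNdef]
    exact Subgroup.le_normalizer
  have hNC : (Nat.card N : ℂ) ≠ 0 := by exact_mod_cast (Nat.card_pos (α := N)).ne'
  -- the permutation character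
  obtain ⟨π, hπ⟩ : ∃ π : G → ℂ, π = indFun N (fun _ => (1 : ℂ)) := ⟨_, rfl⟩
  have hπval : ∀ g : G, π g = (Nat.card {Q : Sylow p G //
      g ∈ Subgroup.normalizer ((Q : Subgroup G) : Set G)} : ℂ) := by
    intro g
    rw [hπ, hNdef]
    exact indFun_one_sylow p P g
  have hπchar : IsCharacter G π := by
    rw [hπ]
    exact Cfsg.Agent.H4.isCharacter_indFun N _
      (Cfsg.Agent.H4.isCharacter_of_isIrrCharacter Cfsg.Agent.H4.isIrrCharacter_one)
  obtain ⟨m, hm⟩ := Cfsg.Agent.H4.isCharacter_iff.mp hπchar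
  have hexp : ∀ g : G, π g = ∑ᶠ ψ : IrrCharacter G, (m ψ : ℂ) * (ψ : G → ℂ) g := by
    intro g
    rw [← Cfsg.Agent.H4.finsum_irr_apply, ← hm]
  have hmval : ∀ ψ : IrrCharacter G,
      (m ψ : ℂ) = (Nat.card N : ℂ)⁻¹ * ∑ h : N, conj ((ψ : G → ℂ) h) := by
    intro ψ
    have h1 := Cfsg.Agent.H4.classInner_finsum_irr (fun χ => (m χ : ℂ)) ψ
    rw [← hm, hπ, Cfsg.Agent.H4.frobenius_reciprocity N _ ψ.1
      (Cfsg.Agent.H4.irr_isClassFunction ψ)] at h1
    rw [← h1]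
    unfold classInner
    congr 1
    apply Finset.sum_congr rfl
    intro x _
    rw [one_mul]
  have hm1 : m (one G) = 1 := by
    have h1 := hmval (one G)
    have h2 : ∑ x : N, conj ((one G : G → ℂ) x) = (Nat.card N : ℂ) := by
      have h3 : ∀ x : N, conj ((one G : G → ℂ) x) = 1 := fun x => map_one _
      rw [Finset.sum_congr rfl (fun x _ => h3 x), Finset.sum_const, Finset.card_univ,
        nsmul_eq_mul, mul_one, Nat.card_eq_fintype_card]
    rw [h2, inv_mul_cancel₀ hNC] at h1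
    exact_mod_cast h1
  have hu : ∀ ψ ∈ Z, ∃ u : ℕ, charDegree (ψ : G → ℂ) = p * u := fun ψ hψ =>
    h.out_dvd ψ ((hZ ψ).mp hψ).1 ((hZ ψ).mp hψ).2
  have hmZ : ∀ ψ ∈ Z, ∀ u : ℕ, charDegree (ψ : G → ℂ) = p * u →
      m ψ = u ∧ ∀ g ∈ N, g ∉ (P : Subgroup G) → (ψ : G → ℂ) g = u := by
    intro ψ hψ u hdeg
    have hval : ∀ g ∈ N, g ∉ (P : Subgroup G) → (ψ : G → ℂ) g = u := by
      intro g hg hgP
      have h1 := hout g hg hgP ψ hψ
      rw [hdeg, Nat.cast_mul] at h1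
      exact (mul_left_cancel₀ hpC h1).symm
    refine ⟨?_, hval⟩
    have h1 := hmval ψ
    have h2 : ∑ x : N, (conj ((ψ : G → ℂ) x) - (u : ℂ))
        = ∑ x : (P : Subgroup G), (conj ((ψ : G → ℂ) x) - (u : ℂ)) :=
      sum_subgroup_support N (P : Subgroup G) hPN (fun g => conj ((ψ : G → ℂ) g) - (u : ℂ))
        (fun g hg hgP => by
          show conj ((ψ : G → ℂ) g) - (u : ℂ) = 0
          rw [hval g hg hgP, Complex.conj_natCast, sub_self])
    have h3 : ∑ x : (P : Subgroup G), (conj ((ψ : G → ℂ) x) - (u : ℂ)) = 0 := by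
      have h4 := psum_const (P : Subgroup G) p hp0 hP
        (fun g => conj ((ψ : G → ℂ) g) - (u : ℂ)) (-(u : ℂ)) (fun x hx hx1 => by
          show conj ((ψ : G → ℂ) x) - (u : ℂ) = -(u : ℂ)
          rw [h.out_van ψ ((hZ ψ).mp hψ).1 ((hZ ψ).mp hψ).2 x hx hx1, map_zero, zero_sub])
      rw [finsum_eq_sum_of_fintype] at h4
      rw [h4]
      show conj ((ψ : G → ℂ) 1) - (u : ℂ) + ((p : ℂ) - 1) * -(u : ℂ) = 0
      rw [irr_one_cast, hdeg, Complex.conj_natCast]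
      push_cast
      ring
    rw [h3, Finset.sum_sub_distrib, Finset.sum_const, Finset.card_univ, nsmul_eq_mul,
      ← Nat.card_eq_fintype_card, sub_eq_zero] at h2
    rw [h2, ← mul_assoc, inv_mul_cancel₀ hNC, one_mul] at h1
    exact_mod_cast h1
  -- the degree count
  have hπ1 : π 1 = ((1 + n * p : ℕ) : ℂ) := by
    rw [hπval 1, ← hnp]
    congr 1
    apply Nat.card_congr
    exact Equiv.subtypeUnivEquiv (fun Q => Subgroup.one_mem _)
  have hZsum : ∑ ψ ∈ Z, m ψ * charDegree (ψ : G → ℂ) = p * n := by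
    have h2 : p * ∑ ψ ∈ Z, m ψ * charDegree (ψ : G → ℂ) = p * (p * n) := by
      rw [Finset.mul_sum, ← (show p ^ 2 * n = p * (p * n) by ring), ← hsq]
      apply Finset.sum_congr rfl
      intro ψ hψ
      obtain ⟨u, hu'⟩ := hu ψ hψ
      rw [(hmZ ψ hψ u hu').1, hu']
      ring
    exact Nat.eq_of_mul_eq_mul_left hp0 h2
  have hcast : ∀ S : Finset (IrrCharacter G), ∑ χ ∈ S, (m χ : ℂ) * (χ : G → ℂ) 1
      = ((∑ χ ∈ S, m χ * charDegree (χ : G → ℂ) : ℕ) : ℂ) := by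
    intro S
    rw [Nat.cast_sum]
    apply Finset.sum_congr rfl
    intro χ _
    rw [irr_one_cast, Nat.cast_mul]
  have hone : ∀ g : G, (one G : G → ℂ) g = 1 := fun _ => rfl
  have hzero : ∀ S : Finset (IrrCharacter G), ∑ χ ∈ S, m χ * charDegree (χ : G → ℂ) = 0 →
      ∀ χ ∈ S, m χ = 0 := by
    intro S hS χ hχ
    have h1 := (Finset.sum_eq_zero_iff.mp hS) χ hχ
    rcases Nat.mul_eq_zero.mp h1 with h2 | h2
    · exact h2
    · exact absurd h2 (irr_deg_pos χ).ne'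
  have h1 := hexp 1
  rw [sum_split h Z hZ, hπ1, hm1, hcast, hcast, hcast, hcast, hZsum, hone] at h1
  have h5 : 1 + n * p = 1 * 1 + ∑ χ ∈ plusSet X δ, m χ * charDegree (χ : G → ℂ)
      + ∑ χ ∈ minusSet X δ, m χ * charDegree (χ : G → ℂ)
      + ∑ χ ∈ Y, m χ * charDegree (χ : G → ℂ) + p * n := by exact_mod_cast h1
  have h6 : n * p = p * n := Nat.mul_comm n p
  have hm0p := hzero (plusSet X δ) (by omega)
  have hm0m := hzero (minusSet X δ) (by omega)
  have hm0y := hzero Y (by omega)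
  -- the value at `s`
  have hs := hexp s
  rw [sum_split h Z hZ, hm1, hone] at hs
  have hpl0 : ∑ χ ∈ plusSet X δ, (m χ : ℂ) * (χ : G → ℂ) s = 0 :=
    Finset.sum_eq_zero (fun χ hχ => by rw [hm0p χ hχ, Nat.cast_zero, zero_mul])
  have hmi0 : ∑ χ ∈ minusSet X δ, (m χ : ℂ) * (χ : G → ℂ) s = 0 :=
    Finset.sum_eq_zero (fun χ hχ => by rw [hm0m χ hχ, Nat.cast_zero, zero_mul])
  have hy0 : ∑ χ ∈ Y, (m χ : ℂ) * (χ : G → ℂ) s = 0 :=
    Finset.sum_eq_zero (fun χ hχ => by rw [hm0y χ hχ, Nat.cast_zero, zero_mul])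
  have hZs : ∑ ψ ∈ Z, (m ψ : ℂ) * (ψ : G → ℂ) s = (n : ℂ) := by
    have h2 : ∑ ψ ∈ Z, (m ψ : ℂ) * (ψ : G → ℂ) s = ((∑ ψ ∈ Z, m ψ * m ψ : ℕ) : ℂ) := by
      rw [Nat.cast_sum]
      apply Finset.sum_congr rfl
      intro ψ hψ
      obtain ⟨u, hu'⟩ := hu ψ hψ
      obtain ⟨h3, h4⟩ := hmZ ψ hψ u hu'
      rw [h4 s hsN hsP, h3, Nat.cast_mul]
    have h3 : ∑ ψ ∈ Z, m ψ * m ψ = n := by
      have h4 : p ^ 2 * ∑ ψ ∈ Z, m ψ * m ψ = p ^ 2 * n := by
        rw [Finset.mul_sum, ← hsq]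
        apply Finset.sum_congr rfl
        intro ψ hψ
        obtain ⟨u, hu'⟩ := hu ψ hψ
        rw [(hmZ ψ hψ u hu').1, hu']
        ring
      exact Nat.eq_of_mul_eq_mul_left (by positivity) h4
    rw [h2, h3]
  rw [hpl0, hmi0, hy0, hZs, hπval s] at hs
  have h7 : (Nat.card {Q : Sylow p G //
      s ∈ Subgroup.normalizer ((Q : Subgroup G) : Set G)} : ℂ) = ((n + 1 : ℕ) : ℂ) := by
    rw [hs]
    push_cast
    ring
  exact_mod_cast h7

section check

example {G : Type*} [Group G] [Finite G] (p : ℕ) [Fact p.Prime] (hp2 : p ≠ 2)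
    (P : Sylow p G) (hP : Nat.card (P : Subgroup G) = p)
    (e n : ℕ) (hN : Nat.card (Subgroup.normalizer ((P : Subgroup G) : Set G)) = p * e)
    (hnp : Nat.card (Sylow p G) = 1 + n * p)
    (X Y : Finset (IrrCharacter G)) (δ : IrrCharacter G → ℤ) (ε : ℤ)
    (h : B0Data p (P : Subgroup G) e X Y δ ε)
    (Z : Finset (IrrCharacter G)) (hZ : ∀ ψ, ψ ∈ Z ↔ ψ ∉ X ∧ ψ ∉ Y)
    (hsq : ∑ ψ ∈ Z, charDegree (ψ : G → ℂ) ^ 2 = p ^ 2 * n)
    (hout : ∀ g ∈ Subgroup.normalizer ((P : Subgroup G) : Set G), g ∉ (P : Subgroup G) →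
      ∀ ψ ∈ Z, (charDegree (ψ : G → ℂ) : ℂ) = (p : ℂ) * (ψ : G → ℂ) g)
    (s : G) (hsN : s ∈ Subgroup.normalizer ((P : Subgroup G) : Set G))
    (hsP : s ∉ (P : Subgroup G)) :
    Nat.card {Q : Sylow p G // s ∈ Subgroup.normalizer ((Q : Subgroup G) : Set G)} = n + 1 :=
  fix_count p hp2 P hP e n hN hnp X Y δ ε h Z hZ hsq hout s hsN hsP

end check

end Cfsg.Agent.H4.BRM
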