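import Cfsg.Agent.H2.PrqDefs
import Cfsg.Agent.H16.BRTypeA

/-!
# S0998-TYPEA (for helper2)

Generic "type A" (exceptional degree `e`, sign `+1`): `t = 2` and there is a non-exceptional
character of degree `p + 1`.  Adapted from helper16's `typeA_false`.
-/

set_option autoImplicit false

namespace Cfsg.Agent.H4.Prq

open Cfsg Cfsg.Agent.H21.BR Cfsg.Agent.H16.BR
open scoped ComplexConjugate

universe u

theorem typeA : Cfsg.Agent.H2.Prq.StmtTypeA.{u} := by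
  intro G _ _ p _ hp2 P hP hC e t het he2 ht2 X Y δ ε h hε hY hcolY hcolYsq
  classical
  have : Fintype G := Fintype.ofFinite G
  have hp : p.Prime := Fact.out
  have hp0 : 0 < p := hp.pos
  have hep : e ≤ p := by
    have : e * 1 ≤ e * t := Nat.mul_le_mul_left e (by omega)
    omega
  have hcardY : Y.card = t := card_Y h t het (by omega)
  subst hε
  obtain ⟨Z, hZ⟩ := exists_out X Y
  have hetC : (e : ℂ) * (t : ℂ) = (p : ℂ) - 1 := by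
    rw [← Nat.cast_mul, het, Nat.cast_sub hp.one_le, Nat.cast_one]
  -- the sums over `P`
  have hS_one : ∑ᶠ x : ↥(P : Subgroup G), (one G : G → ℂ) (x : G) = (p : ℂ) := by
    rw [psum_const (P : Subgroup G) p hp0 hP (one G : G → ℂ) 1 (fun _ _ _ => rfl)]
    show (1 : ℂ) + ((p : ℂ) - 1) * 1 = p
    ring
  have hw : ∀ θ' : IrrCharacter G, ∃ w : ℕ,
      ∑ᶠ x : ↥(P : Subgroup G), (θ' : G → ℂ) (x : G) = (p : ℂ) * (w : ℂ) := fun θ' =>
    psum_character_nat (P : Subgroup G) p hp0 hP _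
      (Cfsg.Agent.H4.isCharacter_of_isIrrCharacter θ'.2)
  choose w hw using hw
  have hw_plus : ∀ χ ∈ plusSet X δ, p * w χ = charDegree (χ : G → ℂ) + (p - 1) := by
    intro χ hχ
    have hχ' := mem_plusSet.mp hχ
    have h1 := psum_const (P : Subgroup G) p hp0 hP (χ : G → ℂ) 1 (fun x hx hx1 => by
      rw [h.val_X χ hχ'.1 x hx hx1, hχ'.2.2]; norm_num)
    rw [hw χ, irr_one_cast] at h1
    have h2 : ((p * w χ : ℕ) : ℂ) = ((charDegree (χ : G → ℂ) + (p - 1) : ℕ) : ℂ) := by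
      push_cast [Nat.cast_sub hp.one_le]
      rw [h1]
      ring
    exact Nat.cast_injective h2
  have hw_minus : ∀ χ ∈ minusSet X δ, p * w χ + (p - 1) = charDegree (χ : G → ℂ) := by
    intro χ hχ
    have hχ' := mem_minusSet.mp hχ
    have h1 := psum_const (P : Subgroup G) p hp0 hP (χ : G → ℂ) (-1) (fun x hx hx1 => by
      rw [h.val_X χ hχ'.1 x hx hx1, hχ'.2]; norm_num)
    rw [hw χ, irr_one_cast] at h1
    have h2 : ((p * w χ + (p - 1) : ℕ) : ℂ) = ((charDegree (χ : G → ℂ) : ℕ) : ℂ) := by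
      push_cast [Nat.cast_sub hp.one_le]
      rw [h1]
      ring
    exact Nat.cast_injective h2
  have hS_Z : ∀ ψ ∈ Z, ∑ᶠ x : ↥(P : Subgroup G), (ψ : G → ℂ) (x : G) =
      (charDegree (ψ : G → ℂ) : ℂ) := by
    intro ψ hψ
    rw [psum_const (P : Subgroup G) p hp0 hP (ψ : G → ℂ) 0 (fun x hx hx1 =>
      h.out_van ψ ((hZ ψ).mp hψ).1 ((hZ ψ).mp hψ).2 x hx hx1), irr_one_cast]
    ring
  have hS_Y : ∀ θ' ∈ Y, ∑ᶠ x : ↥(P : Subgroup G), (θ' : G → ℂ) (x : G) = 0 := by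
    have h1 := psum_finset_const (P : Subgroup G) p hp0 hP Y (fun θ' => (θ' : G → ℂ))
      (-((1 : ℤ) : ℂ)) hcolY
    have h2 : ∑ θ' ∈ Y, (θ' : G → ℂ) 1 = (t : ℂ) * e := by
      rw [← hcardY, Finset.sum_congr rfl (fun θ' hθ' => by rw [irr_one_cast, hY θ' hθ']),
        Finset.sum_const, nsmul_eq_mul]
    rw [h2, Finset.sum_congr rfl (fun θ' _ => hw θ'), ← Finset.mul_sum] at h1
    have h3 : (p : ℂ) * ∑ θ' ∈ Y, (w θ' : ℂ) = 0 := by
      rw [h1]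
      push_cast
      linear_combination hetC
    have h4 : ∑ θ' ∈ Y, (w θ' : ℂ) = 0 := by
      rcases mul_eq_zero.mp h3 with h5 | h5
      · exact absurd h5 (by exact_mod_cast hp0.ne')
      · exact h5
    have h5 : ∑ θ' ∈ Y, w θ' = 0 := by exact_mod_cast h4
    intro θ' hθ'
    rw [hw θ', (Finset.sum_eq_zero_iff.mp h5) θ' hθ']
    simp
  -- decomposition of `θ * conj θ`
  have hdec : ∀ θ : IrrCharacter G, ∃ m : IrrCharacter G → ℕ,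
      ((θ : G → ℂ) * fun g => conj ((θ : G → ℂ) g)) =
        ∑ᶠ ψ : IrrCharacter G, (m ψ : ℂ) • (ψ : G → ℂ) := fun θ =>
    Cfsg.Agent.H4.isCharacter_iff.mp (Cfsg.Agent.H4.isCharacter_mul
      (Cfsg.Agent.H4.isCharacter_of_isIrrCharacter θ.2)
      (Cfsg.Agent.H4.isCharacter_conj (Cfsg.Agent.H4.isCharacter_of_isIrrCharacter θ.2)))
  choose m hm using hdec
  have hstar : ∀ (θ : IrrCharacter G) (g : G), (θ : G → ℂ) g * conj ((θ : G → ℂ) g) =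
      ∑ᶠ ψ : IrrCharacter G, (m θ ψ : ℂ) * (ψ : G → ℂ) g := by
    intro θ g
    rw [← Cfsg.Agent.H4.finsum_irr_apply, ← hm θ]
    rfl
  have hm1 : ∀ θ : IrrCharacter G, m θ (one G) = 1 := by
    intro θ
    have h1 := Cfsg.Agent.H4.classInner_finsum_irr (fun ψ => (m θ ψ : ℂ)) (one G)
    rw [← hm θ] at h1
    have h2 : classInner ((θ : G → ℂ) * fun g => conj ((θ : G → ℂ) g)) (one G).1 =
        classInner θ.1 θ.1 := by
      unfold classInner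
      congr 1
      apply Finset.sum_congr rfl
      intro g _
      show θ.1 g * conj (θ.1 g) * conj (1 : ℂ) = θ.1 g * conj (θ.1 g)
      rw [map_one, mul_one]
    rw [h2, Cfsg.Agent.H4.irr_inner_self] at h1
    exact_mod_cast h1.symm
  -- the multiplicity sums
  obtain ⟨Mp, hMp⟩ : ∃ Mp : IrrCharacter G → ℕ, ∀ θ, Mp θ = ∑ χ ∈ plusSet X δ, m θ χ :=
    ⟨_, fun _ => rfl⟩
  obtain ⟨Mm, hMm⟩ : ∃ Mm : IrrCharacter G → ℕ, ∀ θ, Mm θ = ∑ χ ∈ minusSet X δ, m θ χ :=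
    ⟨_, fun _ => rfl⟩
  obtain ⟨Ap, hAp⟩ : ∃ Ap : IrrCharacter G → ℕ,
      ∀ θ, Ap θ = ∑ χ ∈ plusSet X δ, m θ χ * (p * w χ) := ⟨_, fun _ => rfl⟩
  obtain ⟨Ad, hAd⟩ : ∃ Ad : IrrCharacter G → ℕ,
      ∀ θ, Ad θ = ∑ χ ∈ plusSet X δ, m θ χ * charDegree (χ : G → ℂ) := ⟨_, fun _ => rfl⟩
  obtain ⟨Bp, hBp⟩ : ∃ Bp : IrrCharacter G → ℕ,
      ∀ θ, Bp θ = ∑ χ ∈ minusSet X δ, m θ χ * (p * w χ) := ⟨_, fun _ => rfl⟩
  obtain ⟨Bd, hBd⟩ : ∃ Bd : IrrCharacter G → ℕ,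
      ∀ θ, Bd θ = ∑ χ ∈ minusSet X δ, m θ χ * charDegree (χ : G → ℂ) := ⟨_, fun _ => rfl⟩
  obtain ⟨E, hE⟩ : ∃ E : IrrCharacter G → ℕ, ∀ θ, E θ = ∑ θ' ∈ Y, m θ θ' :=
    ⟨_, fun _ => rfl⟩
  obtain ⟨O, hO⟩ : ∃ O : IrrCharacter G → ℕ,
      ∀ θ, O θ = ∑ ψ ∈ Z, m θ ψ * charDegree (ψ : G → ℂ) := ⟨_, fun _ => rfl⟩
  have hApd : ∀ θ, Ap θ = Ad θ + Mp θ * (p - 1) := by
    intro θ
    rw [hAp, hAd, hMp, Finset.sum_mul, ← Finset.sum_add_distrib]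
    apply Finset.sum_congr rfl
    intro χ hχ
    rw [hw_plus χ hχ, Nat.mul_add]
  have hBpd : ∀ θ, Bp θ + Mm θ * (p - 1) = Bd θ := by
    intro θ
    rw [hBp, hBd, hMm, Finset.sum_mul, ← Finset.sum_add_distrib]
    apply Finset.sum_congr rfl
    intro χ hχ
    rw [← hw_minus χ hχ, Nat.mul_add]
  have hAk : ∀ k : ℕ, (∀ χ ∈ plusSet X δ, k ≤ w χ) → ∀ θ, Mp θ * (p * k) ≤ Ap θ := by
    intro k hk θ
    rw [hAp, hMp, Finset.sum_mul]
    apply Finset.sum_le_sum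
    intro χ hχ
    exact Nat.mul_le_mul_left _ (Nat.mul_le_mul_left _ (hk χ hχ))
  -- degrees
  have hdeg : ∀ θ ∈ Y, e * e = 1 + Ad θ + Bd θ + E θ * e + O θ := by
    intro θ hθ
    have h1 := hstar θ 1
    rw [sum_split h Z hZ, irr_one_cast, hY θ hθ, Complex.conj_natCast, hm1 θ] at h1
    have hpl : ∑ χ ∈ plusSet X δ, (m θ χ : ℂ) * (χ : G → ℂ) 1 = ((Ad θ : ℕ) : ℂ) := by
      rw [hAd, Nat.cast_sum]
      apply Finset.sum_congr rfl
      intro χ _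
      rw [irr_one_cast, Nat.cast_mul]
    have hmi : ∑ χ ∈ minusSet X δ, (m θ χ : ℂ) * (χ : G → ℂ) 1 = ((Bd θ : ℕ) : ℂ) := by
      rw [hBd, Nat.cast_sum]
      apply Finset.sum_congr rfl
      intro χ _
      rw [irr_one_cast, Nat.cast_mul]
    have hy : ∑ θ' ∈ Y, (m θ θ' : ℂ) * (θ' : G → ℂ) 1 = ((E θ * e : ℕ) : ℂ) := by
      rw [hE, Finset.sum_mul, Nat.cast_sum]
      apply Finset.sum_congr rfl
      intro θ' hθ'
      rw [irr_one_cast, hY θ' hθ', Nat.cast_mul]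
    have hz : ∑ ψ ∈ Z, (m θ ψ : ℂ) * (ψ : G → ℂ) 1 = ((O θ : ℕ) : ℂ) := by
      rw [hO, Nat.cast_sum]
      apply Finset.sum_congr rfl
      intro ψ _
      rw [irr_one_cast, Nat.cast_mul]
    rw [hpl, hmi, hy, hz] at h1
    have h2 : (one G : G → ℂ) 1 = 1 := rfl
    rw [h2] at h1
    exact_mod_cast h1
  -- sums over `P`
  have hsumP : ∀ θ ∈ Y, ∑ᶠ x : ↥(P : Subgroup G),
      (θ : G → ℂ) (x : G) * conj ((θ : G → ℂ) (x : G)) =
        ((p + Ap θ + Bp θ + O θ : ℕ) : ℂ) := by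
    intro θ hθ
    have h1 : (fun x : ↥(P : Subgroup G) =>
        (θ : G → ℂ) (x : G) * conj ((θ : G → ℂ) (x : G))) =
        fun x : ↥(P : Subgroup G) => ∑ᶠ ψ : IrrCharacter G, (m θ ψ : ℂ) * (ψ : G → ℂ) (x : G) :=
      funext (fun x => hstar θ x)
    rw [h1, psum_swap, sum_split h Z hZ, hS_one, hm1 θ]
    have hpl : ∑ χ ∈ plusSet X δ, (m θ χ : ℂ) *
        ∑ᶠ x : ↥(P : Subgroup G), (χ : G → ℂ) (x : G) = ((Ap θ : ℕ) : ℂ) := by
      rw [hAp, Nat.cast_sum]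
      apply Finset.sum_congr rfl
      intro χ _
      rw [hw χ, Nat.cast_mul, Nat.cast_mul]
    have hmi : ∑ χ ∈ minusSet X δ, (m θ χ : ℂ) *
        ∑ᶠ x : ↥(P : Subgroup G), (χ : G → ℂ) (x : G) = ((Bp θ : ℕ) : ℂ) := by
      rw [hBp, Nat.cast_sum]
      apply Finset.sum_congr rfl
      intro χ _
      rw [hw χ, Nat.cast_mul, Nat.cast_mul]
    have hy : ∑ θ' ∈ Y, (m θ θ' : ℂ) *
        ∑ᶠ x : ↥(P : Subgroup G), (θ' : G → ℂ) (x : G) = 0 :=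
      Finset.sum_eq_zero (fun θ' hθ' => by rw [hS_Y θ' hθ', mul_zero])
    have hz : ∑ ψ ∈ Z, (m θ ψ : ℂ) *
        ∑ᶠ x : ↥(P : Subgroup G), (ψ : G → ℂ) (x : G) = ((O θ : ℕ) : ℂ) := by
      rw [hO, Nat.cast_sum]
      apply Finset.sum_congr rfl
      intro ψ hψ
      rw [hS_Z ψ hψ, Nat.cast_mul]
    rw [hpl, hmi, hy, hz]
    push_cast
    ring
  -- (I)
  have hI : ((∑ θ ∈ Y, (p + Ap θ + Bp θ + O θ) : ℕ) : ℂ) =
      (t : ℂ) * e * e + ((p : ℂ) - 1) * ((p : ℂ) - e) := by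
    have h1 := psum_finset_const (P : Subgroup G) p hp0 hP Y
      (fun θ g => (θ : G → ℂ) g * conj ((θ : G → ℂ) g)) ((p : ℂ) - (e : ℂ)) hcolYsq
    rw [Finset.sum_congr rfl (fun θ hθ => hsumP θ hθ)] at h1
    have h2 : ∑ θ ∈ Y, (θ : G → ℂ) 1 * conj ((θ : G → ℂ) 1) = (t : ℂ) * e * e := by
      rw [← hcardY, Finset.sum_congr rfl (fun θ' hθ' => by
        rw [irr_one_cast, hY θ' hθ', Complex.conj_natCast]), Finset.sum_const, nsmul_eq_mul]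
      ring
    rw [h2] at h1
    rw [Nat.cast_sum]
    exact h1
  -- sums
  have hIn : ∑ θ ∈ Y, (p + Ap θ + Bp θ + O θ) =
      t * p + ∑ θ ∈ Y, Ap θ + ∑ θ ∈ Y, Bp θ + ∑ θ ∈ Y, O θ := by
    rw [Finset.sum_add_distrib, Finset.sum_add_distrib, Finset.sum_add_distrib,
      Finset.sum_const, hcardY, smul_eq_mul]
  have hII : t * (e * e) = t + ∑ θ ∈ Y, Ad θ + ∑ θ ∈ Y, Bd θ +
      (∑ θ ∈ Y, E θ) * e + ∑ θ ∈ Y, O θ := by
    have h1 : ∑ θ ∈ Y, e * e = ∑ θ ∈ Y, (1 + Ad θ + Bd θ + E θ * e + O θ) :=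
      Finset.sum_congr rfl hdeg
    rw [Finset.sum_const, hcardY, smul_eq_mul] at h1
    rw [h1, Finset.sum_add_distrib, Finset.sum_add_distrib, Finset.sum_add_distrib,
      Finset.sum_add_distrib, Finset.sum_const, hcardY, smul_eq_mul, mul_one, Finset.sum_mul]
  have hapd : ∑ θ ∈ Y, Ap θ = ∑ θ ∈ Y, Ad θ + (∑ θ ∈ Y, Mp θ) * (p - 1) := by
    rw [Finset.sum_mul, ← Finset.sum_add_distrib]
    exact Finset.sum_congr rfl (fun θ _ => hApd θ)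
  have hbpd : ∑ θ ∈ Y, Bp θ + (∑ θ ∈ Y, Mm θ) * (p - 1) = ∑ θ ∈ Y, Bd θ := by
    rw [Finset.sum_mul, ← Finset.sum_add_distrib]
    exact Finset.sum_congr rfl (fun θ _ => hBpd θ)
  have hak : ∀ k : ℕ, (∀ χ ∈ plusSet X δ, k ≤ w χ) →
      (∑ θ ∈ Y, Mp θ) * (p * k) ≤ ∑ θ ∈ Y, Ap θ := by
    intro k hk
    rw [Finset.sum_mul]
    exact Finset.sum_le_sum (fun θ _ => hAk k hk θ)
  rw [hIn] at hI
  -- pass to integers
  obtain ⟨a, ha⟩ : ∃ a : ℕ, a = ∑ θ ∈ Y, Mp θ := ⟨_, rfl⟩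
  obtain ⟨b, hb⟩ : ∃ b : ℕ, b = ∑ θ ∈ Y, Mm θ := ⟨_, rfl⟩
  obtain ⟨c, hc⟩ : ∃ c : ℕ, c = ∑ θ ∈ Y, E θ := ⟨_, rfl⟩
  obtain ⟨o, ho⟩ : ∃ o : ℕ, o = ∑ θ ∈ Y, O θ := ⟨_, rfl⟩
  obtain ⟨ap, hap⟩ : ∃ ap : ℕ, ap = ∑ θ ∈ Y, Ap θ := ⟨_, rfl⟩
  obtain ⟨ad, had⟩ : ∃ ad : ℕ, ad = ∑ θ ∈ Y, Ad θ := ⟨_, rfl⟩
  obtain ⟨bp, hbp⟩ : ∃ bp : ℕ, bp = ∑ θ ∈ Y, Bp θ := ⟨_, rfl⟩
  obtain ⟨bd, hbd⟩ : ∃ bd : ℕ, bd = ∑ θ ∈ Y, Bd θ := ⟨_, rfl⟩
  rw [← hap, ← hbp, ← ho] at hI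
  rw [← had, ← hbd, ← hc, ← ho] at hII
  rw [← hap, ← had, ← ha] at hapd
  rw [← hbp, ← hb, ← hbd] at hbpd
  rw [← ha, ← hap] at hak
  have hIz : ((t : ℤ) * p + ap + bp + o) = t * e * e + (p - 1) * (p - e) := by
    have h1 : (((t * p + ap + bp + o : ℕ) : ℤ) : ℂ) =
        ((((t : ℤ) * e * e + (p - 1) * (p - e)) : ℤ) : ℂ) := by
      push_cast
      push_cast at hI
      exact hI
    have h2 := Int.cast_injective h1
    push_cast at h2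
    exact h2
  have hIIz : ((t : ℤ) * (e * e)) = t + ad + bd + c * e + o := by
    have h1 : ((t * (e * e) : ℕ) : ℤ) = ((t + ad + bd + c * e + o : ℕ) : ℤ) := by rw [hII]
    push_cast at h1
    exact h1
  have hapz : (ap : ℤ) = ad + a * (p - 1) := by
    have h1 : ((ap : ℕ) : ℤ) = ((ad + a * (p - 1) : ℕ) : ℤ) := by rw [hapd]
    push_cast [Nat.cast_sub hp.one_le] at h1
    exact h1
  have hbpz : (bp : ℤ) + b * (p - 1) = bd := by
    have h1 : ((bp + b * (p - 1) : ℕ) : ℤ) = ((bd : ℕ) : ℤ) := by rw [hbpd]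
    push_cast [Nat.cast_sub hp.one_le] at h1
    exact h1
  have hakz : ∀ k : ℕ, (∀ χ ∈ plusSet X δ, k ≤ w χ) → (a : ℤ) * (p * k) ≤ ap := by
    intro k hk
    have h1 := hak k hk
    exact_mod_cast h1
  have hetz : (e : ℤ) * t = p - 1 := by
    have h1 : ((e * t : ℕ) : ℤ) = ((p - 1 : ℕ) : ℤ) := by rw [het]
    push_cast [Nat.cast_sub hp.one_le] at h1
    exact h1
  have he2z : (2 : ℤ) ≤ e := by exact_mod_cast he2
  have ht2z : (2 : ℤ) ≤ t := by exact_mod_cast ht2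
  have hb0 : (0 : ℤ) ≤ b := Int.natCast_nonneg b
  have hc0 : (0 : ℤ) ≤ c := Int.natCast_nonneg c
  have ho0 : (0 : ℤ) ≤ o := Int.natCast_nonneg o
  have hbp0 : (0 : ℤ) ≤ bp := Int.natCast_nonneg bp
  have hp0z : (0 : ℤ) < p := by exact_mod_cast hp0
  -- lower bound `(e - 1) * (t - 1) ≤ a`
  have h3 : ((p : ℤ) - 1) * (t + a - b - p + e) = c * e := by
    linear_combination hIz + hIIz - hapz - hbpz
  have h5 : (0 : ℤ) < p - 1 := by
    rw [← hetz]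
    positivity
  have h6 : (0 : ℤ) ≤ t + a - b - p + e := by
    by_contra hcon
    push Not at hcon
    have h7 := mul_neg_of_pos_of_neg h5 hcon
    rw [h3] at h7
    have h8 : (0 : ℤ) ≤ c * e := by positivity
    linarith
  have h7 : ((e : ℤ) - 1) * (t - 1) = p - e - t := by linear_combination hetz
  have hlow : ((e : ℤ) - 1) * (t - 1) ≤ a := by linarith
  -- upper bound
  have hup : ∀ k : ℕ, (∀ χ ∈ plusSet X δ, k ≤ w χ) → (a : ℤ) * k ≤ t * (e - 1) := by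
    intro k hk
    have h1 := hakz k hk
    have h8 : (t : ℤ) * p + ap + bp + o = p * (p - 1) := by
      rw [hIz]
      linear_combination (e : ℤ) * hetz
    have h9 : (p : ℤ) * (p - 1) - t * p = p * (t * (e - 1)) := by
      linear_combination (-(p : ℤ)) * hetz
    have h10 : (p : ℤ) * ((a : ℤ) * k) ≤ p * (t * (e - 1)) := by
      have h11 : (a : ℤ) * (p * k) = p * (a * k) := by ring
      linarith
    exact le_of_mul_le_mul_left h10 hp0z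
  have hw2 : ∀ χ ∈ plusSet X δ, 2 ≤ w χ := by
    intro χ hχ
    have h1 := hw_plus χ hχ
    have hχ' := mem_plusSet.mp hχ
    have h2 := h.two_le_X χ hχ'.1 hχ'.2.1
    by_contra hlt
    have h4 : p * w χ ≤ p * 1 := Nat.mul_le_mul_left p (by omega)
    have h8 : 1 ≤ p := hp.one_le
    omega
  have ht : t = 2 := by
    have h1 := hup 2 hw2
    push_cast at h1
    by_contra hne
    have ht3 : (3 : ℤ) ≤ t := by
      have h8 : 3 ≤ t := by omega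
      exact_mod_cast h8
    have h2 : (0 : ℤ) < ((e : ℤ) - 1) * (t - 2) := mul_pos (by linarith) (by linarith)
    linarith
  refine ⟨ht, ?_⟩
  by_contra hcon
  have hw3 : ∀ χ ∈ plusSet X δ, 3 ≤ w χ := by
    intro χ hχ
    have h1 := hw_plus χ hχ
    have h2 := hw2 χ hχ
    have h8 : charDegree (χ : G → ℂ) ≠ p + 1 := fun h' => hcon ⟨χ, hχ, h'⟩
    by_contra hlt
    have h4 : w χ = 2 := by omega
    rw [h4] at h1
    have h9 : 1 ≤ p := hp.one_le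
    omega
  have h1 := hup 3 hw3
  push_cast at h1
  have htz : (t : ℤ) = 2 := by exact_mod_cast ht
  rw [htz] at hlow h1
  linarith

section check

example : Cfsg.Agent.H2.Prq.StmtTypeA.{u} := typeA

end check

end Cfsg.Agent.H4.Prq
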