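import Cfsg.Agent.H21.BRDefs
import Cfsg.Agent.H21.BRSplit
import Cfsg.Agent.H21.BRMDefs
import Cfsg.Agent.H4.PrqTypeA

/-!
# BRM-TYPEA (for helper21, S0996 + S4700)

The generalised `typeA_false`: plus degree `1 + n p` with `n ≥ 2` is impossible in type A.
-/

set_option autoImplicit false

namespace Cfsg.Agent.H4.BRM

open Cfsg Cfsg.Agent.H21.BR
open scoped ComplexConjugate

set_option linter.unusedVariables false in
theorem typeA_false_nd {G : Type*} [Group G] [Finite G] (p : ℕ) [Fact p.Prime] (hp2 : p ≠ 2)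
    (P : Sylow p G) (hP : Nat.card (P : Subgroup G) = p)
    (hC : Subgroup.centralizer ((P : Subgroup G) : Set G) = (P : Subgroup G))
    (e t n : ℕ) (het : e * t = p - 1) (he2 : 2 ≤ e) (ht2 : 2 ≤ t) (hn2 : 2 ≤ n)
    (X Y : Finset (IrrCharacter G)) (δ : IrrCharacter G → ℤ) (ε : ℤ)
    (h : B0Data p (P : Subgroup G) e X Y δ ε)
    (hplus : ∀ χ ∈ plusSet X δ, charDegree (χ : G → ℂ) = 1 + n * p)
    (hminus : ∀ χ ∈ minusSet X δ, charDegree (χ : G → ℂ) = p - 1)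
    (hε : ε = 1) (hY : ∀ θ ∈ Y, charDegree (θ : G → ℂ) = e)
    (hcolY : ∀ x ∈ (P : Subgroup G), x ≠ 1 → ∑ θ ∈ Y, (θ : G → ℂ) x = -(ε : ℂ))
    (hcolYsq : ∀ x ∈ (P : Subgroup G), x ≠ 1 →
      ∑ θ ∈ Y, (θ : G → ℂ) x * conj ((θ : G → ℂ) x) = (p : ℂ) - (e : ℂ)) : False := by
  obtain ⟨-, χ, hχ, hdeg⟩ := Cfsg.Agent.H4.Prq.typeA G p hp2 P hP hC e t het he2 ht2 X Y δ ε h hε
    hY hcolY hcolYsq
  have h1 := hplus χ hχ
  rw [hdeg] at h1
  have hp0 : 0 < p := (Fact.out : p.Prime).pos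
  have h2 : 2 * p ≤ n * p := Nat.mul_le_mul_right p hn2
  omega

section check

example {G : Type*} [Group G] [Finite G] (p : ℕ) [Fact p.Prime] (hp2 : p ≠ 2)
    (P : Sylow p G) (hP : Nat.card (P : Subgroup G) = p)
    (hC : Subgroup.centralizer ((P : Subgroup G) : Set G) = (P : Subgroup G))
    (e t n : ℕ) (het : e * t = p - 1) (he2 : 2 ≤ e) (ht2 : 2 ≤ t) (hn2 : 2 ≤ n)
    (X Y : Finset (IrrCharacter G)) (δ : IrrCharacter G → ℤ) (ε : ℤ)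
    (h : B0Data p (P : Subgroup G) e X Y δ ε)
    (hplus : ∀ χ ∈ plusSet X δ, charDegree (χ : G → ℂ) = 1 + n * p)
    (hminus : ∀ χ ∈ minusSet X δ, charDegree (χ : G → ℂ) = p - 1)
    (hε : ε = 1) (hY : ∀ θ ∈ Y, charDegree (θ : G → ℂ) = e)
    (hcolY : ∀ x ∈ (P : Subgroup G), x ≠ 1 → ∑ θ ∈ Y, (θ : G → ℂ) x = -(ε : ℂ))
    (hcolYsq : ∀ x ∈ (P : Subgroup G), x ≠ 1 →
      ∑ θ ∈ Y, (θ : G → ℂ) x * conj ((θ : G → ℂ) x) = (p : ℂ) - (e : ℂ)) : False :=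
  typeA_false_nd p hp2 P hP hC e t n het he2 ht2 hn2 X Y δ ε h hplus hminus hε hY hcolY hcolYsq

end check

end Cfsg.Agent.H4.BRM
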