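import Mathlib
import Cfsg.Prelude.Def_Characters
import Cfsg.Agent.H4.IrrCount

/-!
# S3805 (TN project): column orthogonality as an inequality over a finset of irreducibles
-/

set_option autoImplicit false
set_option linter.style.haveILetI false

namespace Cfsg.Agent.H4.Tn

open scoped ComplexConjugate

universe u

/-- Column orthogonality, inequality form: for any finite set `s` of irreducible characters,
`∑_{χ ∈ s} |χ(g)|² ≤ |C_G(g)|`. -/
theorem col_le {G : Type u} [Group G] [Finite G] (s : Finset (IrrCharacter G)) (g : G) :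
    ∑ χ ∈ s, Complex.normSq (χ.1 g) ≤ (Nat.card {c : G // c * g * c⁻¹ = g} : ℝ) := by
  classical
  haveI : Fintype G := Fintype.ofFinite G
  letI := fintypeIrr G
  have h := column_orthogonality g g
  rw [finsum_irr_eq_sum] at h
  have h2 : ∑ χ : IrrCharacter G, Complex.normSq (χ.1 g) =
      (Nat.card {c : G // c * g * c⁻¹ = g} : ℝ) := by
    have h3 : ((∑ χ : IrrCharacter G, Complex.normSq (χ.1 g) : ℝ) : ℂ) =
        (Nat.card {c : G // c * g * c⁻¹ = g} : ℂ) := by
      rw [← h]
      push_cast
      refine Finset.sum_congr rfl fun χ _ => ?_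
      rw [Complex.mul_conj]
    exact_mod_cast h3
  rw [← h2]
  exact Finset.sum_le_sum_of_subset_of_nonneg (Finset.subset_univ s)
    (fun χ _ _ => Complex.normSq_nonneg _)

/-- The same for three distinct irreducible characters. -/
theorem col_le_three {G : Type u} [Group G] [Finite G] (χ₁ χ₂ χ₃ : IrrCharacter G)
    (h12 : χ₁ ≠ χ₂) (h13 : χ₁ ≠ χ₃) (h23 : χ₂ ≠ χ₃) (g : G) :
    Complex.normSq (χ₁.1 g) + Complex.normSq (χ₂.1 g) + Complex.normSq (χ₃.1 g) ≤
      (Nat.card {c : G // c * g * c⁻¹ = g} : ℝ) := by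
  classical
  have h := col_le ({χ₁, χ₂, χ₃} : Finset (IrrCharacter G)) g
  rw [Finset.sum_insert (by simp [h12, h13]), Finset.sum_insert (by simp [h23]),
    Finset.sum_singleton] at h
  linarith

end Cfsg.Agent.H4.Tn
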