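import Mathlib
import Cfsg.Prelude.Def_Characters
import Cfsg.Prelude.Def_Blocks
import Cfsg.Agent.H4.GalB0

/-!
# The count of S4553

`galois_fixed_count` : for `N = O^p(G)` with `G / N` cyclic and nontrivial, the number of
`σ`-fixed members of degree prime to `p` of the principal block of `G` is `p` times the number of
`P`-invariant `σ`-fixed members of degree prime to `p` of the principal block of `N`.
-/

set_option autoImplicit false
set_option linter.unusedSectionVars false
set_option linter.style.haveILetI false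

namespace Cfsg.Agent.H4

open Cfsg

universe u

section GalB0b

theorem galois_fixed_count {G : Type u} [Group G] [Finite G] (p : ℕ) [Fact p.Prime]
    (M : Ideal AlgInt) (hM : IsPModular p M) (P : Sylow p G) (N : Subgroup G) [hN : N.Normal]
    (hNres : N = pResidual p G) (hcyc : IsCyclic (G ⧸ N)) (hnt : N ≠ ⊤) (k : ℕ)
    (hk₁ : ∀ g : G, (∃ j : ℕ, orderOf g = p ^ j) → g ^ k = g ^ (1 + p))
    (hk₂ : ∀ g : G, Nat.Coprime (orderOf g) p → g ^ k = g) :
    Nat.card {χ : IrrCharacter G // χ ∈ principalBlock M G ∧ ¬ p ∣ charDegree (χ : G → ℂ) ∧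
        ∀ g : G, (χ : G → ℂ) (g ^ k) = (χ : G → ℂ) g} =
      p * Nat.card {θ : IrrCharacter ↥N // θ ∈ principalBlock M ↥N ∧
        ¬ p ∣ charDegree (θ : ↥N → ℂ) ∧
        (∀ x ∈ (P : Subgroup G), ∀ n : ↥N,
          (θ : ↥N → ℂ) ⟨x * n * x⁻¹, hN.conj_mem n n.2 x⟩ = (θ : ↥N → ℂ) n) ∧
        ∀ n : ↥N, (θ : ↥N → ℂ) (n ^ k) = (θ : ↥N → ℂ) n} := by
  classical
  letI : Fintype G := Fintype.ofFinite G
  letI : Fintype N := Fintype.ofFinite N
  have hp : p.Prime := Fact.out
  have hquot : IsPGroup p (G ⧸ N) := by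
    subst hNres
    exact H2.isPGroup_quotient_pResidual p
  obtain ⟨m, hm⟩ := IsPGroup.iff_card.mp hquot
  have hidx : N.index = p ^ m := by
    rw [Subgroup.index_eq_card]
    exact hm
  have hm1 : 1 ≤ m := by
    by_contra h
    have h0 : m = 0 := by omega
    rw [h0, pow_zero] at hidx
    exact hnt (Subgroup.index_eq_one.mp hidx)
  have hreg : ∀ g : G, ¬ p ∣ orderOf g → g ∈ N := by
    intro g hg
    apply (le_of_eq hNres.symm)
    exact Subgroup.subset_closure ((Nat.Prime.coprime_iff_not_dvd hp).mpr hg).symm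
  have hkcop : k.Coprime (Nat.card G) := pow_coprime_card p k hk₁ hk₂
  have hpow : ∀ x : G ⧸ N, x ^ k = x ^ (1 + p) := quot_pow_eq_of_pElement N p hquot k hk₁
  have hZ : Nat.card {lam : (G ⧸ N) →* ℂˣ // lam ^ p = 1} = p :=
    card_hom_pow_prime_eq_one hcyc p m hp hm1 hm
  -- the two predicates
  set Lp : IrrCharacter G → Prop := fun χ => χ ∈ principalBlock M G ∧
    ¬ p ∣ charDegree (χ : G → ℂ) ∧ ∀ g : G, (χ : G → ℂ) (g ^ k) = (χ : G → ℂ) g with hLp
  set Rp : IrrCharacter ↥N → Prop := fun θ => θ ∈ principalBlock M ↥N ∧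
    ¬ p ∣ charDegree (θ : ↥N → ℂ) ∧
    (∀ x ∈ (P : Subgroup G), ∀ n : ↥N,
      (θ : ↥N → ℂ) ⟨x * n * x⁻¹, hN.conj_mem n n.2 x⟩ = (θ : ↥N → ℂ) n) ∧
    ∀ n : ↥N, (θ : ↥N → ℂ) (n ^ k) = (θ : ↥N → ℂ) n with hRp
  show Nat.card (Subtype Lp) = p * Nat.card (Subtype Rp)
  -- the chosen extensions
  have hE : ∀ θ : Subtype Rp, ∃ η : G → ℂ, IsIrrCharacter G η ∧ (∀ n : N, η n = θ.1.1 n) ∧
      ∀ g : G, η (g ^ k) = η g := fun θ =>
    exists_fixed_extension N p hNres P m hidx k hkcop θ.1.2 θ.2.2.1 θ.2.2.2.1 θ.2.2.2.2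
  choose E hEirr hEext hEfix using hE
  -- linear characters of the quotient, seen on `G`
  have hcompN : ∀ (lam : (G ⧸ N) →* ℂˣ) (n : N), (lam.comp (QuotientGroup.mk' N)) n = 1 := by
    intro lam n
    show lam ((n : G) : G ⧸ N) = 1
    rw [(QuotientGroup.eq_one_iff (n : G)).mpr n.2, map_one]
  -- the map
  have hΦ : ∀ (θ : Subtype Rp) (lam : {lam : (G ⧸ N) →* ℂˣ // lam ^ p = 1}),
      ∃ χ : Subtype Lp, ∀ g : G, χ.1.1 g = ((lam.1 (g : G ⧸ N) : ℂˣ) : ℂ) * E θ g := by
    intro θ lam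
    set β : G →* ℂˣ := lam.1.comp (QuotientGroup.mk' N) with hβ
    have hβN : ∀ n : N, β n = 1 := hcompN lam.1
    have hβval : ∀ g : G, β g = lam.1 (g : G ⧸ N) := fun g => rfl
    have hirr : IsIrrCharacter G (fun g => ((β g : ℂˣ) : ℂ) * E θ g) :=
      isIrrCharacter_hom_mul β (hEirr θ)
    have hresN : ∀ n : N, (fun g => ((β g : ℂˣ) : ℂ) * E θ g) (n : G) = θ.1.1 n := by
      intro n
      show ((β n : ℂˣ) : ℂ) * E θ n = θ.1.1 n
      rw [hβN n, Units.val_one, one_mul, hEext θ n]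
    refine ⟨⟨⟨fun g => ((β g : ℂˣ) : ℂ) * E θ g, hirr⟩, ?_, ?_, ?_⟩, fun g => rfl⟩
    · rw [H84.mem_principalBlock_iff_regSum hM]
      have h1 := (H84.mem_principalBlock_iff_regSum hM θ.1).mp θ.2.1
      rw [regSum_eq_of_regular_mem N p hreg (fun g => ((β g : ℂˣ) : ℂ) * E θ g) θ.1.1
        (fun n _ => hresN n)]
      exact h1
    · have h1 : (charDegree (fun g => ((β g : ℂˣ) : ℂ) * E θ g) : ℂ) =
          (charDegree θ.1.1 : ℂ) := by
        rw [← isCharacter_one_eq (isCharacter_of_isIrrCharacter hirr),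
          ← isCharacter_one_eq (isCharacter_of_isIrrCharacter θ.1.2)]
        exact hresN 1
      have h2 : charDegree (fun g => ((β g : ℂˣ) : ℂ) * E θ g) = charDegree θ.1.1 := by
        exact_mod_cast h1
      show ¬ p ∣ charDegree (fun g => ((β g : ℂˣ) : ℂ) * E θ g)
      rw [h2]
      exact θ.2.2.1
    · intro g
      show ((β (g ^ k) : ℂˣ) : ℂ) * E θ (g ^ k) = ((β g : ℂˣ) : ℂ) * E θ g
      rw [hEfix θ g]
      have h1 : β (g ^ k) = β g := by
        rw [hβval, hβval, QuotientGroup.mk_pow, hpow, pow_add, pow_one, map_mul, map_pow]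
        have h2 := DFunLike.congr_fun lam.2 (g : G ⧸ N)
        rw [MonoidHom.pow_apply, MonoidHom.one_apply] at h2
        rw [h2, mul_one]
      rw [h1]
  choose Φ hΦ using hΦ
  have hbij : Function.Bijective
      (fun x : Subtype Rp × {lam : (G ⧸ N) →* ℂˣ // lam ^ p = 1} => Φ x.1 x.2) := by
    constructor
    · rintro ⟨θ₁, l₁⟩ ⟨θ₂, l₂⟩ hxy
      have hxy' : Φ θ₁ l₁ = Φ θ₂ l₂ := hxy
      have hval : ∀ g : G, ((l₁.1 (g : G ⧸ N) : ℂˣ) : ℂ) * E θ₁ g =
          ((l₂.1 (g : G ⧸ N) : ℂˣ) : ℂ) * E θ₂ g := by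
        intro g
        rw [← hΦ θ₁ l₁ g, ← hΦ θ₂ l₂ g, hxy']
      have hθ : θ₁ = θ₂ := by
        apply Subtype.ext
        apply Subtype.ext
        funext n
        have h1 := hval (n : G)
        have e1 : l₁.1 ((n : G) : G ⧸ N) = 1 := hcompN l₁.1 n
        have e2 : l₂.1 ((n : G) : G ⧸ N) = 1 := hcompN l₂.1 n
        rw [e1, e2, Units.val_one, one_mul, one_mul, hEext θ₁ n, hEext θ₂ n] at h1
        exact h1
      subst hθ
      have h2 := hom_eq_of_mul_ext_eq N θ₁.1.2 (hEirr θ₁) (hEext θ₁)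
        (l₁.1.comp (QuotientGroup.mk' N)) (l₂.1.comp (QuotientGroup.mk' N))
        (hcompN l₁.1) (hcompN l₂.1) hval
      have h3 : l₁ = l₂ := by
        apply Subtype.ext
        apply MonoidHom.ext
        intro x
        obtain ⟨g, rfl⟩ := QuotientGroup.mk_surjective x
        exact DFunLike.congr_fun h2 g
      rw [h3]
    · intro χ
      have hχirr : IsIrrCharacter G χ.1.1 := χ.1.2
      have hχcf : IsClassFunction G χ.1.1 :=
        isClassFunction_of_isCharacter (isCharacter_of_isIrrCharacter hχirr)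
      have hθirr : IsIrrCharacter N (fun n : N => χ.1.1 n) :=
        res_irr_of_index_pow N p m hp hidx hχirr χ.2.2.1
      have hRθ : Rp ⟨fun n : N => χ.1.1 n, hθirr⟩ := by
        refine ⟨?_, ?_, ?_, ?_⟩
        · rw [H84.mem_principalBlock_iff_regSum hM]
          have h1 := (H84.mem_principalBlock_iff_regSum hM χ.1).mp χ.2.1
          rw [regSum_eq_of_regular_mem N p hreg χ.1.1 (fun n : N => χ.1.1 n)
            (fun n _ => rfl)] at h1
          exact h1
        · have h1 : (charDegree (fun n : N => χ.1.1 n) : ℂ) = (charDegree χ.1.1 : ℂ) := by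
            rw [← isCharacter_one_eq (isCharacter_of_isIrrCharacter hθirr),
              ← isCharacter_one_eq (isCharacter_of_isIrrCharacter hχirr)]
            rfl
          have h2 : charDegree (fun n : N => χ.1.1 n) = charDegree χ.1.1 := by
            exact_mod_cast h1
          show ¬ p ∣ charDegree (fun n : N => χ.1.1 n)
          rw [h2]
          exact χ.2.2.1
        · intro x _ n
          exact hχcf (n : G) x
        · intro n
          exact χ.2.2.2 (n : G)
      set θ : Subtype Rp := ⟨⟨fun n : N => χ.1.1 n, hθirr⟩, hRθ⟩ with hθdef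
      obtain ⟨β, hβN, hβeq⟩ := exists_hom_of_extensions N hθirr (hEirr θ) (hEext θ) hχirr
        (fun n => rfl)
      -- `β ^ k = β`
      have hβk : ∀ g : G, β g ^ k = β g := by
        have h1 : (powMonoidHom k).comp β = β := by
          apply hom_eq_of_mul_ext_eq N hθirr (hEirr θ) (hEext θ) _ _ _ hβN
          · intro g
            show (((β g) ^ k : ℂˣ) : ℂ) * E θ g = ((β g : ℂˣ) : ℂ) * E θ g
            have e1 := hβeq (g ^ k)
            rw [map_pow, hEfix θ g] at e1
            rw [← e1, ← hβeq g]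
            exact χ.2.2.2 g
          · intro n
            show β n ^ k = 1
            rw [hβN n, one_pow]
        intro g
        exact DFunLike.congr_fun h1 g
      set lam : (G ⧸ N) →* ℂˣ := QuotientGroup.lift N β (fun n hn => hβN ⟨n, hn⟩) with hlam
      have hlamval : ∀ g : G, lam (g : G ⧸ N) = β g := fun g => rfl
      have hlamp : lam ^ p = 1 := by
        apply MonoidHom.ext
        intro x
        obtain ⟨g, rfl⟩ := QuotientGroup.mk_surjective x
        rw [MonoidHom.pow_apply, MonoidHom.one_apply, hlamval]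
        have h1 := hβk g
        have h2 : β g ^ k = β g ^ (1 + p) := by
          rw [← hlamval, ← map_pow, hpow, map_pow]
        rw [h2, pow_add, pow_one] at h1
        exact mul_eq_left.mp h1
      refine ⟨(θ, ⟨lam, hlamp⟩), ?_⟩
      apply Subtype.ext
      apply Subtype.ext
      funext g
      show (Φ θ ⟨lam, hlamp⟩).1.1 g = χ.1.1 g
      rw [hΦ θ ⟨lam, hlamp⟩ g, hβeq g]
      rfl
  rw [← Nat.card_congr (Equiv.ofBijective _ hbij), Nat.card_prod, hZ, mul_comm]

end GalB0b

end Cfsg.Agent.H4
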