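import Mathlib
import Cfsg.Agent.H98.SLkDefs
import Cfsg.Agent.H80.PSLkMu

/-!
helper4: `gcd(n, q - 1)` times the number of `PSL`-classes is bounded by a weighted count of
scaling-invariant `GL`-invariants (piece S2480-FIBP for helper98).
-/

set_option autoImplicit false

namespace Cfsg.Agent.H4.SLk

open Polynomial DirectSum
open Cfsg.Agent.H98.GLk Cfsg.Agent.H98.SLk

/-- The scalar matrix of an `n`-th root of unity, as an element of `SL`. -/
def zSL {F : Type*} [Field F] {n : ℕ} (η : Fˣ) (hη : η ^ n = 1) :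
    Matrix.SpecialLinearGroup (Fin n) F :=
  ⟨Matrix.scalar (Fin n) (η : F), by
    rw [Matrix.scalar_apply, Matrix.det_diagonal, Finset.prod_const, Finset.card_univ,
      Fintype.card_fin, ← Units.val_pow_eq_pow_val, hη, Units.val_one]⟩

theorem toGL_zSL {F : Type*} [Field F] {n : ℕ} (η : Fˣ) (hη : η ^ n = 1) :
    Matrix.SpecialLinearGroup.toGL (zSL η hη) = Matrix.GeneralLinearGroup.scalar (Fin n) η :=
  Units.ext rfl

theorem zSL_mem_center {F : Type*} [Field F] {n : ℕ} (η : Fˣ) (hη : η ^ n = 1) :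
    zSL η hη ∈ Subgroup.center (Matrix.SpecialLinearGroup (Fin n) F) := by
  rw [Subgroup.mem_center_iff]
  intro g
  apply Matrix.SpecialLinearGroup.toGL_injective
  rw [map_mul, map_mul, toGL_zSL]
  exact (Matrix.GeneralLinearGroup.scalar_commute η _).symm

theorem conj_scalar_mul {F : Type*} [Field F] {n : ℕ} (u : Fˣ)
    (g A : Matrix.GeneralLinearGroup (Fin n) F) :
    g * (Matrix.GeneralLinearGroup.scalar (Fin n) u * A) * g⁻¹ =
      Matrix.GeneralLinearGroup.scalar (Fin n) u * (g * A * g⁻¹) := by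
  rw [← mul_assoc g, ← Matrix.GeneralLinearGroup.scalar_commute u g]
  simp only [mul_assoc]

theorem card_conjClasses_PSL_le_sum {F : Type*} [Field F] [Fintype F] {n : ℕ} {T : Type*}
    (Φ : Matrix.GeneralLinearGroup (Fin n) F → T) (sc : Fˣ → T → T) (S : Finset T) (W : T → ℕ)
    (μ : Finset Fˣ) (fixS : Fˣ → Finset T)
    (hμ : ∀ ζ : Fˣ, ζ ∈ μ ↔ ζ ^ n = 1)
    (hfix : ∀ (ζ : Fˣ) (t : T), t ∈ fixS ζ ↔ t ∈ S ∧ sc ζ t = t)
    (hsc1 : ∀ t, sc 1 t = t) (hscmul : ∀ a b t, sc (a * b) t = sc a (sc b t))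
    (hS : ∀ x : Matrix.SpecialLinearGroup (Fin n) F, Φ (Matrix.SpecialLinearGroup.toGL x) ∈ S)
    (hSsc : ∀ ζ : Fˣ, ζ ^ n = 1 → ∀ t ∈ S, sc ζ t ∈ S)
    (hinj : ∀ (x y : Matrix.GeneralLinearGroup (Fin n) F) (ζ : Fˣ), Φ y = sc ζ (Φ x) →
      IsConj y (Matrix.GeneralLinearGroup.scalar (Fin n) ζ * x))
    (hWsc : ∀ (ζ : Fˣ) (t : T), W (sc ζ t) = W t)
    (hW : ∀ x : Matrix.SpecialLinearGroup (Fin n) F,
      (detCent (Matrix.SpecialLinearGroup.toGL x)).index ≤
        W (Φ (Matrix.SpecialLinearGroup.toGL x))) :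
    Nat.gcd n (Fintype.card F - 1) *
        Nat.card (ConjClasses (Matrix.ProjectiveSpecialLinearGroup (Fin n) F)) ≤
      ∑ ζ ∈ μ, ∑ t ∈ fixS ζ, W t := by
  classical
  have : Fintype (ConjClasses (Matrix.ProjectiveSpecialLinearGroup (Fin n) F)) :=
    Fintype.ofFinite _
  have hμcard : Nat.gcd n (Fintype.card F - 1) = μ.card := by
    rcases Nat.eq_zero_or_pos n with h0 | hpos
    · subst h0
      have hu : μ = Finset.univ := by
        ext ζ
        simp [hμ]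
      rw [hu, Finset.card_univ, Fintype.card_units, Nat.gcd_zero_left]
    · exact (Cfsg.Agent.H80.PSLk.card_pow_eq_one_eq_gcd n hpos μ hμ).symm
  have hsurj : ∀ c : ConjClasses (Matrix.ProjectiveSpecialLinearGroup (Fin n) F),
      ∃ x : Matrix.SpecialLinearGroup (Fin n) F,
        ConjClasses.mk
          (QuotientGroup.mk x : Matrix.ProjectiveSpecialLinearGroup (Fin n) F) = c := by
    intro c
    obtain ⟨x, hx⟩ := QuotientGroup.mk_surjective
      (s := Subgroup.center (Matrix.SpecialLinearGroup (Fin n) F)) (Quotient.out c)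
    exact ⟨x, by rw [hx]; exact Quotient.out_eq c⟩
  choose xc hxc using hsurj
  let yc : ConjClasses (Matrix.ProjectiveSpecialLinearGroup (Fin n) F) →
      Matrix.GeneralLinearGroup (Fin n) F := fun c => Matrix.SpecialLinearGroup.toGL (xc c)
  let θ : ConjClasses (Matrix.ProjectiveSpecialLinearGroup (Fin n) F) × Fˣ → T :=
    fun P => sc P.2 (Φ (yc P.1))
  have hθ : ∀ P ∈ ((Finset.univ : Finset (ConjClasses
      (Matrix.ProjectiveSpecialLinearGroup (Fin n) F))) ×ˢ μ), θ P ∈ S := by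
    intro P hP
    have hP2 : P.2 ^ n = 1 := (hμ _).1 (Finset.mem_product.1 hP).2
    exact hSsc P.2 hP2 _ (hS (xc P.1))
  have hcardP : Nat.gcd n (Fintype.card F - 1) *
      Nat.card (ConjClasses (Matrix.ProjectiveSpecialLinearGroup (Fin n) F)) =
      ((Finset.univ : Finset (ConjClasses
        (Matrix.ProjectiveSpecialLinearGroup (Fin n) F))) ×ˢ μ).card := by
    rw [Finset.card_product, Finset.card_univ, Nat.card_eq_fintype_card, hμcard, mul_comm]
  have hrhs : ∑ ζ ∈ μ, ∑ t ∈ fixS ζ, W t =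
      ∑ t ∈ S, (μ.filter (fun ζ => sc ζ t = t)).card * W t := by
    rw [Finset.sum_comm' (s' := fun t => μ.filter (fun ζ => sc ζ t = t)) (t' := S)]
    · apply Finset.sum_congr rfl
      intro t _
      rw [Finset.sum_const, smul_eq_mul]
    · intro ζ t
      rw [hfix, Finset.mem_filter]
      tauto
  rw [hcardP, Finset.card_eq_sum_card_fiberwise hθ, hrhs]
  apply Finset.sum_le_sum
  intro t _
  by_cases hne : (((Finset.univ : Finset (ConjClasses
      (Matrix.ProjectiveSpecialLinearGroup (Fin n) F))) ×ˢ μ).filter (fun P => θ P = t)).Nonempty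
  swap
  · rw [Finset.not_nonempty_iff_eq_empty] at hne
    rw [hne, Finset.card_empty]
    exact Nat.zero_le _
  obtain ⟨⟨c₀, ζ₀⟩, hP₀⟩ := hne
  have hζ₀ : ζ₀ ^ n = 1 :=
    (hμ _).1 (Finset.mem_product.1 (Finset.mem_filter.1 hP₀).1).2
  have ht₀ : sc ζ₀ (Φ (yc c₀)) = t := (Finset.mem_filter.1 hP₀).2
  let D : Subgroup Fˣ := detCent (yc c₀)
  have hD : D.index ≤ W t := by
    rw [← ht₀, hWsc]
    exact hW (xc c₀)
  refine le_trans ?_ (Nat.mul_le_mul_left _ hD)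
  have hex : ∀ c : ConjClasses (Matrix.ProjectiveSpecialLinearGroup (Fin n) F),
      (∃ ζ ∈ μ, sc ζ (Φ (yc c)) = t) →
      ∃ (ζ₁ η : Fˣ) (g : Matrix.GeneralLinearGroup (Fin n) F), ζ₁ ∈ μ ∧
        sc ζ₁ (Φ (yc c)) = t ∧ η ^ n = 1 ∧
        g * (Matrix.GeneralLinearGroup.scalar (Fin n) η * yc c₀) * g⁻¹ = yc c := by
    rintro c ⟨ζ, hζμ, hζt⟩
    have hζn : ζ ^ n = 1 := (hμ ζ).1 hζμ
    have h1 : Φ (yc c) = sc (ζ⁻¹ * ζ₀) (Φ (yc c₀)) := by
      have h0 := congrArg (sc ζ⁻¹) (hζt.trans ht₀.symm)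
      rw [← hscmul, ← hscmul, inv_mul_cancel, hsc1] at h0
      exact h0
    have h2 := hinj (yc c₀) (yc c) (ζ⁻¹ * ζ₀) h1
    obtain ⟨g, hg⟩ := isConj_iff.1 h2
    refine ⟨ζ, ζ⁻¹ * ζ₀, g⁻¹, hζμ, hζt, ?_, ?_⟩
    · rw [mul_pow, inv_pow, hζn, hζ₀, inv_one, one_mul]
    · rw [← hg]
      group
  choose! ζs ηs gs hsel using hex
  have : Fintype (Fˣ ⧸ D) := Fintype.ofFinite _
  have hcard : (μ.filter (fun ζ => sc ζ t = t)).card * D.index =
      ((μ.filter (fun ζ => sc ζ t = t)) ×ˢ (Finset.univ : Finset (Fˣ ⧸ D))).card := by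
    rw [Finset.card_product, Finset.card_univ, Subgroup.index_eq_card, Nat.card_eq_fintype_card]
  rw [hcard]
  apply Finset.card_le_card_of_injOn (fun P => (P.2 * (ζs P.1)⁻¹,
    (QuotientGroup.mk (Matrix.GeneralLinearGroup.det (gs P.1)) : Fˣ ⧸ D)))
  · intro P hP
    have hP' := Finset.mem_filter.1 (Finset.mem_coe.1 hP)
    have hP2 : P.2 ∈ μ := (Finset.mem_product.1 hP'.1).2
    have hPt : sc P.2 (Φ (yc P.1)) = t := hP'.2
    obtain ⟨h1, h2, h3, h4⟩ := hsel P.1 ⟨P.2, hP2, hPt⟩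
    refine Finset.mem_coe.2 (Finset.mem_product.2
      ⟨Finset.mem_filter.2 ⟨?_, ?_⟩, Finset.mem_univ _⟩)
    · rw [hμ, mul_pow, inv_pow, (hμ _).1 hP2, (hμ _).1 h1, inv_one, mul_one]
    · have h5 : sc (P.2 * (ζs P.1)⁻¹) (sc (ζs P.1) (Φ (yc P.1))) = t := by
        rw [← hscmul, inv_mul_cancel_right, hPt]
      rw [h2] at h5
      exact h5
  · intro P hP P' hP' heq
    have hPf := Finset.mem_filter.1 (Finset.mem_coe.1 hP)
    have hPf' := Finset.mem_filter.1 (Finset.mem_coe.1 hP')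
    obtain ⟨h1, h2, h3, h4⟩ := hsel P.1 ⟨P.2, (Finset.mem_product.1 hPf.1).2, hPf.2⟩
    obtain ⟨h1', h2', h3', h4'⟩ := hsel P'.1 ⟨P'.2, (Finset.mem_product.1 hPf'.1).2, hPf'.2⟩
    have heq1 : P.2 * (ζs P.1)⁻¹ = P'.2 * (ζs P'.1)⁻¹ := congrArg Prod.fst heq
    have heq2 : (QuotientGroup.mk (Matrix.GeneralLinearGroup.det (gs P.1)) : Fˣ ⧸ D) =
        QuotientGroup.mk (Matrix.GeneralLinearGroup.det (gs P'.1)) := congrArg Prod.snd heq
    have hc : P.1 = P'.1 := by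
      have hd : (Matrix.GeneralLinearGroup.det (gs P.1))⁻¹ *
          Matrix.GeneralLinearGroup.det (gs P'.1) ∈ D := QuotientGroup.eq.1 heq2
      obtain ⟨z, hz, hzdet⟩ := mem_detCent.1 hd
      have hzc : yc c₀ * z = z * yc c₀ :=
        (Subgroup.mem_centralizer_iff.1 hz) (yc c₀) (Set.mem_singleton _)
      let h : Matrix.GeneralLinearGroup (Fin n) F := gs P'.1 * z⁻¹ * (gs P.1)⁻¹
      have hdet : Matrix.GeneralLinearGroup.det h = 1 := by
        simp only [h, map_mul, map_inv, hzdet]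
        rw [mul_inv_rev, inv_inv, mul_inv_cancel_left, mul_inv_cancel]
      have hdet' : (h : Matrix (Fin n) (Fin n) F).det = 1 := congrArg Units.val hdet
      let s : Matrix.SpecialLinearGroup (Fin n) F := ⟨(h : Matrix (Fin n) (Fin n) F), hdet'⟩
      have hs : Matrix.SpecialLinearGroup.toGL s = h := Units.ext rfl
      have hη'' : (ηs P.1 * (ηs P'.1)⁻¹) ^ n = 1 := by
        rw [mul_pow, inv_pow, h3, h3', inv_one, mul_one]
      have hzconj : z⁻¹ * (Matrix.GeneralLinearGroup.scalar (Fin n) (ηs P.1) * yc c₀) * z =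
          Matrix.GeneralLinearGroup.scalar (Fin n) (ηs P.1) * yc c₀ := by
        rw [mul_assoc, mul_assoc, hzc, ← mul_assoc (Matrix.GeneralLinearGroup.scalar (Fin n) _),
          Matrix.GeneralLinearGroup.scalar_commute (ηs P.1) z, mul_assoc z, inv_mul_cancel_left]
      have key : h * yc P.1 * h⁻¹ =
          Matrix.GeneralLinearGroup.scalar (Fin n) (ηs P.1 * (ηs P'.1)⁻¹) * yc P'.1 := by
        rw [← h4, ← h4']
        calc h * (gs P.1 * (Matrix.GeneralLinearGroup.scalar (Fin n) (ηs P.1) * yc c₀) *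
                (gs P.1)⁻¹) * h⁻¹
            = gs P'.1 * (z⁻¹ * (Matrix.GeneralLinearGroup.scalar (Fin n) (ηs P.1) * yc c₀) * z)
                * (gs P'.1)⁻¹ := by
              simp only [h]
              group
          _ = gs P'.1 * (Matrix.GeneralLinearGroup.scalar (Fin n) (ηs P.1) * yc c₀)
                * (gs P'.1)⁻¹ := by rw [hzconj]
          _ = Matrix.GeneralLinearGroup.scalar (Fin n) (ηs P.1 * (ηs P'.1)⁻¹) *
                (gs P'.1 * (Matrix.GeneralLinearGroup.scalar (Fin n) (ηs P'.1) * yc c₀) *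
                  (gs P'.1)⁻¹) := by
              rw [conj_scalar_mul, conj_scalar_mul, map_mul, map_inv]
              simp only [mul_assoc, inv_mul_cancel_left]
      have hSL : s * xc P.1 * s⁻¹ = zSL (ηs P.1 * (ηs P'.1)⁻¹) hη'' * xc P'.1 := by
        apply Matrix.SpecialLinearGroup.toGL_injective
        rw [map_mul, map_mul, map_inv, map_mul, hs, toGL_zSL]
        exact key
      have hmk : (QuotientGroup.mk s : Matrix.ProjectiveSpecialLinearGroup (Fin n) F) *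
          QuotientGroup.mk (xc P.1) * (QuotientGroup.mk s)⁻¹ = QuotientGroup.mk (xc P'.1) := by
        rw [← QuotientGroup.mk_inv, ← QuotientGroup.mk_mul, ← QuotientGroup.mk_mul, hSL,
          QuotientGroup.mk_mul, (QuotientGroup.eq_one_iff _).2 (zSL_mem_center _ hη''), one_mul]
      rw [← hxc P.1, ← hxc P'.1]
      exact ConjClasses.mk_eq_mk_iff_isConj.2 (isConj_iff.2 ⟨QuotientGroup.mk s, hmk⟩)
    apply Prod.ext hc
    rw [hc] at heq1
    exact mul_right_cancel heq1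

end Cfsg.Agent.H4.SLk

section check
open Polynomial DirectSum
open Cfsg.Agent.H98.GLk Cfsg.Agent.H98.SLk

example {F : Type*} [Field F] [Fintype F] {n : ℕ} {T : Type*}
    (Φ : Matrix.GeneralLinearGroup (Fin n) F → T) (sc : Fˣ → T → T) (S : Finset T) (W : T → ℕ)
    (μ : Finset Fˣ) (fixS : Fˣ → Finset T)
    (hμ : ∀ ζ : Fˣ, ζ ∈ μ ↔ ζ ^ n = 1)
    (hfix : ∀ (ζ : Fˣ) (t : T), t ∈ fixS ζ ↔ t ∈ S ∧ sc ζ t = t)
    (hsc1 : ∀ t, sc 1 t = t) (hscmul : ∀ a b t, sc (a * b) t = sc a (sc b t))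
    (hS : ∀ x : Matrix.SpecialLinearGroup (Fin n) F, Φ (Matrix.SpecialLinearGroup.toGL x) ∈ S)
    (hSsc : ∀ ζ : Fˣ, ζ ^ n = 1 → ∀ t ∈ S, sc ζ t ∈ S)
    (hinj : ∀ (x y : Matrix.GeneralLinearGroup (Fin n) F) (ζ : Fˣ), Φ y = sc ζ (Φ x) →
      IsConj y (Matrix.GeneralLinearGroup.scalar (Fin n) ζ * x))
    (hWsc : ∀ (ζ : Fˣ) (t : T), W (sc ζ t) = W t)
    (hW : ∀ x : Matrix.SpecialLinearGroup (Fin n) F,
      (detCent (Matrix.SpecialLinearGroup.toGL x)).index ≤
        W (Φ (Matrix.SpecialLinearGroup.toGL x))) :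
    Nat.gcd n (Fintype.card F - 1) *
        Nat.card (ConjClasses (Matrix.ProjectiveSpecialLinearGroup (Fin n) F)) ≤
      ∑ ζ ∈ μ, ∑ t ∈ fixS ζ, W t :=
  Cfsg.Agent.H4.SLk.card_conjClasses_PSL_le_sum Φ sc S W μ fixS hμ hfix hsc1 hscmul hS hSsc
    hinj hWsc hW

end check
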