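import Mathlib

/-!
# Groups all of whose proper quotients are abelian (helper4)

Group-theoretic part of the Isaacs--Passman theorem on groups whose nonlinear irreducible
characters have prime degree (S4813).  For a finite solvable group `H` in which every nontrivial
normal subgroup contains the (nontrivial) commutator subgroup:

* `pd_comm_abelian` : the commutator subgroup is abelian;
* `pd_exp` : it has prime exponent `p`;
* `pd_frob` : if the centre is trivial, no element outside the commutator subgroup commutes with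
  a nontrivial element of it;
* `pd_pgroup` : if the centre is nontrivial, `H` is a `p`-group;
* `pd_dual` : in the situation of `pd_frob`, no element outside the commutator subgroup fixes a
  nontrivial linear character of it.
-/

set_option autoImplicit false
set_option linter.unusedSectionVars false
set_option linter.style.haveILetI false

namespace Cfsg.Agent.H4

universe u

section PrimeDegA

variable {H : Type u} [Group H]

open scoped commutatorElement

theorem pd_conj_comm_aux (x g m c : H) (hc : g⁻¹ * x * g = x * c) (hmx : x * m = m * x)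
    (hmc : m * c = c * m) : x * (g * m * g⁻¹) = g * m * g⁻¹ * x := by
  have h3 : m * (x * c) = (x * c) * m := by
    calc m * (x * c) = (m * x) * c := by rw [mul_assoc]
      _ = (x * m) * c := by rw [hmx]
      _ = x * (m * c) := by rw [mul_assoc]
      _ = x * (c * m) := by rw [hmc]
      _ = (x * c) * m := by rw [mul_assoc]
  calc x * (g * m * g⁻¹) = g * ((g⁻¹ * x * g) * m) * g⁻¹ := by group
    _ = g * (m * (g⁻¹ * x * g)) * g⁻¹ := by rw [hc, h3]
    _ = g * m * g⁻¹ * x := by group

theorem pd_comm_of_map_eq (y a b : H) (h : a⁻¹ * (y⁻¹ * a * y) = b⁻¹ * (y⁻¹ * b * y)) :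
    (a * b⁻¹) * y = y * (a * b⁻¹) := by
  have e1 : (a * b⁻¹) * y = y * a * (a⁻¹ * (y⁻¹ * a * y)) * y⁻¹ * b⁻¹ * y := by group
  rw [e1, h]
  group

theorem pd_comm_abelian [Group.IsSolvable H]
    (hmin : ∀ L : Subgroup H, L.Normal → L ≠ ⊥ → commutator H ≤ L) :
    ∀ a ∈ commutator H, ∀ b ∈ commutator H, a * b = b * a := by
  set D : Subgroup H := ⁅commutator H, commutator H⁆ with hD
  have hDn : D.Normal := by rw [hD]; infer_instance
  have hDle : D ≤ commutator H := by
    rw [hD, commutator_def]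
    exact Subgroup.commutator_mono le_top le_top
  by_cases hbot : D = ⊥
  · intro a ha b hb
    have h1 : ⁅a, b⁆ ∈ D := Subgroup.commutator_mem_commutator ha hb
    rw [hbot, Subgroup.mem_bot] at h1
    exact commutatorElement_eq_one_iff_mul_comm.mp h1
  · exfalso
    have hle : commutator H ≤ D := hmin D hDn hbot
    have hall : ∀ n : ℕ, commutator H ≤ derivedSeries H n := by
      intro n
      induction n with
      | zero => rw [derivedSeries_zero]; exact le_top
      | succ n ih =>
        rw [derivedSeries_succ]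
        exact hle.trans (Subgroup.commutator_mono ih ih)
    obtain ⟨n, hn⟩ := Group.IsSolvable.solvable (G := H)
    have h2 := hall n
    rw [hn] at h2
    exact hbot (le_bot_iff.mp (hDle.trans h2))

theorem pd_exp [Finite H]
    (hmin : ∀ L : Subgroup H, L.Normal → L ≠ ⊥ → commutator H ≤ L)
    (hne : commutator H ≠ ⊥)
    (hab : ∀ a ∈ commutator H, ∀ b ∈ commutator H, a * b = b * a) :
    ∃ p : ℕ, p.Prime ∧ ∀ m ∈ commutator H, m ^ p = 1 := by
  have hcard : Nat.card (commutator H) ≠ 1 := by
    intro h1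
    exact hne (Subgroup.eq_bot_of_card_eq _ h1)
  obtain ⟨p, hp, hpd⟩ := Nat.exists_prime_and_dvd hcard
  haveI : Fact p.Prime := ⟨hp⟩
  obtain ⟨x, hx⟩ := exists_prime_orderOf_dvd_card' p hpd
  refine ⟨p, hp, ?_⟩
  let Ω : Subgroup H :=
    { carrier := {m | m ∈ commutator H ∧ m ^ p = 1}
      mul_mem' := by
        rintro a b ⟨ha, ha'⟩ ⟨hb, hb'⟩
        refine ⟨mul_mem ha hb, ?_⟩
        have hc : Commute a b := hab a ha b hb
        rw [hc.mul_pow, ha', hb', one_mul]
      one_mem' := ⟨one_mem _, one_pow _⟩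
      inv_mem' := by
        rintro a ⟨ha, ha'⟩
        exact ⟨inv_mem ha, by rw [inv_pow, ha', inv_one]⟩ }
  have hΩn : Ω.Normal := by
    refine ⟨fun m hm g => ?_⟩
    obtain ⟨hm1, hm2⟩ := hm
    refine ⟨(inferInstance : (commutator H).Normal).conj_mem m hm1 g, ?_⟩
    rw [conj_pow, hm2, mul_one, mul_inv_cancel]
  have hΩne : Ω ≠ ⊥ := by
    intro h0
    have hxΩ : (x : H) ∈ Ω := by
      refine ⟨x.2, ?_⟩
      have : x ^ p = 1 := by rw [← hx]; exact pow_orderOf_eq_one x
      have h2 := congrArg Subtype.val this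
      simpa using h2
    rw [h0, Subgroup.mem_bot] at hxΩ
    have hx1 : x = 1 := Subtype.ext hxΩ
    rw [hx1, orderOf_one] at hx
    exact hp.one_lt.ne hx
  intro m hm
  exact (hmin Ω hΩn hΩne hm).2

theorem pd_frob [Finite H]
    (hmin : ∀ L : Subgroup H, L.Normal → L ≠ ⊥ → commutator H ≤ L)
    (hne : commutator H ≠ ⊥)
    (hab : ∀ a ∈ commutator H, ∀ b ∈ commutator H, a * b = b * a)
    (hZ : Subgroup.center H = ⊥) :
    ∀ x : H, x ∉ commutator H → ∀ m ∈ commutator H, x * m = m * x → m = 1 := by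
  have hMn : (commutator H).Normal := inferInstance
  set C : Subgroup H := Subgroup.centralizer (commutator H : Set H) with hC
  have hCn : C.Normal := by rw [hC]; infer_instance
  have hmemC : ∀ x : H, x ∈ C ↔ ∀ m ∈ commutator H, m * x = x * m := by
    intro x
    rw [hC, Subgroup.mem_centralizer_iff]
    rfl
  -- the fixed points of `x` in the commutator subgroup form a normal subgroup
  have key : ∀ x : H, x ∉ C → ∀ m ∈ commutator H, x * m = m * x → m = 1 := by
    intro x hxC
    let Dx : Subgroup H :=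
      { carrier := {m | m ∈ commutator H ∧ x * m = m * x}
        mul_mem' := by
          rintro a b ⟨ha, ha'⟩ ⟨hb, hb'⟩
          refine ⟨mul_mem ha hb, ?_⟩
          rw [← mul_assoc, ha', mul_assoc, hb', mul_assoc]
        one_mem' := ⟨one_mem _, by rw [mul_one, one_mul]⟩
        inv_mem' := by
          rintro a ⟨ha, ha'⟩
          refine ⟨inv_mem ha, ?_⟩
          have : a⁻¹ * (x * a) * a⁻¹ = a⁻¹ * (a * x) * a⁻¹ := by rw [ha']
          have h2 : a⁻¹ * (x * a) * a⁻¹ = a⁻¹ * x := by group
          have h3 : a⁻¹ * (a * x) * a⁻¹ = x * a⁻¹ := by group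
          rw [h2, h3] at this
          exact this.symm }
    have hDn : Dx.Normal := by
      refine ⟨fun m hm g => ?_⟩
      obtain ⟨hm1, hm2⟩ := hm
      refine ⟨hMn.conj_mem m hm1 g, ?_⟩
      have hc : x⁻¹ * g⁻¹ * x * g ∈ commutator H := by
        have h1 : ⁅x⁻¹, g⁻¹⁆ ∈ commutator H := by
          rw [commutator_def]
          exact Subgroup.commutator_mem_commutator (Subgroup.mem_top _) (Subgroup.mem_top _)
        have h2 : ⁅x⁻¹, g⁻¹⁆ = x⁻¹ * g⁻¹ * x * g := by
          rw [commutatorElement_def]; group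
        rwa [h2] at h1
      have hmc : m * (x⁻¹ * g⁻¹ * x * g) = (x⁻¹ * g⁻¹ * x * g) * m := hab m hm1 _ hc
      exact pd_conj_comm_aux x g m _ (by group) hm2 hmc
    have hDbot : Dx = ⊥ := by
      by_contra hne'
      have hle := hmin Dx hDn hne'
      apply hxC
      rw [hmemC]
      intro m hm
      exact (hle hm).2.symm
    intro m hm hxm
    have : m ∈ Dx := ⟨hm, hxm⟩
    rw [hDbot, Subgroup.mem_bot] at this
    exact this
  -- it remains to show `C ≤ commutator H`
  have hMC : commutator H ≤ C := by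
    intro m hm
    rw [hmemC]
    intro m' hm'
    exact hab m' hm' m hm
  have hCtop : C ≠ ⊤ := by
    intro htop
    apply hne
    rw [eq_bot_iff, ← hZ]
    intro m hm
    rw [Subgroup.mem_center_iff]
    intro g
    have hg : g ∈ C := by rw [htop]; exact Subgroup.mem_top g
    have := (hmemC g).mp hg m hm
    exact this.symm
  obtain ⟨y, hy⟩ : ∃ y : H, y ∉ C := by
    by_contra hcon
    push Not at hcon
    exact hCtop (eq_top_iff.mpr fun g _ => hcon g)
  have hy1 := key y hy
  let E : Subgroup H :=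
    { carrier := {u | u ∈ C ∧ y * u = u * y}
      mul_mem' := by
        rintro a b ⟨ha, ha'⟩ ⟨hb, hb'⟩
        refine ⟨mul_mem ha hb, ?_⟩
        rw [← mul_assoc, ha', mul_assoc, hb', mul_assoc]
      one_mem' := ⟨one_mem _, by rw [mul_one, one_mul]⟩
      inv_mem' := by
        rintro a ⟨ha, ha'⟩
        refine ⟨inv_mem ha, ?_⟩
        have : a⁻¹ * (y * a) * a⁻¹ = a⁻¹ * (a * y) * a⁻¹ := by rw [ha']
        have h2 : a⁻¹ * (y * a) * a⁻¹ = a⁻¹ * y := by group
        have h3 : a⁻¹ * (a * y) * a⁻¹ = y * a⁻¹ := by group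
        rw [h2, h3] at this
        exact this.symm }
  have hEn : E.Normal := by
    refine ⟨fun u hu g => ?_⟩
    obtain ⟨hu1, hu2⟩ := hu
    refine ⟨hCn.conj_mem u hu1 g, ?_⟩
    have hc : y⁻¹ * g⁻¹ * y * g ∈ commutator H := by
      have h1 : ⁅y⁻¹, g⁻¹⁆ ∈ commutator H := by
        rw [commutator_def]
        exact Subgroup.commutator_mem_commutator (Subgroup.mem_top _) (Subgroup.mem_top _)
      have h2 : ⁅y⁻¹, g⁻¹⁆ = y⁻¹ * g⁻¹ * y * g := by
        rw [commutatorElement_def]; group
      rwa [h2] at h1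
    have huc : u * (y⁻¹ * g⁻¹ * y * g) = (y⁻¹ * g⁻¹ * y * g) * u :=
      ((hmemC u).mp hu1 _ hc).symm
    exact pd_conj_comm_aux y g u _ (by group) hu2 huc
  have hEbot : E = ⊥ := by
    by_contra hne'
    have hle := hmin E hEn hne'
    apply hy
    rw [hmemC]
    intro m hm
    exact (hle hm).2.symm
  have hCM : C ≤ commutator H := by
    intro u hu
    -- the commutator map with `y` on the commutator subgroup
    let c : commutator H → commutator H := fun m =>
      ⟨(m : H)⁻¹ * (y⁻¹ * (m : H) * y), mul_mem (inv_mem m.2) (by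
        have := hMn.conj_mem (m : H) m.2 y⁻¹
        rwa [inv_inv] at this)⟩
    have hcinj : Function.Injective c := by
      intro m₁ m₂ h12
      have h1 : (m₁ : H)⁻¹ * (y⁻¹ * (m₁ : H) * y) = (m₂ : H)⁻¹ * (y⁻¹ * (m₂ : H) * y) :=
        congrArg Subtype.val h12
      have h2 : y * ((m₁ : H) * (m₂ : H)⁻¹) = ((m₁ : H) * (m₂ : H)⁻¹) * y :=
        (pd_comm_of_map_eq y _ _ h1).symm
      have h3 := hy1 _ (mul_mem m₁.2 (inv_mem m₂.2)) h2
      apply Subtype.ext
      rw [← mul_inv_eq_one]; exact h3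
    have hcsurj : Function.Surjective c := Finite.injective_iff_surjective.mp hcinj
    have huy : u⁻¹ * (y⁻¹ * u * y) ∈ commutator H := by
      have h1 : ⁅u⁻¹, y⁻¹⁆ ∈ commutator H := by
        rw [commutator_def]
        exact Subgroup.commutator_mem_commutator (Subgroup.mem_top _) (Subgroup.mem_top _)
      have h2 : ⁅u⁻¹, y⁻¹⁆ = u⁻¹ * (y⁻¹ * u * y) := by
        rw [commutatorElement_def]; group
      rwa [h2] at h1
    obtain ⟨m, hm⟩ := hcsurj ⟨_, huy⟩
    have hm' : (m : H)⁻¹ * (y⁻¹ * (m : H) * y) = u⁻¹ * (y⁻¹ * u * y) := congrArg Subtype.val hm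
    have humE : u * (m : H)⁻¹ ∈ E := by
      refine ⟨mul_mem hu (inv_mem (hMC m.2)), ?_⟩
      exact (pd_comm_of_map_eq y u (m : H) hm'.symm).symm
    rw [hEbot, Subgroup.mem_bot] at humE
    have : u = (m : H) := by
      rw [← mul_inv_eq_one]; exact humE
    rw [this]
    exact m.2
  intro x hx
  exact key x (fun hxC => hx (hCM hxC))

theorem pd_pgroup [Finite H]
    (hmin : ∀ L : Subgroup H, L.Normal → L ≠ ⊥ → commutator H ≤ L)
    (hne : commutator H ≠ ⊥) {p : ℕ} (hp : p.Prime) (hexp : ∀ m ∈ commutator H, m ^ p = 1)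
    (hZ : Subgroup.center H ≠ ⊥) : IsPGroup p H := by
  have hMZ : commutator H ≤ Subgroup.center H := hmin _ inferInstance hZ
  haveI hnil : Group.IsNilpotent H := by
    refine Subgroup.isNilpotent_of_ker_le_center (Abelianization.of (G := H)) ?_
    rw [Abelianization.ker_of]
    exact hMZ
  obtain ⟨x, hxM, hx1⟩ : ∃ x ∈ commutator H, x ≠ 1 := by
    by_contra hcon
    push Not at hcon
    exact hne (eq_bot_iff.mpr fun m hm => by rw [Subgroup.mem_bot]; exact hcon m hm)
  have huniq : ∀ {q : ℕ}, q.Prime → q ∣ Nat.card H → q = p := by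
    intro q hq hqd
    by_contra hqp
    haveI : Fact q.Prime := ⟨hq⟩
    obtain ⟨P⟩ : Nonempty (Sylow q H) := inferInstance
    have hPn : (P : Subgroup H).Normal := inferInstance
    have hPne : (P : Subgroup H) ≠ ⊥ := P.ne_bot_of_dvd_card hqd
    have hxP : x ∈ (P : Subgroup H) := hmin _ hPn hPne hxM
    obtain ⟨k, hk⟩ := (P.isPGroup' : IsPGroup q (P : Subgroup H)) ⟨x, hxP⟩
    have hk' : x ^ q ^ k = 1 := by
      have := congrArg Subtype.val hk
      simpa using this
    have h1 : orderOf x ∣ q ^ k := orderOf_dvd_of_pow_eq_one hk'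
    have h2 : orderOf x ∣ p := orderOf_dvd_of_pow_eq_one (hexp x hxM)
    have hcop : Nat.Coprime (q ^ k) p :=
      Nat.Coprime.pow_left k ((Nat.coprime_primes hq hp).mpr hqp)
    have h3 : orderOf x = 1 := Nat.eq_one_of_dvd_coprimes hcop h1 h2
    exact hx1 (orderOf_eq_one_iff.mp h3)
  have hcard := Nat.eq_prime_pow_of_unique_prime_dvd (Nat.card_pos (α := H)).ne' huniq
  exact IsPGroup.of_card hcard

theorem pd_dual [Finite H]
    (hfrob : ∀ x : H, x ∉ commutator H → ∀ m ∈ commutator H, x * m = m * x → m = 1)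
    (y : H) (hy : y ∉ commutator H) (lam : commutator H →* ℂˣ)
    (hlam : ∀ m : commutator H, lam ⟨y * m * y⁻¹,
      (inferInstance : (commutator H).Normal).conj_mem (m : H) m.2 y⟩ = lam m) :
    lam = 1 := by
  have hMn : (commutator H).Normal := inferInstance
  let c : commutator H → commutator H := fun m =>
    ⟨y * (m : H) * y⁻¹, hMn.conj_mem (m : H) m.2 y⟩ * m⁻¹
  have hcinj : Function.Injective c := by
    intro m₁ m₂ h12
    have h1 : y * (m₁ : H) * y⁻¹ * (m₁ : H)⁻¹ = y * (m₂ : H) * y⁻¹ * (m₂ : H)⁻¹ := by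
      have := congrArg Subtype.val h12
      simpa [c] using this
    have h2 : y * ((m₂ : H)⁻¹ * (m₁ : H)) = ((m₂ : H)⁻¹ * (m₁ : H)) * y := by
      have e1 : y * ((m₂ : H)⁻¹ * (m₁ : H))
          = y * (m₂ : H)⁻¹ * y⁻¹ * (y * (m₁ : H) * y⁻¹ * (m₁ : H)⁻¹) * (m₁ : H) * y := by group
      rw [e1, h1]
      group
    have h3 := hfrob y hy _ (mul_mem (inv_mem m₂.2) m₁.2) h2
    apply Subtype.ext
    have : (m₂ : H)⁻¹ * (m₁ : H) = 1 := h3
    rw [inv_mul_eq_one] at this
    exact this.symm
  have hcsurj : Function.Surjective c := Finite.injective_iff_surjective.mp hcinj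
  ext m
  obtain ⟨m', rfl⟩ := hcsurj m
  simp only [c, map_mul, map_inv, hlam m', mul_inv_cancel, MonoidHom.one_apply, Units.val_one]

end PrimeDegA

end Cfsg.Agent.H4
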