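import Mathlib
import Cfsg.Prelude.Def_Characters
import Cfsg.Prelude.Def_Blocks
import Cfsg.Agent.H4.PrimeDegA
import Cfsg.Agent.H4.ItoP1
import Cfsg.Agent.H4.GalB0
import Cfsg.Agent.Lib.Clifford
import Cfsg.Agent.Lib.CliffordCorr
import Cfsg.Agent.Lib.Gallagher
import Cfsg.Agent.Lib.ItoConv
import Cfsg.Agent.H82.Irr
import Cfsg.Agent.H82.IndDeg
import Cfsg.Agent.H82.Extra
import Cfsg.Agent.H82.CanonExt
import Cfsg.Agent.H82.TwoDegB
import Cfsg.Agent.H32.LinAb

/-!
# Groups whose nonlinear irreducible characters have prime degree (helper4)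

Character-theoretic part of the Isaacs--Passman theorem (S4813): if all nonlinear irreducible
characters of the finite solvable group `G` have prime degree, then `G` has at most three
character degrees.  `K` is a normal subgroup maximal with `G ⧸ K` nonabelian.

* `pd_case_pgroup` : if `G ⧸ K` is a `p`-group, then `cd(G) ⊆ {1, p}`;
* `pd_case_frob` : if `G ⧸ K` is a Frobenius group with kernel `(G ⧸ K)'` of exponent `p`, then
  `cd(G) ⊆ {1, f, p}` with `f` the index of the preimage of `(G ⧸ K)'`;
* `pd_main` : the degrees lie in a set `{1, a, b}`.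
-/

set_option autoImplicit false
set_option linter.unusedSectionVars false
set_option linter.style.haveILetI false

namespace Cfsg.Agent.H4

open Cfsg Cfsg.Agent.Clifford
open scoped ComplexConjugate commutatorElement

universe u

section PrimeDegB

variable {G : Type u} [Group G]

/-- A finite nonabelian group has a nonlinear irreducible character. -/
theorem pd_exists_nonlinear {H : Type u} [Group H] [Finite H] (hne : commutator H ≠ ⊥) :
    ∃ β : IrrCharacter H, charDegree β.1 ≠ 1 := by
  classical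
  letI := fintypeIrr H
  by_contra hcon
  push Not at hcon
  have h := H82.index_add_sum_nonlinear (G := H)
  have hempty : Finset.univ.filter (fun χ : IrrCharacter H => ¬ charDegree χ.1 = 1) = ∅ := by
    rw [Finset.filter_eq_empty_iff]
    intro χ _
    simp [hcon χ]
  rw [hempty, Finset.sum_empty, add_zero] at h
  have h2 := Subgroup.card_mul_index (commutator H)
  rw [h] at h2
  have hpos : 0 < Nat.card H := Nat.card_pos
  have h3 : Nat.card (commutator H) = 1 := by
    have : Nat.card (commutator H) * Nat.card H = 1 * Nat.card H := by rw [h2, one_mul]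
    exact Nat.eq_of_mul_eq_mul_right hpos this
  exact hne (Subgroup.eq_bot_of_card_eq _ h3)

/-- The `p`-group case. -/
theorem pd_case_pgroup [Finite G]
    (hprime : ∀ χ : IrrCharacter G, charDegree χ.1 = 1 ∨ (charDegree χ.1).Prime)
    (K : Subgroup G) [hK : K.Normal] {p : ℕ} (hp : p.Prime) (hpg : IsPGroup p (G ⧸ K))
    (hne : commutator (G ⧸ K) ≠ ⊥) :
    ∀ χ : IrrCharacter G, charDegree χ.1 = 1 ∨ charDegree χ.1 = p := by
  classical
  haveI : Fintype G := Fintype.ofFinite G
  haveI : Fintype K := Fintype.ofFinite K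
  haveI : Fact p.Prime := ⟨hp⟩
  obtain ⟨a, ha⟩ := IsPGroup.iff_card.mp hpg
  have hidx : K.index = p ^ a := by rw [Subgroup.index_eq_card]; exact ha
  obtain ⟨β, hβ⟩ := pd_exists_nonlinear hne
  set β' : IrrCharacter G := H82.inflate K β with hβ'
  have hβdeg : charDegree β'.1 = p := by
    have h1 : charDegree β'.1 = charDegree β.1 := H82.charDegree_inflate K β
    have h2 : charDegree β.1 ∣ p ^ a := by rw [← ha]; exact H82.charDegree_dvd_card β
    rcases hprime β' with h | h
    · rw [h1] at h; exact absurd h hβ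
    · rw [h1] at h
      rw [h1]
      exact (Nat.prime_dvd_prime_iff_eq h hp).mp (h.dvd_of_dvd_pow h2)
  intro χ
  by_contra hcon
  push Not at hcon
  obtain ⟨h1, h2⟩ := hcon
  have hq : (charDegree χ.1).Prime := (hprime χ).resolve_left h1
  have hndvd : ¬ p ∣ charDegree χ.1 :=
    fun hd => h2 ((Nat.prime_dvd_prime_iff_eq hp hq).mp hd).symm
  have hres : IsIrrCharacter K (fun n : K => χ.1 n) :=
    res_irr_of_index_pow K p a hp hidx χ.2 hndvd
  have hχcf : IsClassFunction G χ.1 :=
    isClassFunction_of_isCharacter (isCharacter_of_isIrrCharacter χ.2)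
  have hβcf : IsClassFunction G β'.1 :=
    isClassFunction_of_isCharacter (isCharacter_of_isIrrCharacter β'.2)
  obtain ⟨hg1, -, -⟩ := gallagher K (φ := (1 : K → ℂ)) (ϑ := fun n : K => χ.1 n)
    (H82.isIrrCharacter_one K) hres (fun g => rfl) (fun g => conjChar_res K hχcf g)
    (by rw [one_mul]; exact hres) (isCharacter_of_isIrrCharacter χ.2) (fun n => rfl)
  have hover : classInner (indFun K (1 : K → ℂ)) β'.1 ≠ 0 := by
    rw [frobenius_reciprocity K _ _ hβcf]
    unfold classInner
    have hc : ∀ k : K, (1 : K → ℂ) k * conj (β'.1 k) = conj (β'.1 1) := by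
      intro k
      rw [Pi.one_apply, one_mul, H82.inflate_mem K β k k.2]
    simp only [hc, Finset.sum_const, Finset.card_univ, nsmul_eq_mul]
    rw [← Nat.card_eq_fintype_card, ← mul_assoc, inv_mul_cancel₀, one_mul]
    · simpa using H82.irr_one_ne_zero β'
    · exact_mod_cast (Nat.card_pos (α := K)).ne'
  obtain ⟨hirr, -⟩ := hg1 β'.1 β'.2 hover
  have hdeg : charDegree (β'.1 * χ.1) = p * charDegree χ.1 := by
    have h3 : ((charDegree (β'.1 * χ.1) : ℕ) : ℂ) = ((p * charDegree χ.1 : ℕ) : ℂ) := by
      rw [← H82.irr_one_eq_charDegree ⟨β'.1 * χ.1, hirr⟩]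
      push_cast
      rw [← hβdeg, ← H82.irr_one_eq_charDegree β', ← H82.irr_one_eq_charDegree χ]
      rfl
    exact_mod_cast h3
  rcases hprime ⟨β'.1 * χ.1, hirr⟩ with h | h
  · have h' : p * charDegree χ.1 = 1 := by rw [← hdeg]; exact h
    exact hp.one_lt.ne' (Nat.eq_one_of_mul_eq_one_right h')
  · have h' : (p * charDegree χ.1).Prime := by rw [← hdeg]; exact h
    exact Nat.not_prime_mul hp.one_lt.ne' h1 h'

/-- The Frobenius case. -/
theorem pd_case_frob [Finite G]
    (hprime : ∀ χ : IrrCharacter G, charDegree χ.1 = 1 ∨ (charDegree χ.1).Prime)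
    (K : Subgroup G) [hK : K.Normal] {p : ℕ} (hp : p.Prime)
    (hexp : ∀ m ∈ commutator (G ⧸ K), m ^ p = 1)
    (hab : ∀ a ∈ commutator (G ⧸ K), ∀ b ∈ commutator (G ⧸ K), a * b = b * a)
    (hne : commutator (G ⧸ K) ≠ ⊥) (hntop : commutator (G ⧸ K) ≠ ⊤)
    (hfrob : ∀ x : G ⧸ K, x ∉ commutator (G ⧸ K) → ∀ m ∈ commutator (G ⧸ K),
      x * m = m * x → m = 1) :
    ∃ f : ℕ, ∀ χ : IrrCharacter G,
      charDegree χ.1 = 1 ∨ charDegree χ.1 = f ∨ charDegree χ.1 = p := by
  classical
  haveI : Fintype G := Fintype.ofFinite G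
  haveI : Fact p.Prime := ⟨hp⟩
  set M : Subgroup (G ⧸ K) := commutator (G ⧸ K) with hM
  have hMn : M.Normal := by rw [hM]; infer_instance
  set N : Subgroup G := M.comap (QuotientGroup.mk' K) with hN
  haveI hNn : N.Normal := hMn.comap _
  haveI : Fintype N := Fintype.ofFinite N
  let π : N →* M := (QuotientGroup.mk' K).subgroupComap M
  have hπ : ∀ n : N, ((π n : M) : G ⧸ K) = QuotientGroup.mk (n : G) := fun n => rfl
  have hπsurj : Function.Surjective π :=
    (QuotientGroup.mk' K).subgroupComap_surjective_of_surjective M (QuotientGroup.mk'_surjective K)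
  have hMcomm : ∀ a b : M, a * b = b * a := fun a b => Subtype.ext (hab a a.2 b b.2)
  obtain ⟨y, hy⟩ : ∃ y : G, y ∉ N := by
    by_contra hcon
    push Not at hcon
    apply hntop
    rw [eq_top_iff]
    intro x _
    obtain ⟨g, rfl⟩ := QuotientGroup.mk_surjective x
    exact hcon g
  have hyM : (QuotientGroup.mk y : G ⧸ K) ∉ M := hy
  have hidx1 : N.index ≠ 1 := by
    intro h1
    rw [Subgroup.index_eq_one] at h1
    exact hy (h1 ▸ Subgroup.mem_top y)
  obtain ⟨m₀, hm₀⟩ : ∃ m : M, m ≠ 1 := by
    by_contra hcon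
    push Not at hcon
    apply hne
    rw [eq_bot_iff]
    intro x hx
    have := hcon ⟨x, hx⟩
    rw [Subgroup.mem_bot]
    exact congrArg Subtype.val this
  obtain ⟨lam₀, hlam₀⟩ := H82.hom_sep hMcomm hm₀
  set θ₀ : N → ℂ := H82.homFun N (lam₀.comp π) with hθ₀
  have hθ₀irr : IsIrrCharacter N θ₀ := H82.homFun_irr N _
  have hstab : Clifford.inertia N θ₀ = N := by
    apply le_antisymm
    · intro g hg
      by_contra hgN
      have hg' := (H82.mem_stab N).mp hg
      have h1 := pd_dual hfrob (QuotientGroup.mk g) hgN lam₀ (by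
        intro m
        obtain ⟨n, rfl⟩ := hπsurj m
        exact Eq.trans (congrArg lam₀ (Subtype.ext rfl)) (hg' n))
      exact hlam₀ (by rw [h1]; rfl)
    · exact H82.le_stab N _
  obtain ⟨ξ, hξ, hξθ⟩ := ItoConv.exists_irr_over N hθ₀irr
  obtain ⟨e, he⟩ := ItoConv.degree_over N ⟨θ₀, hθ₀irr⟩ ⟨ξ, hξ⟩ hξθ
  have hθ₀deg : charDegree θ₀ = 1 := by
    have : ((charDegree θ₀ : ℕ) : ℂ) = 1 := by
      rw [← H82.irr_one_eq_charDegree ⟨θ₀, hθ₀irr⟩]
      show ((lam₀.comp π 1 : ℂˣ) : ℂ) = 1
      rw [map_one, Units.val_one]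
    exact_mod_cast this
  have he' : charDegree ξ = N.index * e := by
    have h := he
    dsimp only at h
    rw [hstab, hθ₀deg, mul_one] at h
    exact h
  have hfp : N.index.Prime := by
    rcases hprime ⟨ξ, hξ⟩ with h | h
    · have h' : N.index * e = 1 := by rw [← he']; exact h
      exact absurd (Nat.eq_one_of_mul_eq_one_right h') hidx1
    · have h' : (N.index * e).Prime := by rw [← he']; exact h
      rcases Nat.prime_mul_iff.mp h' with ⟨h1, -⟩ | ⟨-, h1⟩
      · exact h1
      · exact absurd h1 hidx1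
  refine ⟨N.index, fun χ => ?_⟩
  obtain ⟨ψ, hψ, hψχ⟩ := H82.exists_constituent_res' N χ.2
  obtain ⟨t, ht⟩ := ItoConv.degree_over N ⟨ψ, hψ⟩ χ hψχ
  by_cases hcase : ∃ lam : M →* ℂˣ,
      conjChar N (fun n => ((lam.comp π n : ℂˣ) : ℂ) * ψ n) y ≠
        (fun n => ((lam.comp π n : ℂˣ) : ℂ) * ψ n)
  · obtain ⟨lam, hlam⟩ := hcase
    set φ : N → ℂ := fun n => ((lam.comp π n : ℂˣ) : ℂ) * ψ n with hφ
    have hφirr : IsIrrCharacter N φ := isIrrCharacter_hom_mul (lam.comp π) hψ
    obtain ⟨ξ', hξ', hξφ⟩ := ItoConv.exists_irr_over N hφirr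
    obtain ⟨e', he'⟩ := ItoConv.degree_over N ⟨φ, hφirr⟩ ⟨ξ', hξ'⟩ hξφ
    have hφdeg : charDegree φ = charDegree ψ := H82.charDegree_eq_of_one_eq (by
      show ((lam.comp π 1 : ℂˣ) : ℂ) * ψ 1 = ψ 1
      rw [map_one, Units.val_one, one_mul])
    have hT1 : (Clifford.inertia N φ).index ≠ 1 := by
      intro h1
      rw [Subgroup.index_eq_one] at h1
      have : y ∈ Clifford.inertia N φ := h1 ▸ Subgroup.mem_top y
      exact hlam ((Clifford.mem_inertia N).mp this)
    have he'' : charDegree ξ' = (Clifford.inertia N φ).index * e' * charDegree ψ := by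
      have h := he'
      dsimp only at h
      rw [hφdeg] at h
      exact h
    have hψ1 : charDegree ψ = 1 := by
      rcases hprime ⟨ξ', hξ'⟩ with h | h
      · have h' : (Clifford.inertia N φ).index * e' * charDegree ψ = 1 := by
          rw [← he'']; exact h
        exact Nat.eq_one_of_mul_eq_one_left h'
      · have h' : ((Clifford.inertia N φ).index * e' * charDegree ψ).Prime := by
          rw [← he'']; exact h
        rcases Nat.prime_mul_iff.mp h' with ⟨-, h1⟩ | ⟨-, h1⟩
        · exact h1
        · exact absurd (Nat.eq_one_of_mul_eq_one_right h1) hT1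
    by_cases hχf : charDegree χ.1 = N.index
    · exact Or.inr (Or.inl hχf)
    · left
      have hndvd : ¬ N.index ∣ charDegree χ.1 := by
        intro hd
        rcases hprime χ with h | h
        · rw [h] at hd; exact hidx1 (Nat.dvd_one.mp hd)
        · exact hχf ((Nat.prime_dvd_prime_iff_eq hfp h).mp hd).symm
      have hres := H82.res_irr_of_prime_index N hfp rfl χ.2 hndvd
      have heq : (fun n : N => χ.1 n) = ψ := eq_of_classInner_ne_zero hres hψ hψχ
      have h3 : charDegree χ.1 = charDegree ψ :=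
        H82.charDegree_eq_of_one_eq (by rw [← heq]; rfl)
      rw [h3, hψ1]
  · push Not at hcase
    right; right
    have hinv : ∀ n : N, ψ ⟨y * n * y⁻¹, hNn.conj_mem (n : G) n.2 y⟩ = ψ n := by
      intro n
      have h1 := congrFun (hcase 1) n
      simpa [conjChar_apply] using h1
    have hvan : ∀ n : N, (n : G) ∉ K → ψ n = 0 := by
      intro n hnK
      by_contra hψn
      set n' : N := ⟨y * n * y⁻¹, hNn.conj_mem (n : G) n.2 y⟩ with hn'
      have hc : π (n' * n⁻¹) ≠ 1 := by
        intro h1
        have h2 : ((π (n' * n⁻¹) : M) : G ⧸ K) = 1 := by rw [h1]; rfl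
        rw [hπ] at h2
        have h4 : (QuotientGroup.mk (y * (n : G) * y⁻¹ * (n : G)⁻¹) : G ⧸ K) = 1 := h2
        have h3 : (QuotientGroup.mk y : G ⧸ K) * QuotientGroup.mk (n : G) =
            QuotientGroup.mk (n : G) * QuotientGroup.mk y := by
          rw [← QuotientGroup.mk_mul, ← QuotientGroup.mk_mul]
          have e1 : y * (n : G) = (y * (n : G) * y⁻¹ * (n : G)⁻¹) * ((n : G) * y) := by group
          rw [e1, QuotientGroup.mk_mul, h4, one_mul]
        have h5 := hfrob _ hyM _ n.2 h3
        exact hnK ((QuotientGroup.eq_one_iff _).mp h5)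
      obtain ⟨lam, hlam⟩ := H82.hom_sep hMcomm hc
      have h1 := congrFun (hcase lam) n
      have hψn' : ψ n' = ψ n := hinv n
      have h2 : ((lam (π n') : ℂˣ) : ℂ) * ψ n = ((lam (π n) : ℂˣ) : ℂ) * ψ n := by
        have h1' : ((lam (π n') : ℂˣ) : ℂ) * ψ n' = ((lam (π n) : ℂˣ) : ℂ) * ψ n := h1
        rw [hψn'] at h1'
        exact h1'
      have h3 : lam (π n') = lam (π n) := Units.ext (mul_right_cancel₀ hψn h2)
      apply hlam
      rw [map_mul, map_mul, map_inv, map_inv, h3, mul_inv_cancel]
    set K' : Subgroup N := K.subgroupOf N with hK'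
    haveI hK'n : K'.Normal := hK.subgroupOf N
    have hpgq : IsPGroup p (N ⧸ K') := by
      intro x
      obtain ⟨n, rfl⟩ := QuotientGroup.mk_surjective x
      refine ⟨1, ?_⟩
      rw [pow_one, ← QuotientGroup.mk_pow, QuotientGroup.eq_one_iff]
      show ((n ^ p : N) : G) ∈ K
      rw [Subgroup.coe_pow, ← QuotientGroup.eq_one_iff, QuotientGroup.mk_pow]
      exact hexp _ n.2
    obtain ⟨a, ha⟩ := IsPGroup.iff_card.mp hpgq
    have hidx : K'.index = p ^ a := by rw [Subgroup.index_eq_card]; exact ha
    have hpd : p ∣ charDegree ψ := by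
      by_contra hpd
      haveI : Fintype K' := Fintype.ofFinite K'
      have hirr := res_irr_of_index_pow K' p a hp hidx hψ hpd
      have h1 := H82.irr_norm_sq (⟨ψ, hψ⟩ : IrrCharacter N)
      have h2 := H82.irr_norm_sq (⟨fun k : K' => ψ k, hirr⟩ : IrrCharacter K')
      dsimp only at h1 h2
      have h3 : ∑ n : N, ψ n * conj (ψ n) = ∑ k : K', ψ k * conj (ψ k) := by
        rw [← Finset.sum_subtype (Finset.univ.filter (fun n : N => n ∈ K')) (by simp)
          (fun n => ψ n * conj (ψ n))]
        symm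
        apply Finset.sum_filter_of_ne
        intro n _ hn
        by_contra hnK
        apply hn
        rw [hvan n (fun hk => hnK (Subgroup.mem_subgroupOf.mpr hk)), zero_mul]
      rw [h3, h2] at h1
      have h4 : Nat.card K' = Nat.card N := by exact_mod_cast h1
      have h5 : K' = ⊤ := (Subgroup.card_eq_iff_eq_top K').mp h4
      apply hm₀
      obtain ⟨n, rfl⟩ := hπsurj m₀
      have hnK : (n : G) ∈ K := by
        have : n ∈ K' := h5 ▸ Subgroup.mem_top n
        exact Subgroup.mem_subgroupOf.mp this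
      apply Subtype.ext
      rw [hπ]
      exact (QuotientGroup.eq_one_iff _).mpr hnK
    have ht' : charDegree χ.1 = (Clifford.inertia N ψ).index * t * charDegree ψ := by
      have h := ht
      dsimp only at h
      exact h
    have hdvd : p ∣ charDegree χ.1 := by rw [ht']; exact Dvd.dvd.mul_left hpd _
    rcases hprime χ with h | h
    · rw [h] at hdvd; exact absurd (Nat.dvd_one.mp hdvd) hp.one_lt.ne'
    · exact ((Nat.prime_dvd_prime_iff_eq hp h).mp hdvd).symm

/-- If all nonlinear irreducible characters of the finite solvable group `G` have prime degree,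
the character degrees lie in a set `{1, a, b}`. -/
theorem pd_main [Finite G] [Group.IsSolvable G]
    (hprime : ∀ χ : IrrCharacter G, charDegree χ.1 = 1 ∨ (charDegree χ.1).Prime) :
    ∃ a b : ℕ, ∀ χ : IrrCharacter G,
      charDegree χ.1 = 1 ∨ charDegree χ.1 = a ∨ charDegree χ.1 = b := by
  classical
  by_cases hG : commutator G = ⊥
  · refine ⟨1, 1, fun χ => Or.inl ?_⟩
    have hcomm : ∀ a b : G, a * b = b * a := by
      intro a b
      have h1 : ⁅a, b⁆ ∈ commutator G := by
        rw [commutator_def]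
        exact Subgroup.commutator_mem_commutator (Subgroup.mem_top _) (Subgroup.mem_top _)
      rw [hG, Subgroup.mem_bot] at h1
      exact commutatorElement_eq_one_iff_mul_comm.mp h1
    have h1 := (H32.irr_linear_of_comm hcomm χ.2).1
    have : ((charDegree χ.1 : ℕ) : ℂ) = 1 := by rw [← H82.irr_one_eq_charDegree χ]; exact h1
    exact_mod_cast this
  · let S : Set (Subgroup G) := {K | K.Normal ∧ ¬ commutator G ≤ K}
    have hS0 : (⊥ : Subgroup G) ∈ S := ⟨inferInstance, fun h => hG (le_bot_iff.mp h)⟩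
    obtain ⟨K, -, hKmax⟩ := Set.Finite.exists_le_maximal (Set.toFinite S) hS0
    obtain ⟨⟨hKn, hKc⟩, hKmax'⟩ := hKmax
    haveI := hKn
    have hne : commutator (G ⧸ K) ≠ ⊥ := by
      intro h0
      apply hKc
      rw [commutator_def, Subgroup.commutator_le]
      intro a _ b _
      have h1 : ⁅(QuotientGroup.mk a : G ⧸ K), QuotientGroup.mk b⁆ ∈ commutator (G ⧸ K) := by
        rw [commutator_def]
        exact Subgroup.commutator_mem_commutator (Subgroup.mem_top _) (Subgroup.mem_top _)
      rw [h0, Subgroup.mem_bot] at h1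
      rw [← QuotientGroup.eq_one_iff, ← h1]
      rfl
    have hmin : ∀ L : Subgroup (G ⧸ K), L.Normal → L ≠ ⊥ → commutator (G ⧸ K) ≤ L := by
      intro L hLn hLne
      set L' : Subgroup G := L.comap (QuotientGroup.mk' K) with hL'
      have hL'n : L'.Normal := hLn.comap _
      have hKL : K ≤ L' := by
        intro k hk
        show (QuotientGroup.mk k : G ⧸ K) ∈ L
        rw [(QuotientGroup.eq_one_iff k).mpr hk]
        exact one_mem L
      have hcomL : commutator G ≤ L' := by
        by_contra hnot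
        have hle : L' ≤ K := hKmax' ⟨hL'n, hnot⟩ hKL
        apply hLne
        rw [eq_bot_iff]
        intro x hx
        obtain ⟨g, rfl⟩ := QuotientGroup.mk_surjective x
        rw [Subgroup.mem_bot, QuotientGroup.eq_one_iff]
        exact hle hx
      rw [commutator_def, Subgroup.commutator_le]
      intro x _ z _
      obtain ⟨a, rfl⟩ := QuotientGroup.mk_surjective x
      obtain ⟨b, rfl⟩ := QuotientGroup.mk_surjective z
      have h1 : ⁅a, b⁆ ∈ L' := hcomL (by
        rw [commutator_def]
        exact Subgroup.commutator_mem_commutator (Subgroup.mem_top _) (Subgroup.mem_top _))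
      exact h1
    haveI : Nontrivial (G ⧸ K) := by
      by_contra hnt
      rw [not_nontrivial_iff_subsingleton] at hnt
      exact hne (Subsingleton.elim _ _)
    have hntop : commutator (G ⧸ K) ≠ ⊤ :=
      (Group.IsSolvable.commutator_lt_top_of_nontrivial (G ⧸ K)).ne
    have hab := pd_comm_abelian hmin
    obtain ⟨p, hp, hexp⟩ := pd_exp hmin hne hab
    by_cases hZ : Subgroup.center (G ⧸ K) = ⊥
    · obtain ⟨f, hf⟩ := pd_case_frob hprime K hp hexp hab hne hntop (pd_frob hmin hne hab hZ)
      exact ⟨f, p, hf⟩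
    · exact ⟨p, p, fun χ =>
        (pd_case_pgroup hprime K hp (pd_pgroup hmin hne hp hexp hZ) hne χ).imp_right Or.inl⟩

end PrimeDegB

end Cfsg.Agent.H4
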