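import Mathlib
import Cfsg.Prelude.Def_Characters
import Cfsg.Agent.H4.RelA
import Cfsg.Agent.H4.GlaubP
import Cfsg.Agent.S0867
import Cfsg.Agent.H82.DetChar
import Cfsg.Agent.H82.CoprimeExt
import Cfsg.Agent.H82.IndDeg

set_option autoImplicit false
set_option linter.unusedSectionVars false
set_option linter.style.haveILetI false

/-!
# A group of operators acting on Clifford theory (helper4)

`P` acts on `X` by automorphisms (`MulDistribMulAction P X`), `M ⊴ X` is `P`-stable.
* `inertia_stable`: the inertia group of a `P`-invariant character is `P`-stable;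
* `indFun_smul`, `indFun_inv`: induction commutes with the action;
* `exists_inv_ext`: an invariant character of a normal Sylow `p`-subgroup has a `P`-invariant
  (canonical) extension to its inertia group;
* `cg_inv`: invariance descends along the Clifford–Gallagher parametrisation;
* `exists_inv_constituent`, `exists_conj_of_inv`: for a `p`-group `P` and `p ∤ [X:M]`, an
  invariant irreducible character lies over an invariant one, and invariant constituents are
  conjugate under elements fixed modulo `M`.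
-/

open Cfsg
open scoped ComplexConjugate

namespace Cfsg.Agent.H4

open Cfsg.Agent.Clifford

universe u v w

section Act

variable {X : Type u} [Group X] {P : Type w} [Group P] [MulDistribMulAction P X]

/-- `H` is stable under the action of `P`. -/
@[reducible] def Stable (P : Type w) [Group P] [MulDistribMulAction P X] (H : Subgroup X) : Prop :=
  ∀ (s : P) (x : X), x ∈ H → s • x ∈ H

/-- `f : H → ℂ` is invariant under the action of `P`. -/
@[reducible] def SubInv (P : Type w) [Group P] [MulDistribMulAction P X] (H : Subgroup X) (f : H → ℂ) : Prop :=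
  ∀ (s : P) (h h' : H), (h' : X) = s • (h : X) → f h' = f h

theorem Stable.mem_iff {H : Subgroup X} (hH : Stable P H) (s : P) (x : X) :
    s • x ∈ H ↔ x ∈ H :=
  ⟨fun h => by simpa using hH s⁻¹ _ h, hH s x⟩

/-- The action on a stable subgroup. -/
@[reducible] def subAct (H : Subgroup X) (hH : Stable P H) : MulDistribMulAction P H where
  smul s h := ⟨s • (h : X), hH s h h.2⟩
  one_smul h := Subtype.ext (one_smul P (h : X))
  mul_smul s t h := Subtype.ext (mul_smul s t (h : X))
  smul_mul s a b := Subtype.ext (smul_mul' s (a : X) (b : X))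
  smul_one s := Subtype.ext (smul_one s)

theorem subAct_coe (H : Subgroup X) (hH : Stable P H) (s : P) (h : H) :
    letI := subAct H hH
    ((s • h : H) : X) = s • (h : X) := rfl

/-- The automorphism of a stable subgroup induced by `s`. -/
def stabEquiv (H : Subgroup X) (hH : Stable P H) (s : P) : H ≃* H where
  toFun h := ⟨s • (h : X), hH s h h.2⟩
  invFun h := ⟨s⁻¹ • (h : X), hH s⁻¹ h h.2⟩
  left_inv h := Subtype.ext (inv_smul_smul s (h : X))
  right_inv h := Subtype.ext (smul_inv_smul s (h : X))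
  map_mul' a b := Subtype.ext (smul_mul' s (a : X) (b : X))

theorem stabEquiv_coe (H : Subgroup X) (hH : Stable P H) (s : P) (h : H) :
    ((stabEquiv H hH s h : H) : X) = s • (h : X) := rfl

theorem subInv_iff {H : Subgroup X} (hH : Stable P H) (f : H → ℂ) :
    SubInv P H f ↔ ∀ (s : P) (h : H), f ⟨s • (h : X), hH s h h.2⟩ = f h := by
  constructor
  · intro hf s h
    exact hf s h _ rfl
  · intro hf s h h' hh
    have : h' = ⟨s • (h : X), hH s h h.2⟩ := Subtype.ext hh
    rw [this, hf]

/-- The action on the quotient by a stable normal subgroup. -/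
@[reducible] def quotAct (M : Subgroup X) [M.Normal] (hMs : Stable P M) :
    MulDistribMulAction P (X ⧸ M) where
  smul s q := QuotientGroup.map M M (MulDistribMulAction.toMonoidHom X s)
    (fun n hn => hMs s n hn) q
  one_smul q := by
    induction q using QuotientGroup.induction_on with
    | H x =>
      show (QuotientGroup.mk ((1 : P) • x) : X ⧸ M) = QuotientGroup.mk x
      rw [one_smul]
  mul_smul s t q := by
    induction q using QuotientGroup.induction_on with
    | H x =>
      show (QuotientGroup.mk ((s * t) • x) : X ⧸ M) = QuotientGroup.mk (s • t • x)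
      rw [mul_smul]
  smul_mul s a b := map_mul _ a b
  smul_one s := map_one _

theorem quotAct_mk (M : Subgroup X) [M.Normal] (hMs : Stable P M) (s : P) (x : X) :
    letI := quotAct M hMs
    s • (QuotientGroup.mk x : X ⧸ M) = QuotientGroup.mk (s • x) := rfl

variable (M : Subgroup X) [hM : M.Normal]

theorem inertia_stable (hMs : Stable P M) {θ : M → ℂ} (hθ : SubInv P M θ) :
    Stable P (Clifford.inertia M θ) := by
  intro s t ht
  rw [Clifford.mem_inertia_iff] at ht ⊢
  intro n
  let n₀ : M := ⟨s⁻¹ • (n : X), hMs s⁻¹ n n.2⟩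
  have h1 := ht n₀
  have h2 : θ n = θ n₀ := hθ s n₀ n (by simp [n₀])
  rw [h2, ← h1]
  refine hθ s ⟨t * n₀ * t⁻¹, hM.conj_mem (n₀ : X) n₀.2 t⟩ _ ?_
  show (s • t) * (n : X) * (s • t)⁻¹ = s • (t * (s⁻¹ • (n : X)) * t⁻¹)
  rw [smul_mul', smul_mul', smul_inv', smul_inv_smul]

theorem extendByZero_smul {T : Subgroup X} (hTs : Stable P T) (ψ : T → ℂ) (s : P) (z : X) :
    extendByZero T ψ (s • z) = extendByZero T (fun t => ψ ⟨s • (t : X), hTs s t t.2⟩) z := by
  by_cases hz : z ∈ T
  · rw [extendByZero_of_mem T ψ (hTs s z hz), extendByZero_of_mem T _ hz]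
  · have : s • z ∉ T := fun h => hz ((hTs.mem_iff s z).mp h)
    rw [extendByZero_of_not_mem T ψ this, extendByZero_of_not_mem T _ hz]

theorem indFun_smul [Fintype X] {T : Subgroup X} (hTs : Stable P T) (ψ : T → ℂ) (s : P) (x : X) :
    indFun T ψ (s • x) = indFun T (fun t => ψ ⟨s • (t : X), hTs s t t.2⟩) x := by
  rw [indFun_apply, indFun_apply]
  congr 1
  rw [← Equiv.sum_comp (MulAction.toPerm s : X ≃ X)]
  refine Finset.sum_congr rfl fun g _ => ?_
  rw [← extendByZero_smul hTs]
  congr 1
  simp [smul_mul', smul_inv']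

theorem indFun_inv [Fintype X] {T : Subgroup X} (hTs : Stable P T) {ψ : T → ℂ}
    (hψ : SubInv P T ψ) (s : P) (x : X) : indFun T ψ (s • x) = indFun T ψ x := by
  rw [indFun_smul hTs]
  congr 1
  funext t
  exact hψ s t _ rfl

theorem card_conjChar_fiber (θ : M → ℂ) (g₀ : X) :
    Nat.card {g : X // conjChar M θ g = conjChar M θ g₀} = Nat.card (Clifford.inertia M θ) := by
  refine Nat.card_congr ?_
  refine
    { toFun := fun g => ⟨g.1 * g₀⁻¹, ?_⟩
      invFun := fun t => ⟨t.1 * g₀, ?_⟩
      left_inv := fun g => Subtype.ext (by simp)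
      right_inv := fun t => Subtype.ext (by simp) }
  · rw [Clifford.mem_inertia, ← conjChar_conjChar, g.2, conjChar_conjChar, mul_inv_cancel, conjChar_one]
  · show conjChar M θ (t.1 * g₀) = conjChar M θ g₀
    rw [← conjChar_conjChar, (Clifford.mem_inertia M).mp t.2]

variable [Fintype X] [Fintype M]

/-- An invariant irreducible character of a normal Sylow `p`-subgroup has a `P`-invariant
extension to (any stable subgroup of) its inertia group: the canonical extension. -/
theorem exists_inv_ext {p : ℕ} (hp : p.Prime) (hMp : IsPGroup p M) (hidx : ¬ p ∣ M.index)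
    (hMs : Stable P M) {θ : M → ℂ} (hθ : IsIrrCharacter M θ) (hθP : SubInv P M θ)
    {T : Subgroup X} [Fintype T] (hMT : M ≤ T) (hT : T ≤ Clifford.inertia M θ) (hTs : Stable P T) :
    ∃ θh : T → ℂ, IsIrrCharacter T θh ∧ (∀ n : M, θh ⟨n, hMT n.2⟩ = θ n) ∧ SubInv P T θh := by
  classical
  haveI : Fact p.Prime := ⟨hp⟩
  haveI hMTn : (M.subgroupOf T).Normal := Subgroup.normal_subgroupOf
  let e : M.subgroupOf T ≃* M := Subgroup.subgroupOfEquivOfLe hMT
  set θT : M.subgroupOf T → ℂ := fun n => θ (e n) with hθT_def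
  have hθT : IsIrrCharacter (M.subgroupOf T) θT := isIrrCharacter_comp_equiv e hθ
  have hinvT : ∀ (g : T) (n : M.subgroupOf T),
      θT ⟨g * n * g⁻¹, hMTn.conj_mem (n : T) n.2 g⟩ = θT n := by
    intro g n
    have hg : (g : X) ∈ Clifford.inertia M θ := hT g.2
    rw [Clifford.mem_inertia_iff] at hg
    have h1 := hg (e n)
    show θ (e _) = θ (e n)
    rw [← h1]
    exact congrArg θ (Subtype.ext rfl)
  obtain ⟨a, ha⟩ := IsPGroup.iff_card.mp hMp
  have hcardT : Nat.card (M.subgroupOf T) = p ^ a := by rw [Nat.card_congr e.toEquiv, ha]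
  have hidxT : ¬ p ∣ (M.subgroupOf T).index := fun h =>
    hidx (h.trans (Subgroup.relIndex_dvd_index_of_normal M T))
  set d := charDegree θT with hd_def
  have hd : θT 1 = d := Cfsg.Agent.H82.irr_one_eq_charDegree ⟨θT, hθT⟩
  have hcop : Nat.Coprime (M.subgroupOf T).index (detOrder θT * d) := by
    have h1 : detOrder θT ∣ p ^ a := by
      rw [← hcardT]
      exact Cfsg.Agent.H82.detOrder_dvd_card θT
    have h2 : d ∣ p ^ a := by
      rw [← hcardT]
      exact Cfsg.Agent.H82.charDegree_dvd_card ⟨θT, hθT⟩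
    have h3 : Nat.Coprime (M.subgroupOf T).index (p ^ a) :=
      Nat.Coprime.pow_right a ((Nat.Prime.coprime_iff_not_dvd hp).mpr hidxT).symm
    exact Nat.Coprime.mul_right (Nat.Coprime.coprime_dvd_right h1 h3)
      (Nat.Coprime.coprime_dvd_right h2 h3)
  obtain ⟨χ, ⟨hχ, hχext, hχdet⟩, huniq⟩ :=
    Cfsg.Agent.S0867.result (M.subgroupOf T) θT hθT hinvT d hd hcop
  have hextM : ∀ n : M, χ ⟨n, hMT n.2⟩ = θ n := by
    intro n
    have h1 := hχext ⟨⟨n, hMT n.2⟩, Subgroup.mem_subgroupOf.mpr n.2⟩
    rw [h1]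
    exact congrArg θ (Subtype.ext rfl)
  refine ⟨χ, hχ, hextM, ?_⟩
  rw [subInv_iff hTs]
  intro s t
  let σ := stabEquiv T hTs s
  have h1 : IsIrrCharacter T (fun t => χ (σ t)) := isIrrCharacter_comp_equiv σ hχ
  have h2 : ∀ n : M.subgroupOf T, (fun t => χ (σ t)) n = θT n := by
    intro n
    have hmem : (σ (n : T) : X) ∈ M := hMs s _ (Subgroup.mem_subgroupOf.mp n.2)
    have h3 := hχext ⟨σ (n : T), Subgroup.mem_subgroupOf.mpr hmem⟩
    show χ (σ (n : T)) = θT n
    rw [h3]
    show θ (e _) = θ (e n)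
    exact hθP s (e n) _ rfl
  have h3 : Nat.Coprime (M.subgroupOf T).index (detOrder (fun t => χ (σ t))) := by
    rw [Cfsg.Agent.H82.detOrder_comp_equiv σ (isCharacter_of_isIrrCharacter hχ), hχdet]
    exact Nat.Coprime.coprime_dvd_right (Dvd.intro _ rfl) hcop
  have h4 := huniq _ h1 h2 h3
  exact congrFun h4 t

/-- Invariance descends along the Clifford–Gallagher parametrisation. -/
theorem cg_inv (hMs : Stable P M) {θ : M → ℂ} (hθ : IsIrrCharacter M θ) {T : Subgroup X}
    [Fintype T] (hMT : M ≤ T) (hT : T = Clifford.inertia M θ) (hTs : Stable P T) {θh : T → ℂ}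
    (hθh : IsCharacter T θh) (hext : ∀ n : M, θh ⟨n, hMT n.2⟩ = θ n) (hθhP : SubInv P T θh)
    {β : T → ℂ} (hβ : IsIrrCharacter T β) (hβM : ∀ t : T, (t : X) ∈ M → β t = β 1)
    (hinv : ∀ (s : P) (x : X), indFun T (β * θh) (s • x) = indFun T (β * θh) x) :
    SubInv P T β := by
  rw [subInv_iff hTs]
  intro s
  let σ := stabEquiv T hTs s
  have h1 : IsIrrCharacter T (fun t => β (σ t)) := isIrrCharacter_comp_equiv σ hβ
  have h2 : ∀ t : T, (t : X) ∈ M → (fun t => β (σ t)) t = (fun t => β (σ t)) 1 := by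
    intro t ht
    show β (σ t) = β (σ 1)
    rw [map_one, hβM (σ t) (hMs s _ ht)]
  have h3 : indFun T ((fun t => β (σ t)) * θh) = indFun T (β * θh) := by
    funext x
    rw [← hinv s x, indFun_smul hTs]
    congr 1
    funext t
    show β (σ t) * θh t = β ⟨s • (t : X), _⟩ * θh ⟨s • (t : X), _⟩
    rw [hθhP s t ⟨s • (t : X), hTs s t t.2⟩ rfl]
    rfl
  have h4 := cg_inj M hθ hMT hT hθh hext h1 h2 hβ hβM h3
  intro h
  exact congrFun h4 h

/-- The invariant characters `β θh`, `β` invariant, induce to invariant characters. -/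
theorem cg_inv' {T : Subgroup X} [Fintype T] (hTs : Stable P T) {θh : T → ℂ}
    (hθhP : SubInv P T θh) {β : T → ℂ} (hβP : SubInv P T β) (s : P) (x : X) :
    indFun T (β * θh) (s • x) = indFun T (β * θh) x := by
  apply indFun_inv hTs
  intro s h h' hh
  rw [Pi.mul_apply, Pi.mul_apply, hβP s h h' hh, hθhP s h h' hh]

/-- A `P`-invariant irreducible character of `X` lies over a `P`-invariant irreducible
character of `M`, when `P` is a `p`-group and `p ∤ [X : M]`. -/
theorem exists_inv_constituent {p : ℕ} (hp : p.Prime) (hP : IsPGroup p P)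
    (hidx : ¬ p ∣ M.index) (hMs : Stable P M) {χ : X → ℂ} (hχ : IsIrrCharacter X χ)
    (hχP : ∀ (s : P) (x : X), χ (s • x) = χ x) :
    ∃ θ : M → ℂ, IsIrrCharacter M θ ∧ SubInv P M θ ∧ classInner (fun n : M => χ n) θ ≠ 0 := by
  classical
  letI := subAct M hMs
  letI := fintypeIrr M
  letI := irrMulAction P M
  have hχcf : IsClassFunction X χ :=
    isClassFunction_of_isCharacter (isCharacter_of_isIrrCharacter hχ)
  obtain ⟨θ₀, hθ₀, hθ₀χ⟩ := Cfsg.Agent.H82.exists_constituent_res' M hχ
  by_contra hcon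
  push Not at hcon
  set f : IrrCharacter M → ℂ :=
    fun φ => if classInner (fun n : M => χ n) φ.1 ≠ 0 then 1 else 0 with hf
  have hinv : ∀ (s : P) (φ : IrrCharacter M), f (s • φ) = f φ := by
    intro s φ
    have h1 : classInner (fun n : M => χ n) (s • φ).1 = classInner (fun n : M => χ n) φ.1 := by
      have h2 : (fun n : M => (fun n : M => χ n) (stabEquiv M hMs s⁻¹ n)) = fun n : M => χ n := by
        funext n
        exact hχP s⁻¹ n
      calc classInner (fun n : M => χ n) (s • φ).1
          = classInner (fun n : M => (fun n : M => χ n) (stabEquiv M hMs s⁻¹ n))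
              (fun n : M => φ.1 (stabEquiv M hMs s⁻¹ n)) := by
            rw [h2]
            rfl
        _ = classInner (fun n : M => χ n) φ.1 :=
            classInner_comp_equiv (stabEquiv M hMs s⁻¹) (fun n : M => χ n) φ.1
    simp only [hf, h1]
  have hint : ∀ φ, IsIntegral ℤ (f φ) := fun φ => by
    simp only [hf]
    split_ifs
    · exact isIntegral_one
    · exact isIntegral_zero
  have h := pDiv_sum_sub_sum_fixed hp hP f hinv hint
  have h0 : ∑ a ∈ Finset.univ.filter (fun a : IrrCharacter M => ∀ s : P, s • a = a), f a = 0 := by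
    apply Finset.sum_eq_zero
    intro φ hφ
    have hfix : ∀ s : P, s • φ = φ := (Finset.mem_filter.mp hφ).2
    have hsub : SubInv P M φ.1 := by
      rw [subInv_iff hMs]
      intro s n
      have h1 := congrArg (fun ψ : IrrCharacter M => ψ.1 n) (hfix s⁻¹)
      simp only [irrMulAction_apply, inv_inv] at h1
      exact h1
    simp only [hf]
    rw [if_neg (not_not.mpr (hcon φ.1 φ.2 hsub))]
  rw [h0, sub_zero] at h
  -- the constituents form the orbit of `θ₀`
  let F : X → IrrCharacter M := fun g => ⟨conjChar M θ₀ g, isIrrCharacter_conjChar M hθ₀ g⟩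
  have himg : Finset.univ.filter (fun φ : IrrCharacter M => classInner (fun n : M => χ n) φ.1 ≠ 0)
      = Finset.univ.image F := by
    ext φ
    simp only [Finset.mem_filter, Finset.mem_univ, true_and, Finset.mem_image]
    constructor
    · intro hφ
      obtain ⟨g, hg⟩ := clifford_conj M hχ hθ₀ φ.2 hθ₀χ hφ
      exact ⟨g, Subtype.ext hg.symm⟩
    · rintro ⟨g, rfl⟩
      show classInner (fun n : M => χ n) (conjChar M θ₀ g) ≠ 0
      rw [classInner_res_conjChar M hχcf θ₀ g]
      exact hθ₀χ
  have hsum : ∑ φ : IrrCharacter M, f φ = ((Finset.univ.image F).card : ℂ) := by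
    simp only [hf]
    rw [Finset.sum_boole, himg]
  have hcard : Fintype.card X = (Finset.univ.image F).card * Nat.card (Clifford.inertia M θ₀) := by
    have h1 := Finset.card_eq_sum_card_image F Finset.univ
    rw [Finset.card_univ] at h1
    rw [h1, ← smul_eq_mul, ← Finset.sum_const]
    refine Finset.sum_congr rfl fun b hb => ?_
    obtain ⟨g₀, -, rfl⟩ := Finset.mem_image.mp hb
    rw [← card_conjChar_fiber M θ₀ g₀, ← Fintype.card_subtype, Nat.card_eq_fintype_card]
    refine Fintype.card_congr (Equiv.subtypeEquivRight fun g => ?_)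
    exact Subtype.ext_iff
  rw [hsum] at h
  have h3 := PDiv.dvd_int hp.pos (n := ((Finset.univ.image F).card : ℤ)) (by exact_mod_cast h)
  have h4 : p ∣ (Finset.univ.image F).card := Int.natCast_dvd_natCast.mp h3
  apply hidx
  have hMT₀ : M ≤ Clifford.inertia M θ₀ :=
    Clifford.le_inertia M (isClassFunction_of_isCharacter (isCharacter_of_isIrrCharacter hθ₀))
  obtain ⟨k, hk⟩ := Subgroup.card_dvd_of_le hMT₀
  have h5 : Nat.card M * M.index = Nat.card M * ((Finset.univ.image F).card * k) := by
    rw [Subgroup.card_mul_index, Nat.card_eq_fintype_card, hcard, hk]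
    ring
  have h6 : M.index = (Finset.univ.image F).card * k :=
    Nat.eq_of_mul_eq_mul_left Nat.card_pos h5
  rw [h6]
  exact Dvd.dvd.mul_right h4 k

/-- Two `P`-invariant constituents of `χ|M` are conjugate under an element fixed modulo `M`. -/
theorem exists_conj_of_inv {p : ℕ} (hp : p.Prime) (hP : IsPGroup p P)
    (hidx : ¬ p ∣ M.index) (hMs : Stable P M) {χ : X → ℂ} (hχ : IsIrrCharacter X χ)
    {θ₁ θ₂ : M → ℂ} (h₁ : IsIrrCharacter M θ₁) (h₂ : IsIrrCharacter M θ₂)
    (hP₁ : SubInv P M θ₁) (hP₂ : SubInv P M θ₂)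
    (c₁ : classInner (fun n : M => χ n) θ₁ ≠ 0) (c₂ : classInner (fun n : M => χ n) θ₂ ≠ 0) :
    ∃ g : X, (∀ s : P, (s • g) * g⁻¹ ∈ M) ∧ θ₂ = conjChar M θ₁ g := by
  classical
  letI := quotAct M hMs
  letI : Fintype (X ⧸ M) := Fintype.ofFinite _
  obtain ⟨g₀, hg₀⟩ := clifford_conj M hχ h₁ h₂ c₁ c₂
  by_contra hcon
  push Not at hcon
  let S : Set X := {g | conjChar M θ₁ g = θ₂}
  have hSM : ∀ g ∈ S, ∀ m ∈ M, g * m ∈ S := by
    intro g hg m hm
    show conjChar M θ₁ (g * m) = θ₂
    rw [← conjChar_conjChar, show conjChar M θ₁ g = θ₂ from hg]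
    exact (Clifford.mem_inertia M).mp (Clifford.le_inertia M
      (isClassFunction_of_isCharacter (isCharacter_of_isIrrCharacter h₂)) hm)
  have hSP : ∀ (s : P) (g : X), g ∈ S → s • g ∈ S := by
    intro s g hg
    show conjChar M θ₁ (s • g) = θ₂
    funext n
    let n₀ : M := ⟨s⁻¹ • (n : X), hMs s⁻¹ n n.2⟩
    have e1 : θ₂ n = θ₂ n₀ := hP₂ s n₀ n (by simp [n₀])
    have e2 : conjChar M θ₁ g n₀ = θ₂ n₀ := congrFun hg n₀
    rw [e1, ← e2]
    refine hP₁ s ⟨g * n₀ * g⁻¹, hM.conj_mem (n₀ : X) n₀.2 g⟩ _ ?_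
    show (s • g) * (n : X) * (s • g)⁻¹ = s • (g * (s⁻¹ • (n : X)) * g⁻¹)
    rw [smul_mul', smul_mul', smul_inv', smul_inv_smul]
  have hout : ∀ g : X, (QuotientGroup.mk g : X ⧸ M).out ∈ S ↔ g ∈ S := by
    intro g
    obtain ⟨m, hm⟩ := QuotientGroup.mk_out_eq_mul M g
    rw [hm]
    constructor
    · intro h
      have := hSM _ h (m : X)⁻¹ (M.inv_mem m.2)
      simpa using this
    · intro h
      exact hSM g h m m.2
  let t : Set (X ⧸ M) := {q | q.out ∈ S}
  set f : X ⧸ M → ℂ := fun q => if q ∈ t then 1 else 0 with hf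
  have hinv : ∀ (s : P) (q : X ⧸ M), f (s • q) = f q := by
    intro s q
    induction q using QuotientGroup.induction_on with
    | H x =>
      have h1 : (s • (QuotientGroup.mk x : X ⧸ M)) ∈ t ↔ (QuotientGroup.mk x : X ⧸ M) ∈ t := by
        show (QuotientGroup.mk (s • x) : X ⧸ M).out ∈ S ↔ (QuotientGroup.mk x : X ⧸ M).out ∈ S
        rw [hout, hout]
        constructor
        · intro h
          have := hSP s⁻¹ _ h
          simpa using this
        · exact hSP s x
      simp only [hf, h1]
  have hint : ∀ q, IsIntegral ℤ (f q) := fun q => by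
    simp only [hf]
    split_ifs
    · exact isIntegral_one
    · exact isIntegral_zero
  have h := pDiv_sum_sub_sum_fixed hp hP f hinv hint
  have h0 : ∑ a ∈ Finset.univ.filter (fun a : X ⧸ M => ∀ s : P, s • a = a), f a = 0 := by
    apply Finset.sum_eq_zero
    intro q hq
    have hfix : ∀ s : P, s • q = q := (Finset.mem_filter.mp hq).2
    simp only [hf]
    rw [if_neg]
    intro hqt
    induction q using QuotientGroup.induction_on with
    | H x =>
      have hxS : x ∈ S := (hout x).mp hqt
      refine hcon x (fun s => ?_) hxS.symm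
      have h1 : (QuotientGroup.mk (s • x) : X ⧸ M) = QuotientGroup.mk x := hfix s
      have h2 : (s • x)⁻¹ * x ∈ M := QuotientGroup.eq.mp h1
      have h3 := hM.mem_comm h2
      have h4 := M.inv_mem h3
      simpa using h4
  rw [h0, sub_zero] at h
  have hsum : ∑ q : X ⧸ M, f q = (Nat.card t : ℂ) := by
    simp only [hf]
    rw [Finset.sum_boole, Nat.card_eq_fintype_card, Fintype.card_subtype]
  have hpre : QuotientGroup.mk ⁻¹' t = S := by
    ext g
    exact hout g
  have hcardS : Nat.card S = Nat.card M * Nat.card t := by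
    rw [← Nat.card_prod, ← hpre]
    exact Nat.card_congr (QuotientGroup.preimageMkEquivSubgroupProdSet M t)
  have hcardS' : Nat.card S = Nat.card (Clifford.inertia M θ₁) := by
    rw [← card_conjChar_fiber M θ₁ g₀]
    refine Nat.card_congr (Equiv.subtypeEquivRight fun g => ?_)
    show conjChar M θ₁ g = θ₂ ↔ conjChar M θ₁ g = conjChar M θ₁ g₀
    rw [hg₀]
  rw [hsum] at h
  have h3 := PDiv.dvd_int hp.pos (n := (Nat.card t : ℤ)) (by exact_mod_cast h)
  have h4 : p ∣ Nat.card t := Int.natCast_dvd_natCast.mp h3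
  apply hidx
  obtain ⟨k, hk⟩ := Subgroup.card_subgroup_dvd_card (Clifford.inertia M θ₁)
  have h5 : Nat.card M * M.index = Nat.card M * (Nat.card t * k) := by
    rw [Subgroup.card_mul_index, hk, ← hcardS', hcardS]
    ring
  have h6 : M.index = Nat.card t * k := Nat.eq_of_mul_eq_mul_left Nat.card_pos h5
  rw [h6]
  exact Dvd.dvd.mul_right h4 k

end Act

end Cfsg.Agent.H4
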