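import Mathlib
import Cfsg.Prelude.Def_Characters
import Cfsg.Agent.H4.RelA
import Cfsg.Agent.H4.RelB
import Cfsg.Agent.H4.GlaubP
import Cfsg.Agent.H82.Irr

set_option autoImplicit false
set_option linter.unusedSectionVars false
set_option linter.style.haveILetI false

/-!
# The relative Glauberman correspondence for a `p`-group of operators (helper4)

`P` is a `p`-group acting on `X`, `M ⊴ X` is a `P`-stable normal Sylow `p`-subgroup, and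
`i : Y →* X` is an injective equivariant homomorphism whose range is the set of elements fixed by
`P` modulo `M`.  `rel_glauberman`: for every `P`-invariant `χ ∈ Irr(X)` there is a unique
`P`-invariant `ξ ∈ Irr(Y)` with `p ∤ [χ ∘ i, ξ]`; then `[χ ∘ i, ξ] ≡ ±1 (mod p)`, and `χ ↦ ξ` is
a bijection between the `P`-invariant irreducible characters.
-/

open Cfsg
open scoped ComplexConjugate

namespace Cfsg.Agent.H4

open Cfsg.Agent.Clifford

universe u v w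

/-- Pulling back along a surjective homomorphism preserves the inner product. -/
theorem classInner_comp_surj' {A : Type u} {B : Type v} [Group A] [Group B] [Fintype A]
    [Fintype B] (f : A →* B) (hf : Function.Surjective f) (F H : B → ℂ) :
    classInner (fun a => F (f a)) (fun a => H (f a)) = classInner F H := by
  classical
  unfold classInner
  have hfib : ∀ b : B, (Finset.univ.filter (fun a : A => f a = b)).card =
      (Finset.univ.filter (fun a : A => f a = 1)).card := by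
    intro b
    exact MonoidHom.card_fiber_eq_of_mem_range f (hf b) (hf 1)
  set c := (Finset.univ.filter (fun a : A => f a = 1)).card with hc
  have hsum : ∀ φ : B → ℂ, ∑ a : A, φ (f a) = (c : ℂ) * ∑ b : B, φ b := by
    intro φ
    rw [Finset.sum_comp φ f, Finset.mul_sum]
    have himg : (Finset.univ : Finset A).image f = Finset.univ := by
      ext b
      simp only [Finset.mem_image, Finset.mem_univ, true_and, iff_true]
      exact hf b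
    rw [himg]
    refine Finset.sum_congr rfl fun b _ => ?_
    rw [hfib b, nsmul_eq_mul]
  have hcard : (Nat.card A : ℂ) = (c : ℂ) * (Nat.card B : ℂ) := by
    have h1 := hsum (fun _ => 1)
    simp only [Finset.sum_const, Finset.card_univ, nsmul_eq_mul, mul_one] at h1
    rw [Nat.card_eq_fintype_card, Nat.card_eq_fintype_card, h1]
  have hc0 : (c : ℂ) ≠ 0 := by
    intro h0
    rw [h0, zero_mul] at hcard
    have : (Nat.card A : ℂ) ≠ 0 := by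
      have : 0 < Nat.card A := Nat.card_pos
      exact_mod_cast this.ne'
    exact this hcard
  have hB0 : (Nat.card B : ℂ) ≠ 0 := by
    have : 0 < Nat.card B := Nat.card_pos
    exact_mod_cast this.ne'
  rw [hsum (fun b => F b * conj (H b)), hcard]
  field_simp

/-- An irreducible character trivial on the kernel of a surjective homomorphism descends. -/
theorem exists_deflate_of_surj' {A : Type u} {B : Type v} [Group A] [Group B] [Finite A]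
    (f : A →* B) (hf : Function.Surjective f) {χ : A → ℂ} (hχ : IsIrrCharacter A χ)
    (hker : ∀ a : A, f a = 1 → χ a = χ 1) :
    ∃ χ' : B → ℂ, IsIrrCharacter B χ' ∧ ∀ a : A, χ' (f a) = χ a := by
  obtain ⟨χ'', hχ''⟩ := Cfsg.Agent.H82.exists_deflate f.ker ⟨χ, hχ⟩ (fun x hx => hker x hx)
  let e : A ⧸ f.ker ≃* B := QuotientGroup.quotientKerEquivOfSurjective f hf
  refine ⟨fun b => χ''.1 (e.symm b), isIrrCharacter_comp_equiv e.symm χ''.2, ?_⟩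
  intro a
  have h1 : e.symm (f a) = QuotientGroup.mk a := by
    rw [MulEquiv.symm_apply_eq]
    rfl
  show χ''.1 (e.symm (f a)) = χ a
  rw [h1]
  have h2 := congrArg (fun ψ : IrrCharacter A => ψ.1 a) hχ''
  simpa [Cfsg.Agent.H82.inflate_apply] using h2

section Rel

variable {X : Type u} [Group X] [Fintype X] {Y : Type v} [Group Y] [Fintype Y]
  {P : Type w} [Group P] [MulDistribMulAction P X] [MulDistribMulAction P Y]
  (i : Y →* X) (M : Subgroup X) [hM : M.Normal] {p : ℕ}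

/-- The Glauberman correspondence for `P` acting on `T / M`, in terms of the characters of `T`
constant on `M`. -/
theorem glaub_T (hp : p.Prime) (hP : IsPGroup p P) (hidx : ¬ p ∣ M.index)
    (hie : ∀ (s : P) (y : Y), i (s • y) = s • i y) (hMs : Stable P M)
    (hC : ∀ x : X, (∃ y, i y = x) ↔ ∀ s : P, (s • x) * x⁻¹ ∈ M)
    {T : Subgroup X} [Fintype T] (hTs : Stable P T)
    {T' : Subgroup Y} [Fintype T'] (hj : ∀ t' : T', i t' ∈ T) (hT' : ∀ y : Y, i y ∈ T → y ∈ T') :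
    (∀ β : T → ℂ, IsIrrCharacter T β → (∀ t : T, (t : X) ∈ M → β t = β 1) → SubInv P T β →
      ∃ γ : T' → ℂ, IsIrrCharacter T' γ ∧ (∀ t : T', (t : Y) ∈ M.comap i → γ t = γ 1) ∧
        ∃ m : ℕ, classInner (fun t' : T' => β ⟨i t', hj t'⟩) γ = m ∧ ¬ p ∣ m) ∧
    (∀ β : T → ℂ, IsIrrCharacter T β → (∀ t : T, (t : X) ∈ M → β t = β 1) → SubInv P T β →
      ∀ γ₁ γ₂ : T' → ℂ, IsIrrCharacter T' γ₁ → (∀ t : T', (t : Y) ∈ M.comap i → γ₁ t = γ₁ 1) →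
      IsIrrCharacter T' γ₂ → (∀ t : T', (t : Y) ∈ M.comap i → γ₂ t = γ₂ 1) →
      ∀ m₁ m₂ : ℕ, classInner (fun t' : T' => β ⟨i t', hj t'⟩) γ₁ = m₁ → ¬ p ∣ m₁ →
        classInner (fun t' : T' => β ⟨i t', hj t'⟩) γ₂ = m₂ → ¬ p ∣ m₂ → γ₁ = γ₂) ∧
    (∀ β : T → ℂ, IsIrrCharacter T β → (∀ t : T, (t : X) ∈ M → β t = β 1) → SubInv P T β →
      ∀ γ : T' → ℂ, IsIrrCharacter T' γ → (∀ t : T', (t : Y) ∈ M.comap i → γ t = γ 1) →
      ∀ m : ℕ, classInner (fun t' : T' => β ⟨i t', hj t'⟩) γ = m → ¬ p ∣ m →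
        ((m : ℤ) ≡ 1 [ZMOD p] ∨ (m : ℤ) ≡ -1 [ZMOD p])) ∧
    (∀ β₁ β₂ : T → ℂ, IsIrrCharacter T β₁ → (∀ t : T, (t : X) ∈ M → β₁ t = β₁ 1) →
      SubInv P T β₁ → IsIrrCharacter T β₂ → (∀ t : T, (t : X) ∈ M → β₂ t = β₂ 1) →
      SubInv P T β₂ →
      ∀ γ : T' → ℂ, IsIrrCharacter T' γ → (∀ t : T', (t : Y) ∈ M.comap i → γ t = γ 1) →
      ∀ m₁ m₂ : ℕ, classInner (fun t' : T' => β₁ ⟨i t', hj t'⟩) γ = m₁ → ¬ p ∣ m₁ →
        classInner (fun t' : T' => β₂ ⟨i t', hj t'⟩) γ = m₂ → ¬ p ∣ m₂ → β₁ = β₂) ∧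
    (∀ γ : T' → ℂ, IsIrrCharacter T' γ → (∀ t : T', (t : Y) ∈ M.comap i → γ t = γ 1) →
      ∃ β : T → ℂ, IsIrrCharacter T β ∧ (∀ t : T, (t : X) ∈ M → β t = β 1) ∧ SubInv P T β ∧
        ∃ m : ℕ, classInner (fun t' : T' => β ⟨i t', hj t'⟩) γ = m ∧ ¬ p ∣ m) ∧
    (∀ γ : T' → ℂ, IsIrrCharacter T' γ → (∀ t : T', (t : Y) ∈ M.comap i → γ t = γ 1) →
      SubInv P T' γ) := by
  classical
  letI := quotAct M hMs
  let Tq : Subgroup (X ⧸ M) := T.map (QuotientGroup.mk' M)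
  have hTqs : Stable P Tq := by
    rintro s q ⟨t, ht, rfl⟩
    exact ⟨s • t, hTs s t ht, rfl⟩
  letI := subAct Tq hTqs
  letI : Fintype Tq := Fintype.ofFinite _
  let Cq : Subgroup Tq := FixedPoints.subgroup P Tq
  letI : Fintype Cq := Fintype.ofFinite _
  let ι : Cq →* Tq := Cq.subtype
  have hι : Function.Injective ι := Subtype.val_injective
  have hfix : ∀ g : Tq, (∃ c, ι c = g) ↔ ∀ s : P, s • g = g := by
    intro g
    constructor
    · rintro ⟨c, rfl⟩ s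
      exact c.2 s
    · intro h
      exact ⟨⟨g, h⟩, rfl⟩
  have hcase : ¬ p ∣ Nat.card Tq := by
    intro h
    apply hidx
    rw [Subgroup.index_eq_card]
    exact h.trans (Subgroup.card_subgroup_dvd_card Tq)
  obtain ⟨G1, G2, G3, G4⟩ := glauberman_pgroup hp hP ι hι hfix (Or.inl hcase)
  let π : T →* Tq := (QuotientGroup.mk' M).subgroupMap T
  have hπ : Function.Surjective π := (QuotientGroup.mk' M).subgroupMap_surjective T
  have hπ_one : ∀ t : T, π t = 1 ↔ (t : X) ∈ M := by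
    intro t
    rw [Subtype.ext_iff]
    show (QuotientGroup.mk (t : X) : X ⧸ M) = 1 ↔ (t : X) ∈ M
    exact QuotientGroup.eq_one_iff _
  have hπ_smul : ∀ (s : P) (t : T), π ⟨s • (t : X), hTs s t t.2⟩ = s • π t := fun s t => rfl
  let j : T' →* T := (i.comp T'.subtype).codRestrict T hj
  have hfixed : ∀ t' : T', π (j t') ∈ Cq := by
    intro t' s
    apply Subtype.ext
    show (QuotientGroup.mk (s • i (t' : Y)) : X ⧸ M) = QuotientGroup.mk (i (t' : Y))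
    rw [QuotientGroup.eq]
    have h1 : (s • i (t' : Y)) * (i (t' : Y))⁻¹ ∈ M := (hC (i t')).mp ⟨t', rfl⟩ s
    have h1' : i (t' : Y) * (s • i (t' : Y))⁻¹ ∈ M := by simpa using M.inv_mem h1
    exact hM.mem_comm h1'
  let π' : T' →* Cq := (π.comp j).codRestrict Cq hfixed
  have hπ'_coe : ∀ t' : T', ι (π' t') = π (j t') := fun t' => rfl
  have hπ' : Function.Surjective π' := by
    rintro ⟨g, hg⟩
    obtain ⟨t, rfl⟩ := hπ g
    have hmem : ∀ s : P, (s • (t : X)) * (t : X)⁻¹ ∈ M := by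
      intro s
      have h1 := congrArg Subtype.val (hg s)
      have h2 : (QuotientGroup.mk (s • (t : X)) : X ⧸ M) = QuotientGroup.mk (t : X) := h1
      have h3 : (s • (t : X))⁻¹ * (t : X) ∈ M := QuotientGroup.eq.mp h2
      have h4 := M.inv_mem (hM.mem_comm h3)
      simpa using h4
    obtain ⟨y, hy⟩ := (hC (t : X)).mpr hmem
    have hyT' : y ∈ T' := hT' y (by rw [hy]; exact t.2)
    refine ⟨⟨y, hyT'⟩, ?_⟩
    apply Subtype.ext
    show π (j ⟨y, hyT'⟩) = π t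
    congr 1
    exact Subtype.ext hy
  have hπ'_one : ∀ t' : T', π' t' = 1 ↔ (t' : Y) ∈ M.comap i := by
    intro t'
    have h0 : ((t' : Y) ∈ M.comap i) ↔ π (j t') = 1 := (hπ_one (j t')).symm
    rw [h0]
    constructor
    · intro h
      have h1 := congrArg ι h
      rw [hπ'_coe, map_one] at h1
      exact h1
    · intro h
      apply hι
      rw [hπ'_coe, h, map_one]
  have defl : ∀ β : T → ℂ, IsIrrCharacter T β → (∀ t : T, (t : X) ∈ M → β t = β 1) →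
      ∃ βq : IrrCharacter Tq, ∀ t : T, βq.1 (π t) = β t := by
    intro β hβ hβM
    obtain ⟨χ', h1, h2⟩ := exists_deflate_of_surj' π hπ hβ
      (fun t ht => hβM t ((hπ_one t).mp ht))
    exact ⟨⟨χ', h1⟩, h2⟩
  have defl' : ∀ γ : T' → ℂ, IsIrrCharacter T' γ →
      (∀ t : T', (t : Y) ∈ M.comap i → γ t = γ 1) →
      ∃ γq : IrrCharacter Cq, ∀ t : T', γq.1 (π' t) = γ t := by
    intro γ hγ hγM
    obtain ⟨χ', h1, h2⟩ := exists_deflate_of_surj' π' hπ' hγ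
      (fun t ht => hγM t ((hπ'_one t).mp ht))
    exact ⟨⟨χ', h1⟩, h2⟩
  have inv_q : ∀ (β : T → ℂ) (βq : IrrCharacter Tq), (∀ t, βq.1 (π t) = β t) → SubInv P T β →
      ∀ (s : P) (g : Tq), βq.1 (s • g) = βq.1 g := by
    intro β βq h hβP s g
    obtain ⟨t, rfl⟩ := hπ g
    rw [← hπ_smul s t, h, h]
    exact hβP s t _ rfl
  have inner_q : ∀ (β : T → ℂ) (βq : IrrCharacter Tq) (γ : T' → ℂ) (γq : IrrCharacter Cq),
      (∀ t, βq.1 (π t) = β t) → (∀ t, γq.1 (π' t) = γ t) →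
      classInner (fun t' : T' => β ⟨i t', hj t'⟩) γ =
        classInner (fun c : Cq => βq.1 (ι c)) γq.1 := by
    intro β βq γ γq h h'
    rw [← classInner_comp_surj' π' hπ' (fun c : Cq => βq.1 (ι c)) γq.1]
    congr 1
    · funext t'
      show β ⟨i t', hj t'⟩ = βq.1 (ι (π' t'))
      rw [hπ'_coe, h]
      rfl
    · funext t'
      exact (h' t').symm
  have infl' : ∀ γq : IrrCharacter Cq, IsIrrCharacter T' (fun t' => γq.1 (π' t')) ∧
      (∀ t : T', (t : Y) ∈ M.comap i → (fun t' => γq.1 (π' t')) t = (fun t' => γq.1 (π' t')) 1) :=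
    fun γq => ⟨isIrrCharacter_comp_surjective π' hπ' γq.2, fun t ht => by
      show γq.1 (π' t) = γq.1 (π' 1)
      rw [(hπ'_one t).mpr ht, map_one]⟩
  refine ⟨?_, ?_, ?_, ?_, ?_, ?_⟩
  · intro β hβ hβM hβP
    obtain ⟨βq, hβq⟩ := defl β hβ hβM
    obtain ⟨γq, ⟨m, hm, hpm⟩, -⟩ := G1 βq (inv_q β βq hβq hβP)
    refine ⟨fun t' => γq.1 (π' t'), (infl' γq).1, (infl' γq).2, m, ?_, hpm⟩
    rw [inner_q β βq _ γq hβq (fun t => rfl)]
    exact hm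
  · intro β hβ hβM hβP γ₁ γ₂ hγ₁ hγ₁M hγ₂ hγ₂M m₁ m₂ hm₁ hpm₁ hm₂ hpm₂
    obtain ⟨βq, hβq⟩ := defl β hβ hβM
    obtain ⟨γq₁, hγq₁⟩ := defl' γ₁ hγ₁ hγ₁M
    obtain ⟨γq₂, hγq₂⟩ := defl' γ₂ hγ₂ hγ₂M
    rw [inner_q β βq γ₁ γq₁ hβq hγq₁] at hm₁
    rw [inner_q β βq γ₂ γq₂ hβq hγq₂] at hm₂
    have h := (G1 βq (inv_q β βq hβq hβP)).unique ⟨m₁, hm₁, hpm₁⟩ ⟨m₂, hm₂, hpm₂⟩
    funext t'
    rw [← hγq₁ t', ← hγq₂ t', h]
  · intro β hβ hβM hβP γ hγ hγM m hm hpm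
    obtain ⟨βq, hβq⟩ := defl β hβ hβM
    obtain ⟨γq, hγq⟩ := defl' γ hγ hγM
    rw [inner_q β βq γ γq hβq hγq] at hm
    exact G2 βq (inv_q β βq hβq hβP) γq m hm hpm
  · intro β₁ β₂ hβ₁ hβ₁M hβ₁P hβ₂ hβ₂M hβ₂P γ hγ hγM m₁ m₂ hm₁ hpm₁ hm₂ hpm₂
    obtain ⟨βq₁, hβq₁⟩ := defl β₁ hβ₁ hβ₁M
    obtain ⟨βq₂, hβq₂⟩ := defl β₂ hβ₂ hβ₂M
    obtain ⟨γq, hγq⟩ := defl' γ hγ hγM
    rw [inner_q β₁ βq₁ γ γq hβq₁ hγq] at hm₁
    rw [inner_q β₂ βq₂ γ γq hβq₂ hγq] at hm₂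
    have h := G3 βq₁ βq₂ (inv_q β₁ βq₁ hβq₁ hβ₁P) (inv_q β₂ βq₂ hβq₂ hβ₂P) γq m₁ m₂ hm₁ hpm₁
      hm₂ hpm₂
    funext t
    rw [← hβq₁ t, ← hβq₂ t, h]
  · intro γ hγ hγM
    obtain ⟨γq, hγq⟩ := defl' γ hγ hγM
    obtain ⟨βq, hβqP, m, hm, hpm⟩ := G4 γq
    refine ⟨fun t => βq.1 (π t), isIrrCharacter_comp_surjective π hπ βq.2, ?_, ?_, m, ?_, hpm⟩
    · intro t ht
      show βq.1 (π t) = βq.1 (π 1)
      rw [(hπ_one t).mpr ht, map_one]
    · rw [subInv_iff hTs]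
      intro s t
      show βq.1 (π ⟨s • (t : X), hTs s t t.2⟩) = βq.1 (π t)
      rw [hπ_smul, hβqP]
    · rw [inner_q (fun t => βq.1 (π t)) βq γ γq (fun t => rfl) hγq]
      exact hm
  · intro γ hγ hγM
    obtain ⟨γq, hγq⟩ := defl' γ hγ hγM
    intro s t t' htt'
    have h1 : π' t' = π' t := by
      apply hι
      rw [hπ'_coe, hπ'_coe]
      have h2 : π (j t') = s • π (j t) := by
        apply Subtype.ext
        show (QuotientGroup.mk (i (t' : Y)) : X ⧸ M) = QuotientGroup.mk (s • i (t : Y))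
        rw [htt', hie]
      rw [h2]
      exact hfixed t s
    rw [← hγq t', ← hγq t, h1]

variable [Fintype M] [Fintype (M.comap i)]

/-- The correspondence over a fixed `P`-invariant `θ ∈ Irr(M)`. -/
theorem rel_local (hp : p.Prime) (hP : IsPGroup p P) (hMp : IsPGroup p M)
    (hidx : ¬ p ∣ M.index) (hi : Function.Injective i)
    (hie : ∀ (s : P) (y : Y), i (s • y) = s • i y) (hMs : Stable P M)
    (hMi : ∀ m ∈ M, ∃ y, i y = m)
    (hC : ∀ x : X, (∃ y, i y = x) ↔ ∀ s : P, (s • x) * x⁻¹ ∈ M)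
    {θ : M → ℂ} (hθ : IsIrrCharacter M θ) (hθP : SubInv P M θ) :
    (∀ χ : X → ℂ, IsIrrCharacter X χ → (∀ (s : P) (x : X), χ (s • x) = χ x) →
      classInner (fun n : M => χ n) θ ≠ 0 →
      ∃ ξ : Y → ℂ, IsIrrCharacter Y ξ ∧ (∀ (s : P) (y : Y), ξ (s • y) = ξ y) ∧
        classInner (fun n : M.comap i => ξ n) (pullM i M θ) ≠ 0 ∧
        ∃ m : ℕ, classInner (fun y => χ (i y)) ξ = m ∧ ¬ p ∣ m ∧
          ((m : ℤ) ≡ 1 [ZMOD p] ∨ (m : ℤ) ≡ -1 [ZMOD p]) ∧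
          ∀ ξ₂ : Y → ℂ, IsIrrCharacter Y ξ₂ →
            classInner (fun n : M.comap i => ξ₂ n) (pullM i M θ) ≠ 0 →
            ∀ m₂ : ℕ, classInner (fun y => χ (i y)) ξ₂ = m₂ → ¬ p ∣ m₂ → ξ₂ = ξ) ∧
    (∀ χ₁ χ₂ : X → ℂ, IsIrrCharacter X χ₁ → IsIrrCharacter X χ₂ →
      (∀ (s : P) (x : X), χ₁ (s • x) = χ₁ x) → (∀ (s : P) (x : X), χ₂ (s • x) = χ₂ x) →
      classInner (fun n : M => χ₁ n) θ ≠ 0 → classInner (fun n : M => χ₂ n) θ ≠ 0 →
      ∀ ξ : Y → ℂ, IsIrrCharacter Y ξ →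
        classInner (fun n : M.comap i => ξ n) (pullM i M θ) ≠ 0 →
      ∀ m₁ m₂ : ℕ, classInner (fun y => χ₁ (i y)) ξ = m₁ → ¬ p ∣ m₁ →
        classInner (fun y => χ₂ (i y)) ξ = m₂ → ¬ p ∣ m₂ → χ₁ = χ₂) ∧
    (∀ ξ : Y → ℂ, IsIrrCharacter Y ξ →
      classInner (fun n : M.comap i => ξ n) (pullM i M θ) ≠ 0 →
      ∃ χ : X → ℂ, IsIrrCharacter X χ ∧ (∀ (s : P) (x : X), χ (s • x) = χ x) ∧
        classInner (fun n : M => χ n) θ ≠ 0 ∧
        ∃ m : ℕ, classInner (fun y => χ (i y)) ξ = m ∧ ¬ p ∣ m) := by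
  classical
  have hθcf : IsClassFunction M θ :=
    isClassFunction_of_isCharacter (isCharacter_of_isIrrCharacter hθ)
  obtain ⟨T, hT_def⟩ : ∃ T : Subgroup X, T = Clifford.inertia M θ := ⟨_, rfl⟩
  letI : Fintype T := Fintype.ofFinite _
  have hMT : M ≤ T := hT_def ▸ Clifford.le_inertia M hθcf
  have hTs : Stable P T := hT_def ▸ inertia_stable M hMs hθP
  obtain ⟨θh, hθh, hext, hθhP⟩ :=
    exists_inv_ext M hp hMp hidx hMs hθ hθP hMT hT_def.le hTs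
  have hθhc := isCharacter_of_isIrrCharacter hθh
  have hθ' : IsIrrCharacter (M.comap i) (pullM i M θ) := isIrr_pullM i M hi hMi hθ
  obtain ⟨T', hT'_def⟩ :
      ∃ T' : Subgroup Y, T' = Clifford.inertia (M.comap i) (pullM i M θ) := ⟨_, rfl⟩
  letI : Fintype T' := Fintype.ofFinite _
  have hMT' : M.comap i ≤ T' := hT'_def ▸ Clifford.le_inertia (M.comap i)
    (isClassFunction_of_isCharacter (isCharacter_of_isIrrCharacter hθ'))
  have hj : ∀ t' : T', i t' ∈ T := fun t' => by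
    rw [hT_def]
    exact (mem_inertia_pull i M hMi θ t').mp (hT'_def ▸ t'.2)
  have hT'mem : ∀ y : Y, i y ∈ T → y ∈ T' := fun y hy => by
    rw [hT'_def]
    exact (mem_inertia_pull i M hMi θ y).mpr (hT_def ▸ hy)
  let j : T' →* T := (i.comp T'.subtype).codRestrict T hj
  obtain ⟨θh', hθh'_def⟩ : ∃ θh' : T' → ℂ, θh' = fun t' : T' => θh ⟨i t', hj t'⟩ := ⟨_, rfl⟩
  have hθh'c : IsCharacter T' θh' := by
    rw [hθh'_def]
    exact isCharacter_comp j hθhc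
  have hext' : ∀ n : M.comap i, θh' ⟨n, hMT' n.2⟩ = pullM i M θ n := by
    intro n
    rw [hθh'_def]
    exact hext ⟨i n, n.2⟩
  have hθh'P : SubInv P T' θh' := by
    intro s h h' hh
    rw [hθh'_def]
    refine hθhP s ⟨i h, hj h⟩ ⟨i h', hj h'⟩ ?_
    show i (h' : Y) = s • i (h : Y)
    rw [hh, hie]
  have hT's : Stable P T' := by
    intro s y hy
    apply hT'mem
    rw [hie]
    exact hTs s _ (hj ⟨y, hy⟩)
  obtain ⟨GT1, GT2, GT3, GT4, GT5, GT6⟩ := glaub_T i M hp hP hidx hie hMs hC hTs hj hT'mem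
  have hmult : ∀ (β : T → ℂ) (γ : T' → ℂ), IsIrrCharacter T β →
      (∀ t : T, (t : X) ∈ M → β t = β 1) → IsIrrCharacter T' γ →
      (∀ t : T', (t : Y) ∈ M.comap i → γ t = γ 1) →
      classInner (fun y => indFun T (β * θh) (i y)) (indFun T' (γ * θh')) =
        classInner (fun t' : T' => β ⟨i t', hj t'⟩) γ := by
    intro β γ hβ hβM hγ hγM
    obtain ⟨b1, b2, -, -⟩ := cg_irr M hθ hMT hT_def hθhc hext hβ hβM
    obtain ⟨c1, c2, -, -⟩ := cg_irr (M.comap i) hθ' hMT' hT'_def hθh'c hext' hγ hγM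
    rw [mult_formula i M hi hMi hθ hMT hT_def hMT' hj b1 b2 c1 c2]
    have hfun : (fun t' : T' => (β * θh) ⟨i t', hj t'⟩) =
        (fun t' : T' => β ⟨i t', hj t'⟩) * θh' := by
      rw [hθh'_def]
      rfl
    rw [hfun]
    refine gal_mult (M.comap i) hθ' hMT' hT'_def.le hθh'c hext'
      (isCharacter_comp j (isCharacter_of_isIrrCharacter hβ)) ?_ hγ hγM
    intro t g ht
    have hker : (⟨i t, hj t⟩ : T) ∈ Cfsg.Agent.H82.irrKer ⟨β, hβ⟩ :=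
      (Cfsg.Agent.H82.mem_irrKer _ _).mpr (hβM _ ht)
    have h1 : β (⟨i t, hj t⟩ * ⟨i g, hj g⟩) = β ⟨i g, hj g⟩ :=
      (Cfsg.Agent.H82.irr_mul_of_mem_irrKer ⟨β, hβ⟩ hker ⟨i g, hj g⟩).1
    show β ⟨i ((t * g : T') : Y), _⟩ = β ⟨i g, _⟩
    rw [← h1]
    exact congrArg β (Subtype.ext (by simp))
  refine ⟨?_, ?_, ?_⟩
  · intro χ hχ hχP hχθ
    obtain ⟨β, hβ, hβM, hβχ⟩ := cg_surj M hθ hMT hT_def hθhc hext hχ hχθ
    have hβP : SubInv P T β := cg_inv M hMs hθ hMT hT_def hTs hθhc hext hθhP hβ hβM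
      (by rw [hβχ]; exact hχP)
    obtain ⟨γ, hγ, hγM, m, hm, hpm⟩ := GT1 β hβ hβM hβP
    obtain ⟨-, -, c3, c4⟩ := cg_irr (M.comap i) hθ' hMT' hT'_def hθh'c hext' hγ hγM
    refine ⟨indFun T' (γ * θh'), c3, ?_, c4, m, ?_, hpm,
      GT3 β hβ hβM hβP γ hγ hγM m hm hpm, ?_⟩
    · exact cg_inv' hT's hθh'P (GT6 γ hγ hγM)
    · rw [← hβχ, hmult β γ hβ hβM hγ hγM]
      exact hm
    · intro ξ₂ hξ₂ hξ₂θ m₂ hm₂ hpm₂
      obtain ⟨γ₂, hγ₂, hγ₂M, hγ₂ξ⟩ :=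
        cg_surj (M.comap i) hθ' hMT' hT'_def hθh'c hext' hξ₂ hξ₂θ
      have h1 : classInner (fun t' : T' => β ⟨i t', hj t'⟩) γ₂ = m₂ := by
        rw [← hmult β γ₂ hβ hβM hγ₂ hγ₂M, hγ₂ξ, hβχ]
        exact hm₂
      have h2 := GT2 β hβ hβM hβP γ₂ γ hγ₂ hγ₂M hγ hγM m₂ m h1 hpm₂ hm hpm
      rw [← hγ₂ξ, h2]
  · intro χ₁ χ₂ hχ₁ hχ₂ hP₁ hP₂ hθ₁ hθ₂ ξ hξ hξθ m₁ m₂ hm₁ hpm₁ hm₂ hpm₂
    obtain ⟨β₁, hβ₁, hβ₁M, hβ₁χ⟩ := cg_surj M hθ hMT hT_def hθhc hext hχ₁ hθ₁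
    obtain ⟨β₂, hβ₂, hβ₂M, hβ₂χ⟩ := cg_surj M hθ hMT hT_def hθhc hext hχ₂ hθ₂
    have hβ₁P : SubInv P T β₁ := cg_inv M hMs hθ hMT hT_def hTs hθhc hext hθhP hβ₁ hβ₁M
      (by rw [hβ₁χ]; exact hP₁)
    have hβ₂P : SubInv P T β₂ := cg_inv M hMs hθ hMT hT_def hTs hθhc hext hθhP hβ₂ hβ₂M
      (by rw [hβ₂χ]; exact hP₂)
    obtain ⟨γ, hγ, hγM, hγξ⟩ := cg_surj (M.comap i) hθ' hMT' hT'_def hθh'c hext' hξ hξθ
    have h1 : classInner (fun t' : T' => β₁ ⟨i t', hj t'⟩) γ = m₁ := by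
      rw [← hmult β₁ γ hβ₁ hβ₁M hγ hγM, hγξ, hβ₁χ]
      exact hm₁
    have h2 : classInner (fun t' : T' => β₂ ⟨i t', hj t'⟩) γ = m₂ := by
      rw [← hmult β₂ γ hβ₂ hβ₂M hγ hγM, hγξ, hβ₂χ]
      exact hm₂
    have h3 := GT4 β₁ β₂ hβ₁ hβ₁M hβ₁P hβ₂ hβ₂M hβ₂P γ hγ hγM m₁ m₂ h1 hpm₁ h2 hpm₂
    rw [← hβ₁χ, ← hβ₂χ, h3]
  · intro ξ hξ hξθ
    obtain ⟨γ, hγ, hγM, hγξ⟩ := cg_surj (M.comap i) hθ' hMT' hT'_def hθh'c hext' hξ hξθ
    obtain ⟨β, hβ, hβM, hβP, m, hm, hpm⟩ := GT5 γ hγ hγM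
    obtain ⟨-, -, b3, b4⟩ := cg_irr M hθ hMT hT_def hθhc hext hβ hβM
    refine ⟨indFun T (β * θh), b3, cg_inv' hTs hθhP hβP, b4, m, ?_, hpm⟩
    rw [← hγξ, hmult β γ hβ hβM hγ hγM]
    exact hm

end Rel

end Cfsg.Agent.H4
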