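import Mathlib
import Cfsg.Prelude.Def_Characters
import Cfsg.Agent.H4.RelC

set_option autoImplicit false
set_option linter.unusedSectionVars false
set_option linter.style.haveILetI false

/-!
# The relative Glauberman correspondence: global form (helper4)
-/

open Cfsg
open scoped ComplexConjugate

namespace Cfsg.Agent.H4

open Cfsg.Agent.Clifford

universe u v w

section Global

variable {X : Type u} [Group X] [Fintype X] {Y : Type v} [Group Y] [Fintype Y]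
  {P : Type w} [Group P] [MulDistribMulAction P X] [MulDistribMulAction P Y]
  (i : Y →* X) (M : Subgroup X) [hM : M.Normal] {p : ℕ} [Fintype M] [Fintype (M.comap i)]

theorem stable_comap (hie : ∀ (s : P) (y : Y), i (s • y) = s • i y) (hMs : Stable P M) :
    Stable P (M.comap i) := by
  intro s y hy
  show i (s • y) ∈ M
  rw [hie]
  exact hMs s _ hy

theorem index_comap_not_dvd (hidx : ¬ p ∣ M.index) : ¬ p ∣ (M.comap i).index := by
  intro h
  apply hidx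
  rw [Subgroup.index_comap] at h
  exact h.trans (Subgroup.relIndex_dvd_index_of_normal M i.range)

/-- If `ξ` is a constituent of `χ ∘ i` lying over the pull-back of `θ`, then `χ` lies over `θ`. -/
theorem over_of_over (hi : Function.Injective i) (hMi : ∀ m ∈ M, ∃ y, i y = m) {χ : X → ℂ}
    (hχ : IsCharacter X χ) {ξ : Y → ℂ} (hξ : IsIrrCharacter Y ξ)
    (h1 : classInner (fun y => χ (i y)) ξ ≠ 0) {θ : M → ℂ} (hθ : IsIrrCharacter M θ)
    (h2 : classInner (fun n : M.comap i => ξ n) (pullM i M θ) ≠ 0) :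
    classInner (fun n : M => χ n) θ ≠ 0 := by
  classical
  letI := fintypeIrr Y
  let e := comapEquiv i M hi hMi
  rw [← classInner_comp_equiv e (fun n : M => χ n) θ]
  obtain ⟨a, c, ha, hc, hac⟩ := classInner_comp_expand_nat (A := fun y : Y => χ (i y))
    (isCharacter_comp i hχ) (M.comap i).subtype
    (isCharacter_of_isIrrCharacter (isIrr_pullM i M hi hMi hθ))
  have hfun : (fun a : M.comap i => (fun n : M => χ n) (e a)) =
      fun n => (fun y : Y => χ (i y)) ((M.comap i).subtype n) := rfl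
  show classInner (fun a : M.comap i => (fun n : M => χ n) (e a)) (pullM i M θ) ≠ 0
  rw [hfun, hac, finsum_irr_eq_sum]
  have ha0 : a ⟨ξ, hξ⟩ ≠ 0 := by
    intro h0
    apply h1
    rw [ha ⟨ξ, hξ⟩, h0]
    simp
  have hc0 : c ⟨ξ, hξ⟩ ≠ 0 := by
    intro h0
    apply h2
    have h3 : classInner (fun n : M.comap i => ξ n) (pullM i M θ) = ((c ⟨ξ, hξ⟩ : ℕ) : ℂ) :=
      hc ⟨ξ, hξ⟩
    rw [h3, h0]
    simp
  have hpos : 0 < ∑ η : IrrCharacter Y, a η * c η :=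
    lt_of_lt_of_le (Nat.mul_pos (Nat.pos_of_ne_zero ha0) (Nat.pos_of_ne_zero hc0))
      (Finset.single_le_sum (f := fun η => a η * c η) (fun _ _ => Nat.zero_le _)
        (Finset.mem_univ _))
  exact_mod_cast hpos.ne'

theorem pullM_push (hi : Function.Injective i) (hMi : ∀ m ∈ M, ∃ y, i y = m)
    (θ' : M.comap i → ℂ) :
    pullM i M (fun n => θ' ((comapEquiv i M hi hMi).symm n)) = θ' := by
  funext n
  show θ' ((comapEquiv i M hi hMi).symm ⟨i n, n.2⟩) = θ' n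
  congr 1
  exact (comapEquiv i M hi hMi).symm_apply_apply n

theorem isIrr_push (hi : Function.Injective i) (hMi : ∀ m ∈ M, ∃ y, i y = m)
    {θ' : M.comap i → ℂ} (hθ' : IsIrrCharacter (M.comap i) θ') :
    IsIrrCharacter M (fun n => θ' ((comapEquiv i M hi hMi).symm n)) :=
  isIrrCharacter_comp_equiv (comapEquiv i M hi hMi).symm hθ'

theorem subInv_push (hi : Function.Injective i) (hMi : ∀ m ∈ M, ∃ y, i y = m)
    (hie : ∀ (s : P) (y : Y), i (s • y) = s • i y) {θ' : M.comap i → ℂ}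
    (hθ'P : SubInv P (M.comap i) θ') :
    SubInv P M (fun n => θ' ((comapEquiv i M hi hMi).symm n)) := by
  intro s n n' hn
  show θ' ((comapEquiv i M hi hMi).symm n') = θ' ((comapEquiv i M hi hMi).symm n)
  refine hθ'P s _ _ ?_
  apply hi
  rw [hie]
  have h1 : ∀ m : M, i (((comapEquiv i M hi hMi).symm m : M.comap i) : Y) = (m : X) := by
    intro m
    exact congrArg Subtype.val ((comapEquiv i M hi hMi).apply_symm_apply m)
  rw [h1, h1, hn]

/-- **Relative Glauberman correspondence** for a `p`-group `P` acting on `X` with a `P`-stable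
normal Sylow `p`-subgroup `M`; `i : Y →* X` is injective, equivariant, with range the elements
fixed by `P` modulo `M`. -/
theorem rel_glauberman (hp : p.Prime) (hP : IsPGroup p P) (hMp : IsPGroup p M)
    (hidx : ¬ p ∣ M.index) (hi : Function.Injective i)
    (hie : ∀ (s : P) (y : Y), i (s • y) = s • i y) (hMs : Stable P M)
    (hMi : ∀ m ∈ M, ∃ y, i y = m)
    (hC : ∀ x : X, (∃ y, i y = x) ↔ ∀ s : P, (s • x) * x⁻¹ ∈ M) :
    (∀ χ : IrrCharacter X, (∀ (s : P) (x : X), χ.1 (s • x) = χ.1 x) →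
      ∃ ξ : IrrCharacter Y, (∀ (s : P) (y : Y), ξ.1 (s • y) = ξ.1 y) ∧ ∃ m : ℕ,
        classInner (fun y : Y => χ.1 (i y)) ξ.1 = (m : ℂ) ∧ ¬ p ∣ m ∧
        ((m : ℤ) ≡ 1 [ZMOD p] ∨ (m : ℤ) ≡ -1 [ZMOD p]) ∧
        ∀ ξ₂ : IrrCharacter Y, (∀ (s : P) (y : Y), ξ₂.1 (s • y) = ξ₂.1 y) → ∀ m₂ : ℕ,
          classInner (fun y : Y => χ.1 (i y)) ξ₂.1 = (m₂ : ℂ) → ¬ p ∣ m₂ → ξ₂ = ξ) ∧
    (∀ χ χ' : IrrCharacter X, (∀ (s : P) (x : X), χ.1 (s • x) = χ.1 x) →
      (∀ (s : P) (x : X), χ'.1 (s • x) = χ'.1 x) →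
      ∀ ξ : IrrCharacter Y, (∀ (s : P) (y : Y), ξ.1 (s • y) = ξ.1 y) → ∀ m m' : ℕ,
        classInner (fun y : Y => χ.1 (i y)) ξ.1 = (m : ℂ) → ¬ p ∣ m →
        classInner (fun y : Y => χ'.1 (i y)) ξ.1 = (m' : ℂ) → ¬ p ∣ m' → χ = χ') ∧
    (∀ ξ : IrrCharacter Y, (∀ (s : P) (y : Y), ξ.1 (s • y) = ξ.1 y) →
      ∃ χ : IrrCharacter X, (∀ (s : P) (x : X), χ.1 (s • x) = χ.1 x) ∧ ∃ m : ℕ,
        classInner (fun y : Y => χ.1 (i y)) ξ.1 = (m : ℂ) ∧ ¬ p ∣ m) := by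
  classical
  have hM's : Stable P (M.comap i) := stable_comap i M hie hMs
  have hidx' : ¬ p ∣ (M.comap i).index := index_comap_not_dvd i M hidx
  have hne : ∀ m : ℕ, ¬ p ∣ m → (m : ℂ) ≠ 0 := by
    intro m hpm h0
    apply hpm
    have : m = 0 := by exact_mod_cast h0
    rw [this]
    exact dvd_zero p
  refine ⟨?_, ?_, ?_⟩
  · intro χ hχP
    obtain ⟨θ, hθ, hθP, hχθ⟩ := exists_inv_constituent M hp hP hidx hMs χ.2 hχP
    obtain ⟨La, -, -⟩ := rel_local i M hp hP hMp hidx hi hie hMs hMi hC hθ hθP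
    obtain ⟨ξ, hξ, hξP, hξθ, m, hm, hpm, hpm1, huniq⟩ := La χ.1 χ.2 hχP hχθ
    refine ⟨⟨ξ, hξ⟩, hξP, m, hm, hpm, hpm1, ?_⟩
    intro ξ₂ hξ₂P m₂ hm₂ hpm₂
    apply Subtype.ext
    refine huniq ξ₂.1 ξ₂.2 ?_ m₂ hm₂ hpm₂
    obtain ⟨θ₂', hθ₂', hθ₂'P, hξ₂θ₂'⟩ :=
      exists_inv_constituent (M.comap i) hp hP hidx' hM's ξ₂.2 hξ₂P
    obtain ⟨θ₂, hθ₂_def⟩ :
        ∃ θ₂ : M → ℂ, θ₂ = fun n => θ₂' ((comapEquiv i M hi hMi).symm n) := ⟨_, rfl⟩
    have hθ₂ : IsIrrCharacter M θ₂ := hθ₂_def ▸ isIrr_push i M hi hMi hθ₂'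
    have hθ₂P : SubInv P M θ₂ := hθ₂_def ▸ subInv_push i M hi hMi hie hθ₂'P
    have hpull : pullM i M θ₂ = θ₂' := hθ₂_def ▸ pullM_push i M hi hMi θ₂'
    have hχθ₂ : classInner (fun n : M => χ.1 n) θ₂ ≠ 0 :=
      over_of_over i M hi hMi (isCharacter_of_isIrrCharacter χ.2) ξ₂.2
        (by rw [hm₂]; exact hne m₂ hpm₂) hθ₂ (by rw [hpull]; exact hξ₂θ₂')
    obtain ⟨g, hg, hgθ⟩ := exists_conj_of_inv M hp hP hidx hMs χ.2 hθ hθ₂ hθP hθ₂P hχθ hχθ₂
    obtain ⟨y, rfl⟩ := (hC g).mpr hg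
    have hconj : θ₂' = conjChar (M.comap i) (pullM i M θ) y := by
      rw [← hpull, hgθ]
      funext n
      show conjChar M θ (i y) ⟨i n, n.2⟩ = pullM i M θ ⟨y * n * y⁻¹, _⟩
      exact congrArg θ (Subtype.ext (by simp))
    have hξ₂cf : IsClassFunction Y ξ₂.1 :=
      isClassFunction_of_isCharacter (isCharacter_of_isIrrCharacter ξ₂.2)
    rw [← classInner_res_conjChar (M.comap i) hξ₂cf (pullM i M θ) y, ← hconj]
    exact hξ₂θ₂'
  · intro χ χ' hχP hχ'P ξ hξP m m' hm hpm hm' hpm'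
    obtain ⟨θ', hθ', hθ'P, hξθ'⟩ :=
      exists_inv_constituent (M.comap i) hp hP hidx' hM's ξ.2 hξP
    obtain ⟨θ, hθ_def⟩ :
        ∃ θ : M → ℂ, θ = fun n => θ' ((comapEquiv i M hi hMi).symm n) := ⟨_, rfl⟩
    have hθ : IsIrrCharacter M θ := hθ_def ▸ isIrr_push i M hi hMi hθ'
    have hθP : SubInv P M θ := hθ_def ▸ subInv_push i M hi hMi hie hθ'P
    have hpull : pullM i M θ = θ' := hθ_def ▸ pullM_push i M hi hMi θ'
    have hξθ : classInner (fun n : M.comap i => ξ.1 n) (pullM i M θ) ≠ 0 := by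
      rw [hpull]
      exact hξθ'
    have h1 := over_of_over i M hi hMi (isCharacter_of_isIrrCharacter χ.2) ξ.2
      (by rw [hm]; exact hne m hpm) hθ hξθ
    have h2 := over_of_over i M hi hMi (isCharacter_of_isIrrCharacter χ'.2) ξ.2
      (by rw [hm']; exact hne m' hpm') hθ hξθ
    obtain ⟨-, Lb, -⟩ := rel_local i M hp hP hMp hidx hi hie hMs hMi hC hθ hθP
    exact Subtype.ext (Lb χ.1 χ'.1 χ.2 χ'.2 hχP hχ'P h1 h2 ξ.1 ξ.2 hξθ m m' hm hpm hm' hpm')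
  · intro ξ hξP
    obtain ⟨θ', hθ', hθ'P, hξθ'⟩ :=
      exists_inv_constituent (M.comap i) hp hP hidx' hM's ξ.2 hξP
    obtain ⟨θ, hθ_def⟩ :
        ∃ θ : M → ℂ, θ = fun n => θ' ((comapEquiv i M hi hMi).symm n) := ⟨_, rfl⟩
    have hθ : IsIrrCharacter M θ := hθ_def ▸ isIrr_push i M hi hMi hθ'
    have hθP : SubInv P M θ := hθ_def ▸ subInv_push i M hi hMi hie hθ'P
    have hpull : pullM i M θ = θ' := hθ_def ▸ pullM_push i M hi hMi θ'
    have hξθ : classInner (fun n : M.comap i => ξ.1 n) (pullM i M θ) ≠ 0 := by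
      rw [hpull]
      exact hξθ'
    obtain ⟨-, -, Lc⟩ := rel_local i M hp hP hMp hidx hi hie hMs hMi hC hθ hθP
    obtain ⟨χ, hχ, hχP, -, m, hm, hpm⟩ := Lc ξ.1 ξ.2 hξθ
    exact ⟨⟨χ, hχ⟩, hχP, m, hm, hpm⟩

/-- Degrees: `χ(1) ≡ m₀ ξ₀(1)` modulo `p` when `ξ₀` is the only `P`-invariant constituent of
`χ ∘ i` with multiplicity prime to `p`. -/
theorem deg_congr (hp : p.Prime) (hP : IsPGroup p P)
    (hie : ∀ (s : P) (y : Y), i (s • y) = s • i y) {χ : X → ℂ} (hχ : IsCharacter X χ)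
    (hχP : ∀ (s : P) (x : X), χ (s • x) = χ x) (ξ₀ : IrrCharacter Y)
    (hξ₀ : ∀ (s : P) (y : Y), ξ₀.1 (s • y) = ξ₀.1 y) (m₀ : ℕ)
    (hm₀ : classInner (fun y => χ (i y)) ξ₀.1 = m₀)
    (hother : ∀ ξ : IrrCharacter Y, (∀ (s : P) (y : Y), ξ.1 (s • y) = ξ.1 y) → ξ ≠ ξ₀ →
      ∀ m : ℕ, classInner (fun y => χ (i y)) ξ.1 = m → p ∣ m) :
    PDiv p (χ 1 - m₀ * ξ₀.1 1) := by
  classical
  letI := fintypeIrr Y
  letI := irrMulAction P Y
  obtain ⟨A, hA⟩ : ∃ A : Y → ℂ, A = fun y => χ (i y) := ⟨_, rfl⟩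
  have hAc : IsCharacter Y A := hA ▸ isCharacter_comp i hχ
  have hAP : ∀ (s : P) (y : Y), A (s • y) = A y := fun s y => by
    rw [hA]
    show χ (i (s • y)) = χ (i y)
    rw [hie, hχP]
  rw [← hA] at hm₀
  have hother' : ∀ ξ : IrrCharacter Y, (∀ (s : P) (y : Y), ξ.1 (s • y) = ξ.1 y) → ξ ≠ ξ₀ →
      ∀ m : ℕ, classInner A ξ.1 = m → p ∣ m := by
    rw [hA]
    exact hother
  obtain ⟨g, hg⟩ : ∃ g : IrrCharacter Y → ℂ, g = fun ξ => classInner A ξ.1 * ξ.1 1 := ⟨_, rfl⟩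
  have hsum : ∑ ξ : IrrCharacter Y, g ξ = χ 1 := by
    have h1 := res_eq_sum i hχ (1 : Y)
    rw [map_one] at h1
    rw [hg, hA]
    exact h1.symm
  have hinv : ∀ (s : P) (ξ : IrrCharacter Y), g (s • ξ) = g ξ := by
    intro s ξ
    have h1 : classInner A (s • ξ).1 = classInner A ξ.1 := by
      let σ : Y ≃* Y := MulDistribMulAction.toMulEquiv Y s⁻¹
      have h2 : (fun y => A (σ y)) = A := by
        funext y
        exact hAP s⁻¹ y
      calc classInner A (s • ξ).1 = classInner (fun y => A (σ y)) (fun y => ξ.1 (σ y)) := by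
            rw [h2]
            rfl
        _ = classInner A ξ.1 := classInner_comp_equiv σ A ξ.1
    have h3 : (s • ξ).1 1 = ξ.1 1 := by rw [irrMulAction_apply, smul_one]
    rw [hg]
    show classInner A (s • ξ).1 * (s • ξ).1 1 = classInner A ξ.1 * ξ.1 1
    rw [h1, h3]
  have hint : ∀ ξ, IsIntegral ℤ (g ξ) := by
    intro ξ
    obtain ⟨n, hn⟩ := classInner_isCharacter_nat hAc (isCharacter_of_isIrrCharacter ξ.2)
    rw [hg]
    show IsIntegral ℤ (classInner A ξ.1 * ξ.1 1)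
    rw [hn]
    exact (isIntegral_natCast n).mul (isIntegral_irr ξ 1)
  have h := pDiv_sum_sub_sum_fixed hp hP g hinv hint
  rw [hsum] at h
  have hfix₀ : ξ₀ ∈ Finset.univ.filter (fun a : IrrCharacter Y => ∀ s : P, s • a = a) := by
    rw [Finset.mem_filter]
    refine ⟨Finset.mem_univ _, fun s => Subtype.ext ?_⟩
    funext y
    rw [irrMulAction_apply]
    exact hξ₀ s⁻¹ y
  have h2 : PDiv p (∑ a ∈ Finset.univ.filter (fun a : IrrCharacter Y => ∀ s : P, s • a = a), g a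
      - g ξ₀) := by
    rw [← Finset.add_sum_erase _ g hfix₀, add_sub_cancel_left]
    apply PDiv.sum
    intro ξ hξ
    have hne : ξ ≠ ξ₀ := (Finset.mem_erase.mp hξ).1
    have hfix : ∀ s : P, s • ξ = ξ := (Finset.mem_filter.mp (Finset.mem_erase.mp hξ).2).2
    have hξP : ∀ (s : P) (y : Y), ξ.1 (s • y) = ξ.1 y := by
      intro s y
      have h3 := congrArg (fun ψ : IrrCharacter Y => ψ.1 y) (hfix s⁻¹)
      simp only [irrMulAction_apply, inv_inv] at h3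
      exact h3
    obtain ⟨n, hn⟩ := classInner_isCharacter_nat hAc (isCharacter_of_isIrrCharacter ξ.2)
    obtain ⟨k, hk⟩ := hother' ξ hξP hne n hn
    rw [hg]
    show PDiv p (classInner A ξ.1 * ξ.1 1)
    rw [hn, hk]
    refine ⟨k * ξ.1 1, (isIntegral_natCast k).mul (isIntegral_irr ξ 1), ?_⟩
    push_cast
    ring
  have h3 := h.add h2
  have h4 : χ 1 - ↑m₀ * ξ₀.1 1 =
      (χ 1 - ∑ a ∈ Finset.univ.filter (fun a : IrrCharacter Y => ∀ s : P, s • a = a), g a) +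
      (∑ a ∈ Finset.univ.filter (fun a : IrrCharacter Y => ∀ s : P, s • a = a), g a - g ξ₀) := by
    have h5 : g ξ₀ = ↑m₀ * ξ₀.1 1 := by
      rw [hg]
      show classInner A ξ₀.1 * ξ₀.1 1 = ↑m₀ * ξ₀.1 1
      rw [hm₀]
    rw [h5]
    ring
  rw [h4]
  exact h3

end Global

end Cfsg.Agent.H4
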