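import Mathlib
import Cfsg.Agent.H98.SLkDefs

/-!
helper4: determinants of `F[X]`-endomorphisms of the module of a matrix lie in `detCent`,
and the determinant of a matrix is the determinant of multiplication by `X`
(piece S2479-CEN for helper98).
-/

set_option autoImplicit false

namespace Cfsg.Agent.H4.SLk

open Polynomial DirectSum
open Cfsg.Agent.H98.GLk Cfsg.Agent.H98.SLk

/-- The `F`-linear equivalence `(Fin n → F) ≃ M` attached to `l`, intertwining `φ` and `X`. -/
theorem aeval_equiv_X {F : Type*} [Field F] {n : ℕ} (φ : (Fin n → F) →ₗ[F] (Fin n → F))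
    {M : Type*} [AddCommGroup M] [Module F[X] M] [Module F M] [IsScalarTower F F[X] M]
    (l : Module.AEval' φ ≃ₗ[F[X]] M) :
    ∃ E : (Fin n → F) ≃ₗ[F] M, ∀ v, E (φ v) = (X : F[X]) • E v := by
  refine ⟨(Module.AEval'.of φ).trans (l.restrictScalars F), ?_⟩
  intro v
  show l (Module.AEval'.of φ (φ v)) = (X : F[X]) • l (Module.AEval'.of φ v)
  rw [← Module.AEval'.X_smul_of, map_smul]

theorem det_eq_det_lsmul_X {F : Type*} [Field F] {n : ℕ} (A : Matrix (Fin n) (Fin n) F)
    {M : Type*} [AddCommGroup M] [Module F[X] M] [Module F M] [IsScalarTower F F[X] M]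
    (l : Module.AEval' (Matrix.toLin' A) ≃ₗ[F[X]] M) :
    A.det = LinearMap.det ((LinearMap.lsmul F[X] M X).restrictScalars F) := by
  obtain ⟨E, hE⟩ := aeval_equiv_X (Matrix.toLin' A) l
  rw [← LinearMap.det_toLin' A, ← LinearMap.det_conj (Matrix.toLin' A) E]
  congr 1
  apply LinearMap.ext
  intro m
  show E (Matrix.toLin' A (E.symm m)) = (X : F[X]) • m
  rw [hE, LinearEquiv.apply_symm_apply]

theorem mem_detCent_of_det {F : Type*} [Field F] {n : ℕ}
    (A : Matrix.GeneralLinearGroup (Fin n) F)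
    {M : Type*} [AddCommGroup M] [Module F[X] M] [Module F M] [IsScalarTower F F[X] M]
    (l : Module.AEval' (Matrix.toLin' (A : Matrix (Fin n) (Fin n) F)) ≃ₗ[F[X]] M)
    (ψ : M →ₗ[F[X]] M) (c : Fˣ) (hψ : LinearMap.det (ψ.restrictScalars F) = (c : F)) :
    c ∈ detCent A := by
  obtain ⟨E, hE⟩ := aeval_equiv_X (Matrix.toLin' (A : Matrix (Fin n) (Fin n) F)) l
  let θ : (Fin n → F) →ₗ[F] (Fin n → F) :=
    (E.symm : M →ₗ[F] (Fin n → F)) ∘ₗ (ψ.restrictScalars F) ∘ₗ (E : (Fin n → F) →ₗ[F] M)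
  have hθdet : LinearMap.det θ = (c : F) := by
    have h1 := LinearMap.det_conj (ψ.restrictScalars F) E.symm
    rw [LinearEquiv.symm_symm] at h1
    rw [← hψ, ← h1]
  have hθ : ∀ v, θ (Matrix.toLin' (A : Matrix (Fin n) (Fin n) F) v) =
      Matrix.toLin' (A : Matrix (Fin n) (Fin n) F) (θ v) := by
    intro v
    show E.symm (ψ (E (Matrix.toLin' (A : Matrix (Fin n) (Fin n) F) v))) =
      Matrix.toLin' (A : Matrix (Fin n) (Fin n) F) (E.symm (ψ (E v)))
    rw [hE, map_smul]
    apply E.injective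
    rw [LinearEquiv.apply_symm_apply, hE, LinearEquiv.apply_symm_apply]
  let Z : Matrix (Fin n) (Fin n) F := LinearMap.toMatrix' θ
  have hZdet : Z.det = (c : F) := by
    show (LinearMap.toMatrix' θ).det = (c : F)
    rw [LinearMap.det_toMatrix', hθdet]
  have hZne : Z.det ≠ 0 := by
    rw [hZdet]
    exact c.ne_zero
  have hZA : Z * (A : Matrix (Fin n) (Fin n) F) = (A : Matrix (Fin n) (Fin n) F) * Z := by
    apply Matrix.toLin'.injective
    rw [Matrix.toLin'_mul, Matrix.toLin'_mul]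
    show Matrix.toLin' (LinearMap.toMatrix' θ) ∘ₗ Matrix.toLin' (A : Matrix (Fin n) (Fin n) F) =
      Matrix.toLin' (A : Matrix (Fin n) (Fin n) F) ∘ₗ Matrix.toLin' (LinearMap.toMatrix' θ)
    rw [Matrix.toLin'_toMatrix']
    apply LinearMap.ext
    intro v
    exact hθ v
  let z : Matrix.GeneralLinearGroup (Fin n) F := Matrix.GeneralLinearGroup.mkOfDetNeZero Z hZne
  have hzval : (z : Matrix (Fin n) (Fin n) F) = Z := rfl
  rw [mem_detCent]
  refine ⟨z, ?_, ?_⟩
  · rw [Subgroup.mem_centralizer_iff]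
    intro y hy
    rw [Set.mem_singleton_iff] at hy
    rw [hy]
    apply Units.ext
    rw [Units.val_mul, Units.val_mul, hzval]
    exact hZA.symm
  · apply Units.ext
    show (z : Matrix (Fin n) (Fin n) F).det = (c : F)
    rw [hzval, hZdet]

end Cfsg.Agent.H4.SLk

section check
open Polynomial DirectSum
open Cfsg.Agent.H98.GLk Cfsg.Agent.H98.SLk

example {F : Type*} [Field F] {n : ℕ}
    (A : Matrix.GeneralLinearGroup (Fin n) F)
    {M : Type*} [AddCommGroup M] [Module F[X] M] [Module F M] [IsScalarTower F F[X] M]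
    (l : Module.AEval' (Matrix.toLin' (A : Matrix (Fin n) (Fin n) F)) ≃ₗ[F[X]] M)
    (ψ : M →ₗ[F[X]] M) (c : Fˣ) (hψ : LinearMap.det (ψ.restrictScalars F) = (c : F)) :
    c ∈ detCent A := Cfsg.Agent.H4.SLk.mem_detCent_of_det A l ψ c hψ
example {F : Type*} [Field F] {n : ℕ} (A : Matrix (Fin n) (Fin n) F)
    {M : Type*} [AddCommGroup M] [Module F[X] M] [Module F M] [IsScalarTower F F[X] M]
    (l : Module.AEval' (Matrix.toLin' A) ≃ₗ[F[X]] M) :
    A.det = LinearMap.det ((LinearMap.lsmul F[X] M X).restrictScalars F) :=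
  Cfsg.Agent.H4.SLk.det_eq_det_lsmul_X A l

end check
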