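import Mathlib

/-!
helper4: determinant of multiplication by `X` on `F[X] ⧸ (f)` and surjectivity of the
"norm" for irreducible `p` over a finite field (pieces S2479-DETX, S2479-NORMB for helper98).
-/

set_option autoImplicit false

namespace Cfsg.Agent.H4.SLk

open Polynomial DirectSum

/-- Multiplication by `r` on `F[X] ⧸ (f)` has determinant the norm of the class of `r`. -/
theorem det_lsmul_eq_norm {F : Type*} [Field F] (f r : F[X]) :
    LinearMap.det ((LinearMap.lsmul F[X] (F[X] ⧸ F[X] ∙ f) r).restrictScalars F) =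
      Algebra.norm F (AdjoinRoot.mk f r) := by
  rw [Algebra.norm_apply]
  rfl

theorem det_lsmul_X {F : Type*} [Field F] (f : F[X]) (hf : f.Monic) :
    LinearMap.det ((LinearMap.lsmul F[X] (F[X] ⧸ F[X] ∙ f) X).restrictScalars F) =
      (-1) ^ f.natDegree * f.coeff 0 := by
  have key : LinearMap.det ((LinearMap.lsmul F[X] (F[X] ⧸ F[X] ∙ f) X).restrictScalars F) =
      Algebra.norm F (AdjoinRoot.root f) := det_lsmul_eq_norm f X
  rw [key]
  have h1 := Algebra.PowerBasis.norm_gen_eq_coeff_zero_minpoly (AdjoinRoot.powerBasis' hf)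
  rw [AdjoinRoot.powerBasis'_gen, AdjoinRoot.powerBasis'_dim,
    AdjoinRoot.minpoly_root hf.ne_zero, hf.leadingCoeff, inv_one, map_one, mul_one] at h1
  exact h1

theorem exists_det_lsmul_eq {F : Type*} [Field F] [Fintype F] (p : F[X]) (hp : p.Monic)
    (hirr : Irreducible p) (c : Fˣ) :
    ∃ r : F[X], LinearMap.det
      ((LinearMap.lsmul F[X] (F[X] ⧸ F[X] ∙ p) r).restrictScalars F) = (c : F) := by
  haveI : Fact (Irreducible p) := ⟨hirr⟩
  haveI : Module.Finite F (AdjoinRoot p) := (AdjoinRoot.powerBasis' hp).finite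
  haveI : Finite (AdjoinRoot p) := Module.finite_of_finite F
  obtain ⟨ζ, hζ⟩ := FiniteField.norm_surjective F (AdjoinRoot p) (c : F)
  obtain ⟨r, rfl⟩ := AdjoinRoot.mk_surjective ζ
  exact ⟨r, by rw [det_lsmul_eq_norm, hζ]⟩

end Cfsg.Agent.H4.SLk

section check
open Polynomial DirectSum

example {F : Type*} [Field F] (f : F[X]) (hf : f.Monic) :
    LinearMap.det ((LinearMap.lsmul F[X] (F[X] ⧸ F[X] ∙ f) X).restrictScalars F) =
      (-1) ^ f.natDegree * f.coeff 0 := Cfsg.Agent.H4.SLk.det_lsmul_X f hf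
example {F : Type*} [Field F] [Fintype F] (p : F[X]) (hp : p.Monic)
    (hirr : Irreducible p) (c : Fˣ) :
    ∃ r : F[X], LinearMap.det
      ((LinearMap.lsmul F[X] (F[X] ⧸ F[X] ∙ p) r).restrictScalars F) = (c : F) :=
  Cfsg.Agent.H4.SLk.exists_det_lsmul_eq p hp hirr c

end check
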