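import Mathlib
import Cfsg.Agent.H98.SLkDefs

/-!
helper4: the number of `SL`-classes is bounded by a weighted count of `GL`-invariants
(piece S2479-FIB for helper98).
-/

set_option autoImplicit false

namespace Cfsg.Agent.H4.SLk

open Polynomial DirectSum
open Cfsg.Agent.H98.GLk Cfsg.Agent.H98.SLk

theorem card_conjClasses_SL_le_sum {F : Type*} [Field F] [Fintype F] {n : ℕ} {T : Type*}
    (Φ : Matrix.GeneralLinearGroup (Fin n) F → T) (S : Finset T) (W : T → ℕ)
    (hS : ∀ x : Matrix.SpecialLinearGroup (Fin n) F, Φ (Matrix.SpecialLinearGroup.toGL x) ∈ S)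
    (hinj : ∀ x y, Φ x = Φ y → IsConj x y)
    (hW : ∀ x : Matrix.SpecialLinearGroup (Fin n) F,
      (detCent (Matrix.SpecialLinearGroup.toGL x)).index ≤
        W (Φ (Matrix.SpecialLinearGroup.toGL x))) :
    Nat.card (ConjClasses (Matrix.SpecialLinearGroup (Fin n) F)) ≤ ∑ t ∈ S, W t := by
  classical
  haveI : Fintype (ConjClasses (Matrix.SpecialLinearGroup (Fin n) F)) := Fintype.ofFinite _
  let ψ : ConjClasses (Matrix.SpecialLinearGroup (Fin n) F) → T :=
    fun c => Φ (Matrix.SpecialLinearGroup.toGL (Quotient.out c))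
  have hψ : ∀ c ∈ (Finset.univ : Finset (ConjClasses (Matrix.SpecialLinearGroup (Fin n) F))),
      ψ c ∈ S := fun c _ => hS _
  rw [Nat.card_eq_fintype_card, ← Finset.card_univ, Finset.card_eq_sum_card_fiberwise hψ]
  apply Finset.sum_le_sum
  intro t _
  by_cases hne : (Finset.univ.filter
      (fun c : ConjClasses (Matrix.SpecialLinearGroup (Fin n) F) => ψ c = t)).Nonempty
  swap
  · rw [Finset.not_nonempty_iff_eq_empty] at hne
    rw [hne, Finset.card_empty]
    exact Nat.zero_le _
  obtain ⟨c₀, hc₀⟩ := hne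
  have hc₀' : ψ c₀ = t := (Finset.mem_filter.1 hc₀).2
  let x₀ : Matrix.GeneralLinearGroup (Fin n) F :=
    Matrix.SpecialLinearGroup.toGL (Quotient.out c₀)
  let D : Subgroup Fˣ := detCent x₀
  have hD : D.index ≤ W t := by
    rw [← hc₀']
    exact hW (Quotient.out c₀)
  refine le_trans ?_ hD
  have hex : ∀ c : ConjClasses (Matrix.SpecialLinearGroup (Fin n) F), ψ c = t →
      ∃ g : Matrix.GeneralLinearGroup (Fin n) F,
        g * x₀ * g⁻¹ = Matrix.SpecialLinearGroup.toGL (Quotient.out c) := by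
    intro c hc
    have h1 : IsConj x₀ (Matrix.SpecialLinearGroup.toGL (Quotient.out c)) := by
      apply hinj
      show ψ c₀ = ψ c
      rw [hc₀', hc]
    exact isConj_iff.1 h1
  let gc : ConjClasses (Matrix.SpecialLinearGroup (Fin n) F) →
      Matrix.GeneralLinearGroup (Fin n) F :=
    fun c => if hc : ψ c = t then Classical.choose (hex c hc) else 1
  have hgc : ∀ c, ψ c = t →
      gc c * x₀ * (gc c)⁻¹ = Matrix.SpecialLinearGroup.toGL (Quotient.out c) := by
    intro c hc
    simp only [gc, dif_pos hc]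
    exact Classical.choose_spec (hex c hc)
  haveI : Fintype (Fˣ ⧸ D) := Fintype.ofFinite _
  have hcard : D.index = (Finset.univ : Finset (Fˣ ⧸ D)).card := by
    rw [Subgroup.index_eq_card, Nat.card_eq_fintype_card, Finset.card_univ]
  rw [hcard]
  apply Finset.card_le_card_of_injOn
    (fun c => (QuotientGroup.mk (Matrix.GeneralLinearGroup.det (gc c)) : Fˣ ⧸ D))
  · intro c _
    exact Finset.mem_coe.2 (Finset.mem_univ _)
  · intro c hc c' hc' heq
    have hct : ψ c = t := (Finset.mem_filter.1 (Finset.mem_coe.1 hc)).2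
    have hct' : ψ c' = t := (Finset.mem_filter.1 (Finset.mem_coe.1 hc')).2
    have h1 : (Matrix.GeneralLinearGroup.det (gc c))⁻¹ *
        Matrix.GeneralLinearGroup.det (gc c') ∈ D := QuotientGroup.eq.1 heq
    obtain ⟨z, hz, hzdet⟩ := mem_detCent.1 h1
    have hzc : x₀ * z = z * x₀ :=
      (Subgroup.mem_centralizer_iff.1 hz) x₀ (Set.mem_singleton _)
    have hzc' : z⁻¹ * x₀ * z = x₀ := by
      rw [mul_assoc, hzc, inv_mul_cancel_left]
    let h : Matrix.GeneralLinearGroup (Fin n) F := gc c' * z⁻¹ * (gc c)⁻¹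
    have hdet : Matrix.GeneralLinearGroup.det h = 1 := by
      simp only [h, map_mul, map_inv, hzdet]
      rw [mul_inv_rev, inv_inv, mul_inv_cancel_left, mul_inv_cancel]
    have hdet' : (h : Matrix (Fin n) (Fin n) F).det = 1 := congrArg Units.val hdet
    let s : Matrix.SpecialLinearGroup (Fin n) F := ⟨(h : Matrix (Fin n) (Fin n) F), hdet'⟩
    have hs : Matrix.SpecialLinearGroup.toGL s = h := Units.ext rfl
    have key : h * Matrix.SpecialLinearGroup.toGL (Quotient.out c) * h⁻¹ =
        Matrix.SpecialLinearGroup.toGL (Quotient.out c') := by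
      rw [← hgc c hct, ← hgc c' hct']
      calc h * (gc c * x₀ * (gc c)⁻¹) * h⁻¹ = gc c' * (z⁻¹ * x₀ * z) * (gc c')⁻¹ := by
            simp only [h]
            group
        _ = gc c' * x₀ * (gc c')⁻¹ := by rw [hzc']
    have hconj : IsConj (Quotient.out c) (Quotient.out c') := by
      apply isConj_iff.2
      refine ⟨s, ?_⟩
      apply Matrix.SpecialLinearGroup.toGL_injective
      rw [map_mul, map_mul, map_inv, hs, key]
    have e1 : ConjClasses.mk (Quotient.out c) = c := Quotient.out_eq c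
    have e2 : ConjClasses.mk (Quotient.out c') = c' := Quotient.out_eq c'
    rw [← e1, ← e2]
    exact ConjClasses.mk_eq_mk_iff_isConj.2 hconj

end Cfsg.Agent.H4.SLk

section check
open Polynomial DirectSum
open Cfsg.Agent.H98.GLk Cfsg.Agent.H98.SLk

example {F : Type*} [Field F] [Fintype F] {n : ℕ} {T : Type*}
    (Φ : Matrix.GeneralLinearGroup (Fin n) F → T) (S : Finset T) (W : T → ℕ)
    (hS : ∀ x : Matrix.SpecialLinearGroup (Fin n) F, Φ (Matrix.SpecialLinearGroup.toGL x) ∈ S)
    (hinj : ∀ x y, Φ x = Φ y → IsConj x y)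
    (hW : ∀ x : Matrix.SpecialLinearGroup (Fin n) F,
      (detCent (Matrix.SpecialLinearGroup.toGL x)).index ≤
        W (Φ (Matrix.SpecialLinearGroup.toGL x))) :
    Nat.card (ConjClasses (Matrix.SpecialLinearGroup (Fin n) F)) ≤ ∑ t ∈ S, W t :=
  Cfsg.Agent.H4.SLk.card_conjClasses_SL_le_sum Φ S W hS hinj hW

end check
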