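import Mathlib

/-!
helper4: index bounds for subgroups of the unit group of a finite field
(piece S2479-IDX for helper98).
-/

set_option autoImplicit false

namespace Cfsg.Agent.H4.SLk

theorem index_le_card_sub_one {F : Type*} [Field F] [Fintype F] (D : Subgroup Fˣ) :
    D.index ≤ Fintype.card F - 1 := by
  classical
  have h1 : D.index ∣ Nat.card Fˣ := Subgroup.index_dvd_card D
  have h2 : Nat.card Fˣ = Fintype.card F - 1 := by
    rw [Nat.card_eq_fintype_card, Fintype.card_units]
  rw [h2] at h1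
  have h3 : 0 < Fintype.card F - 1 := by
    have := Fintype.one_lt_card (α := F)
    omega
  exact Nat.le_of_dvd h3 h1

theorem index_le_of_pow_mem {F : Type*} [Field F] [Fintype F] (D : Subgroup Fˣ) (e : ℕ)
    (he : 1 ≤ e) (h : ∀ c : Fˣ, c ^ e ∈ D) : D.index ≤ min e (Fintype.card F - 1) := by
  classical
  refine le_min ?_ (index_le_card_sub_one D)
  haveI : IsCyclic (Fˣ ⧸ D) :=
    isCyclic_of_surjective (QuotientGroup.mk' D) (QuotientGroup.mk'_surjective D)
  obtain ⟨g, hg⟩ := IsCyclic.exists_generator (α := Fˣ ⧸ D)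
  have h1 : orderOf g = Nat.card (Fˣ ⧸ D) := orderOf_eq_card_of_forall_mem_zpowers hg
  have h2 : g ^ e = 1 := by
    obtain ⟨c, rfl⟩ := QuotientGroup.mk'_surjective D g
    show (QuotientGroup.mk' D c) ^ e = 1
    rw [← map_pow]
    exact (QuotientGroup.eq_one_iff _).2 (h c)
  have h3 : orderOf g ∣ e := orderOf_dvd_of_pow_eq_one h2
  rw [Subgroup.index_eq_card, ← h1]
  exact Nat.le_of_dvd (by omega) h3

end Cfsg.Agent.H4.SLk

section check

example {F : Type*} [Field F] [Fintype F] (D : Subgroup Fˣ) (e : ℕ)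
    (he : 1 ≤ e) (h : ∀ c : Fˣ, c ^ e ∈ D) : D.index ≤ min e (Fintype.card F - 1) :=
  Cfsg.Agent.H4.SLk.index_le_of_pow_mem D e he h
example {F : Type*} [Field F] [Fintype F] (D : Subgroup Fˣ) :
    D.index ≤ Fintype.card F - 1 := Cfsg.Agent.H4.SLk.index_le_card_sub_one D

end check
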