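import Mathlib

/-!
# S3641 piece TRANS (helper4)

`PSL(2, ZMod 17) ≃* PSL(2, F)` and `PGL(2, ZMod 17) ≃* GL(2, F) / Z` for a field `F` with 17
elements.
-/

set_option autoImplicit false

namespace Cfsg.Agent.H4.SN

open Matrix

/-- An isomorphism maps the centre onto the centre. -/
theorem map_center_mulEquiv {G H : Type*} [Group G] [Group H] (E : G ≃* H) :
    (Subgroup.center G).map (E : G →* H) = Subgroup.center H := by
  ext x
  rw [Subgroup.mem_map, Subgroup.mem_center_iff]
  constructor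
  · rintro ⟨y, hy, rfl⟩ z
    rw [Subgroup.mem_center_iff] at hy
    have h1 := hy (E.symm z)
    have h2 := congrArg E h1
    rw [map_mul, map_mul, E.apply_symm_apply] at h2
    exact h2
  · intro hx
    refine ⟨E.symm x, ?_, E.apply_symm_apply x⟩
    rw [Subgroup.mem_center_iff]
    intro z
    have h1 := hx (E z)
    have h2 := congrArg E.symm h1
    rw [map_mul, map_mul, E.symm_apply_apply] at h2
    exact h2

/-- `SL(n, K) ≃* SL(n, L)` for isomorphic rings. -/
theorem sl_mulEquiv_of_ringEquiv {n : Type*} [DecidableEq n] [Fintype n] {K L : Type*}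
    [CommRing K] [CommRing L] (e : K ≃+* L) :
    Nonempty (Matrix.SpecialLinearGroup n K ≃* Matrix.SpecialLinearGroup n L) := by
  obtain ⟨f, hf⟩ : ∃ f : SpecialLinearGroup n K →* SpecialLinearGroup n L,
      f = SpecialLinearGroup.map (e : K →+* L) := ⟨_, rfl⟩
  obtain ⟨g, hg⟩ : ∃ g : SpecialLinearGroup n L →* SpecialLinearGroup n K,
      g = SpecialLinearGroup.map (e.symm : L →+* K) := ⟨_, rfl⟩
  have hfg : ∀ x, f (g x) = x := by
    intro x
    apply Subtype.ext
    ext i j
    rw [hf, hg]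
    change e (e.symm (x.1 i j)) = x.1 i j
    exact e.apply_symm_apply _
  have hgf : ∀ x, g (f x) = x := by
    intro x
    apply Subtype.ext
    ext i j
    rw [hf, hg]
    change e.symm (e (x.1 i j)) = x.1 i j
    exact e.symm_apply_apply _
  exact ⟨{ toFun := f, invFun := g, left_inv := hgf, right_inv := hfg, map_mul' := f.map_mul }⟩

theorem psl_mulEquiv_of_ringEquiv' {n : Type*} [DecidableEq n] [Fintype n] {K L : Type*}
    [CommRing K] [CommRing L] (e : K ≃+* L) :
    Nonempty (Matrix.ProjectiveSpecialLinearGroup n K ≃*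
      Matrix.ProjectiveSpecialLinearGroup n L) := by
  obtain ⟨E⟩ := sl_mulEquiv_of_ringEquiv (n := n) e
  exact ⟨QuotientGroup.congr _ _ E (map_center_mulEquiv E)⟩

theorem pgl_mulEquiv_of_ringEquiv' {n : Type*} [DecidableEq n] [Fintype n] {K L : Type*}
    [CommRing K] [CommRing L] (e : K ≃+* L) :
    Nonempty ((GL n K ⧸ Subgroup.center (GL n K)) ≃* (GL n L ⧸ Subgroup.center (GL n L))) := by
  obtain ⟨E, -⟩ : ∃ E : GL n K ≃* GL n L, True :=
    ⟨Units.mapEquiv (RingEquiv.mapMatrix e).toMulEquiv, trivial⟩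
  exact ⟨QuotientGroup.congr _ _ E (map_center_mulEquiv E)⟩

/-- **S3641-TRANS**, `PSL`. -/
theorem psl_zmod_equiv {F : Type*} [Field F] [Fintype F] (hF : Fintype.card F = 17) :
    Nonempty (Matrix.ProjectiveSpecialLinearGroup (Fin 2) (ZMod 17) ≃*
      Matrix.ProjectiveSpecialLinearGroup (Fin 2) F) :=
  psl_mulEquiv_of_ringEquiv' (ZMod.ringEquivOfPrime F (by norm_num) hF)

/-- **S3641-TRANS**, `PGL`. -/
theorem pgl_zmod_equiv {F : Type*} [Field F] [Fintype F] (hF : Fintype.card F = 17) :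
    Nonempty (Matrix.ProjGenLinGroup (Fin 2) (ZMod 17) ≃*
      (GL (Fin 2) F ⧸ Subgroup.center (GL (Fin 2) F))) :=
  pgl_mulEquiv_of_ringEquiv' (ZMod.ringEquivOfPrime F (by norm_num) hF)

section check

example {F : Type*} [Field F] [Fintype F] (hF : Fintype.card F = 17) :
    Nonempty (Matrix.ProjectiveSpecialLinearGroup (Fin 2) (ZMod 17) ≃*
      Matrix.ProjectiveSpecialLinearGroup (Fin 2) F) := psl_zmod_equiv hF

example {F : Type*} [Field F] [Fintype F] (hF : Fintype.card F = 17) :
    Nonempty (Matrix.ProjGenLinGroup (Fin 2) (ZMod 17) ≃*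
      (GL (Fin 2) F ⧸ Subgroup.center (GL (Fin 2) F))) := pgl_zmod_equiv hF

end check

end Cfsg.Agent.H4.SN
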