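import Cfsg.Agent.H46.SubfDefs

set_option autoImplicit false

/-!
# An element of a Chevalley group commuting with the fundamental root elements lies in `B`

Piece `S2214-A1` for helper46: `a1 : StA1`.
-/

namespace Cfsg.Agent.H4.Subf

open Cfsg.Lie Cfsg.Agent.H23 Cfsg.Agent.H46.Subf

universe u

/-- An element of the Chevalley group commuting with the `x_r(1)`, `r` positive, lies in `B`. -/
theorem a1 : StA1.{u} := by
  intro D F _ z η rT w0 hC g hg hcomm
  have hP := hC.hP
  have hV := hC.hV
  have hTT := hC.hTT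
  have hL := hC.hL
  have hS := hP.sem
  have hT := hP.tab
  obtain ⟨b, hb, w, hw, u, hu, rfl⟩ := canon_exists_word hP hV hTT hL g hg
  have hnN := nWU_mem hS hT w hw
  have hUB : D.posUnipotent F ≤ D.borelSubgroup F := le_sup_left
  -- no fundamental root is made negative
  have hsimple : ∀ i < D.rank, ¬ D.IsNegRoot (reflW D w (D.simple i)) := by
    intro i hi hineg
    have hx : xU hS (D.simple i) 1 ∈ UmG D F (nWU hS w) := by
      apply xU_mem_UmG hS _ _ (hT.simple_pos i hi)
      intro t'
      obtain ⟨c, -, hc⟩ := nWU_conj hS hP.semN hT w hw (D.simple i) (hT.simple_lt i hi)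
      rw [hc t']
      exact xU_mem_rootGen hS D.IsNegRoot _ hineg _
    have hxB : xU hS (D.simple i) 1 ∈ D.borelSubgroup F :=
      hUB (xU_mem_rootGen hS D.IsPosRoot _ (hT.simple_pos i hi) _)
    have e0 := hcomm (D.simple i) (hT.simple_pos i hi)
    have e : b * nWU hS w * (u * xU hS (D.simple i) 1) =
        (xU hS (D.simple i) 1 * b) * nWU hS w * u := by
      have e1 : b * nWU hS w * (u * xU hS (D.simple i) 1) = b * nWU hS w * u * xU hS (D.simple i) 1 := by
        group
      rw [e1, e0]
      group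
    have h1 := ((canon_unique hP hV b (xU hS (D.simple i) 1 * b) _ _ (u * xU hS (D.simple i) 1) u hb
      (Subgroup.mul_mem _ hxB hb) hnN hnN (Subgroup.mul_mem _ hu hx) hu e).2 rfl).2
    have h2 : xU hS (D.simple i) 1 = 1 := by
      have : xU hS (D.simple i) 1 = u⁻¹ * (u * xU hS (D.simple i) 1) := by group
      rw [this, h1]
      group
    exact one_ne_zero (xU_eq_one_imp hS hT hP.tab2 _ (hT.simple_lt i hi) _ h2)
  -- hence no positive root is made negative
  have hposw : ∀ s, D.IsPosRoot s → D.IsPosRoot (reflW D w s) := by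
    intro s hs
    refine (pos_or_neg hT _ (reflW_lt hT w hw s hs.1)).resolve_right (fun h => ?_)
    obtain ⟨i, hi, hineg⟩ := exists_simple_neg hT hTT hL w hw s hs.1 hs h
    exact hsimple i hi hineg
  -- `u = 1`
  have hbot : UmG D F (nWU hS w) ≤ ⊥ := by
    unfold UmG
    rw [Subgroup.closure_le]
    rintro x ⟨r, t, hr, hmap, -⟩
    exfalso
    have h1 : nWU hS w * xU hS r 1 * (nWU hS w)⁻¹ ∈ D.negUnipotent F :=
      hmap (Subgroup.mem_map_of_mem _ (xU_mem_rootSubgroup hS r 1))
    obtain ⟨c, hc1, hc⟩ := nWU_conj hS hP.semN hT w hw r hr.1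
    rw [hc 1, mul_one] at h1
    refine xU_pos_not_mem_neg hP hV _ (hposw r hr) c ?_ h1
    rcases hc1 with h | h <;> rw [h] <;> simp
  have hu1 : u = 1 := Subgroup.mem_bot.mp (hbot hu)
  -- `n_w` lies in `B`
  have hmB : nWU hS w ∈ D.borelSubgroup F := by
    apply mem_borel_of_conj hP _ (monomial_le_group hS hnN)
    intro b' hb'
    obtain ⟨v, hv, h', hh', rfl⟩ := exists_mul_of_mem_sup _ _
      (diagonal_le_normalizer_rootGen hS D.IsPosRoot (fun _ hr => hr.1)) b' hb'
    have e : nWU hS w * (v * h') * (nWU hS w)⁻¹ =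
        (nWU hS w * v * (nWU hS w)⁻¹) * (nWU hS w * h' * (nWU hS w)⁻¹) := by group
    rw [e]
    apply Subgroup.mul_mem
    · apply hUB
      apply conj_mem_of_closure _ (D.posUnipotent F) _ _ v hv
      rintro x ⟨r, t, hr, hx⟩
      rw [eq_xU hS x r t hx]
      obtain ⟨c, _, hc⟩ := nWU_conj hS hP.semN hT w hw r hr.1
      rw [hc t]
      exact xU_mem_rootGen hS D.IsPosRoot _ (hposw r hr) _
    · exact (le_sup_right : D.diagonalSubgroup F ≤ _)
        ((Subgroup.mem_normalizer_iff.mp (monomial_le_normalizer_diag hS hP.semN hT hP.etaNeg hnN) h').mp hh')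
  rw [hu1, mul_one]
  exact Subgroup.mul_mem _ hb hmB

section check

example : StA1.{u} := a1

end check

end Cfsg.Agent.H4.Subf
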