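import Mathlib
import Cfsg.Prelude.Def_Characters
import Cfsg.Prelude.Def_Blocks
import Cfsg.Prelude.Def_Local
import Cfsg.Agent.H4.SemiReg
import Cfsg.Agent.H4.MaxDeg

/-!
# TI Sylow subgroups of `p`-solvable groups with a faithful character of small degree (helper4)

`G` is `p`-solvable, its Sylow `p`-subgroup `P` is a TI set, and `χ` is a faithful character with
`χ(1)² ≤ |P|`.  Then `P` is normal.  The proof takes the first term `L` of the `p`-series whose
order is divisible by `p` and its predecessor `M` (a normal `p'`-subgroup); `P` acts on `M`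
semiregularly off `C_M(P)`, so `P` centralizes `M` by `semireg_trivial`; then `P ⊓ L` is a
nontrivial normal subgroup of `G`.
-/

set_option autoImplicit false
set_option linter.unusedSectionVars false
set_option linter.style.haveILetI false

open Cfsg Module
open scoped ComplexConjugate Pointwise

namespace Cfsg.Agent.H4

universe u

section TISolv

theorem exists_fin_step {n : ℕ} (f : Fin (n + 1) → Prop) (h0 : ¬ f 0) (hn : f (Fin.last n)) :
    ∃ i : Fin n, ¬ f i.castSucc ∧ f i.succ := by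
  by_contra h
  push Not at h
  have hall : ∀ i : Fin (n + 1), ¬ f i := by
    intro i
    induction i using Fin.induction with
    | zero => exact h0
    | succ i ih => exact h i ih
  exact hall _ hn

variable {Γ : Type u} [Group Γ] [Finite Γ]

/-- A TI Sylow `p`-subgroup centralizes every normal `p'`-subgroup, in the presence of a
faithful character of degree at most `√|P|`. -/
theorem ti_centralizes {p : ℕ} (hp : p.Prime) (P : Sylow p Γ) (M : Subgroup Γ) [M.Normal]
    (hpM : ¬ p ∣ Nat.card M)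
    (hTI : ∀ g : Γ, ∀ x ∈ (P : Subgroup Γ), x ≠ 1 → g⁻¹ * x * g ∈ (P : Subgroup Γ) →
      g ∈ Subgroup.normalizer ((P : Subgroup Γ) : Set Γ))
    (hq : 1 < Nat.card (P : Subgroup Γ))
    (χ : Γ → ℂ) (hχ : IsCharacter Γ χ) (hfaith : ∀ g : Γ, χ g = χ 1 → g = 1) {d : ℕ}
    (hd : χ 1 = d) (hdq : d ^ 2 ≤ Nat.card (P : Subgroup Γ)) :
    ∀ x ∈ (P : Subgroup Γ), ∀ m ∈ M, x * m = m * x := by
  classical
  haveI : Fact p.Prime := ⟨hp⟩
  haveI := Fintype.ofFinite Γ
  set S : Subgroup Γ := (P : Subgroup Γ) with hS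
  have hnorm : ∀ s ∈ S, ∀ g ∈ M, s * g * s⁻¹ ∈ M := fun s _ g hg =>
    Subgroup.Normal.conj_mem inferInstance g hg s
  letI := conjAct M S hnorm
  set C : Subgroup Γ := M ⊓ Subgroup.centralizer (S : Set Γ) with hC
  have hCG : C ≤ M := inf_le_left
  have hfix := conjAct_fixed M S C hnorm hC hCG
  have hSp : IsPGroup p S := P.isPGroup'
  have hcop : Nat.Coprime (Nat.card S) (Nat.card M) := by
    obtain ⟨k, hk⟩ := IsPGroup.iff_card.mp hSp
    rw [hk]
    apply Nat.Coprime.pow_left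
    rw [Nat.Prime.coprime_iff_not_dvd hp]
    exact hpM
  have hbot : S ⊓ M = ⊥ := (Subgroup.disjoint_of_coprime_natCard hcop).eq_bot
  have hsemi : ∀ (g : M) (s : S), s ≠ 1 → s • g = g → ∀ t : S, t • g = g := by
    intro g s hs hsg t
    have h1 : (s : Γ) * (g : Γ) * (s : Γ)⁻¹ = (g : Γ) := congrArg Subtype.val hsg
    have hcomm : (g : Γ)⁻¹ * (s : Γ) * (g : Γ) = (s : Γ) := by
      have h2 : (s : Γ) * (g : Γ) = (g : Γ) * (s : Γ) := by
        calc (s : Γ) * (g : Γ) = (s : Γ) * (g : Γ) * (s : Γ)⁻¹ * (s : Γ) := by group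
          _ = (g : Γ) * (s : Γ) := by rw [h1]
      calc (g : Γ)⁻¹ * (s : Γ) * (g : Γ) = (g : Γ)⁻¹ * ((s : Γ) * (g : Γ)) := by group
        _ = (s : Γ) := by rw [h2]; group
    have hs1 : (s : Γ) ≠ 1 := fun h => hs (Subtype.ext h)
    have hgN := hTI (g : Γ) (s : Γ) s.2 hs1 (by rw [hcomm]; exact s.2)
    have h2 : (g : Γ) * (t : Γ) * (g : Γ)⁻¹ ∈ S :=
      (Subgroup.mem_normalizer_iff.mp hgN (t : Γ)).mp t.2
    have h3 : (g : Γ) * (t : Γ) * (g : Γ)⁻¹ * (t : Γ)⁻¹ ∈ S := S.mul_mem h2 (S.inv_mem t.2)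
    have h4 : (g : Γ) * (t : Γ) * (g : Γ)⁻¹ * (t : Γ)⁻¹ ∈ M := by
      have e : (g : Γ) * (t : Γ) * (g : Γ)⁻¹ * (t : Γ)⁻¹ =
          (g : Γ) * ((t : Γ) * (g : Γ)⁻¹ * (t : Γ)⁻¹) := by group
      rw [e]
      exact M.mul_mem g.2 (hnorm t t.2 _ (M.inv_mem g.2))
    have h5 : (g : Γ) * (t : Γ) * (g : Γ)⁻¹ * (t : Γ)⁻¹ = 1 := by
      have h6 : (g : Γ) * (t : Γ) * (g : Γ)⁻¹ * (t : Γ)⁻¹ ∈ S ⊓ M := ⟨h3, h4⟩
      rw [hbot] at h6
      exact Subgroup.mem_bot.mp h6
    apply Subtype.ext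
    show (t : Γ) * (g : Γ) * (t : Γ)⁻¹ = (g : Γ)
    calc (t : Γ) * (g : Γ) * (t : Γ)⁻¹
        = ((g : Γ) * (t : Γ) * (g : Γ)⁻¹ * (t : Γ)⁻¹)⁻¹ * (g : Γ) := by group
      _ = (g : Γ) := by rw [h5]; group
  have hθ : IsCharacter M (fun m : M => χ m) := isCharacter_restrict M hχ
  have hθinv : ∀ (s : S) (g : M), (fun m : M => χ m) (s • g) = (fun m : M => χ m) g := by
    intro s g
    show χ ((s : Γ) * (g : Γ) * (s : Γ)⁻¹) = χ (g : Γ)
    exact isClassFunction_of_isCharacter hχ g s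
  intro x hx m hm
  have key := semireg_trivial hp hSp hpM (Subgroup.inclusion hCG)
    (Subgroup.inclusion_injective hCG) hfix hsemi hq (fun m : M => χ m) hθ hθinv hd hdq
    ⟨x, hx⟩ ⟨m, hm⟩
  have key' : χ (x * m * x⁻¹ * m⁻¹) = χ 1 := key
  have h1 := hfaith _ key'
  calc x * m = x * m * x⁻¹ * m⁻¹ * (m * x) := by group
    _ = m * x := by rw [h1, one_mul]

/-- **Main theorem.** -/
theorem ti_sylow_normal_of_psolvable {p : ℕ} [Fact p.Prime] (hsolv : IsPSolvable p Γ)
    (P : Sylow p Γ)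
    (hTI : ∀ g : Γ, g ∉ Subgroup.normalizer ((P : Subgroup Γ) : Set Γ) →
      (P : Subgroup Γ) ⊓ (MulAut.conj g • (P : Subgroup Γ)) = ⊥)
    (χ : Γ → ℂ) (hχ : IsCharacter Γ χ) (hfaith : ∀ g : Γ, χ g = χ 1 → g = 1)
    (hdeg : charDegree χ ^ 2 ≤ Nat.card ↥(P : Subgroup Γ)) : (P : Subgroup Γ).Normal := by
  classical
  have hp : p.Prime := Fact.out
  set S : Subgroup Γ := (P : Subgroup Γ) with hS
  have hSp : IsPGroup p S := P.isPGroup'
  -- the TI condition in elementwise form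
  have hTI' : ∀ g : Γ, ∀ x ∈ S, x ≠ 1 → g⁻¹ * x * g ∈ S →
      g ∈ Subgroup.normalizer (S : Set Γ) := by
    intro g x hx hx1 hgx
    by_contra hg
    have h1 := hTI g hg
    have h2 : x ∈ S ⊓ (MulAut.conj g • S) := by
      refine Subgroup.mem_inf.mpr ⟨hx, ?_⟩
      rw [Subgroup.mem_pointwise_smul_iff_inv_smul_mem]
      have e : (MulAut.conj g)⁻¹ • x = g⁻¹ * x * g := by
        simp [MulAut.smul_def]
      rw [e]
      exact hgx
    rw [h1] at h2
    exact hx1 (Subgroup.mem_bot.mp h2)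
  by_cases hq1 : Nat.card S = 1
  · have : S = ⊥ := Subgroup.eq_bot_of_card_eq S hq1
    rw [this]
    infer_instance
  have hq : 1 < Nat.card S := by
    have : 0 < Nat.card S := Nat.card_pos
    omega
  -- the degree
  obtain ⟨d, hd⟩ : ∃ d : ℕ, χ 1 = d := by
    obtain ⟨n, ρ, rfl⟩ := hχ
    exact ⟨_, Representation.char_one ρ⟩
  have hdq : d ^ 2 ≤ Nat.card S := by
    rw [← charDegree_of_natCast hd]
    exact hdeg
  -- the chain
  obtain ⟨n, H, h0, hlast, hmono, hnormal, hstep⟩ := hsolv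
  have hpS : p ∣ Nat.card S := hSp.card_eq_or_dvd.resolve_left hq1
  obtain ⟨i, hi1, hi2⟩ := exists_fin_step (fun j => p ∣ Nat.card (H j))
    (by
      show ¬ p ∣ Nat.card (H 0)
      rw [h0, Subgroup.card_bot]
      exact fun h => hp.one_lt.ne' (Nat.dvd_one.mp h))
    (by
      show p ∣ Nat.card (H (Fin.last n))
      rw [hlast, Subgroup.card_top]
      exact hpS.trans (Subgroup.card_subgroup_dvd_card S))
  set M : Subgroup Γ := H i.castSucc with hM
  set L : Subgroup Γ := H i.succ with hL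
  haveI hMn : M.Normal := hnormal _
  haveI hLn : L.Normal := hnormal _
  have hML : M ≤ L := hmono (Fin.castSucc_lt_succ (i := i)).le
  have hrel : Nat.card M * M.relIndex L = Nat.card L := by
    have := Subgroup.relIndex_mul_relIndex (⊥ : Subgroup Γ) M L bot_le hML
    rwa [Subgroup.relIndex_bot_left, Subgroup.relIndex_bot_left] at this
  have hprel : p ∣ M.relIndex L := by
    have : p ∣ Nat.card M * M.relIndex L := by rw [hrel]; exact hi2
    exact ((Nat.Prime.dvd_mul hp).mp this).resolve_left hi1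
  obtain ⟨e, he⟩ : ∃ e : ℕ, M.relIndex L = p ^ e := by
    rcases hstep i with h | h
    · exact h
    · exact absurd hprel ((Nat.Prime.coprime_iff_not_dvd hp).mp (Nat.Coprime.symm h))
  have hpow : ∀ l ∈ L, l ^ p ^ e ∈ M := by
    intro l hl
    have := Subgroup.pow_relIndex_mem M hl
    rwa [he] at this
  have hcomm := ti_centralizes hp P M hi1 hTI' hq χ hχ hfaith hd hdq
  have hcop : Nat.Coprime (Nat.card S) (Nat.card M) := by
    obtain ⟨k, hk⟩ := IsPGroup.iff_card.mp hSp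
    rw [hk]
    apply Nat.Coprime.pow_left
    rw [Nat.Prime.coprime_iff_not_dvd hp]
    exact hi1
  have hbot : S ⊓ M = ⊥ := (Subgroup.disjoint_of_coprime_natCard hcop).eq_bot
  -- `L ≤ P M`
  have hLPM : ∀ l ∈ L, ∃ x ∈ S, ∃ m ∈ M, l = x * m := by
    have hπ : Function.Surjective (QuotientGroup.mk' M) := QuotientGroup.mk'_surjective M
    set N : Subgroup (Γ ⧸ M) := L.map (QuotientGroup.mk' M) with hN
    haveI : N.Normal := Subgroup.Normal.map hLn (QuotientGroup.mk' M) hπ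
    have hNp : IsPGroup p N := by
      rintro ⟨y, hy⟩
      obtain ⟨l, hl, rfl⟩ := Subgroup.mem_map.mp hy
      refine ⟨e, Subtype.ext ?_⟩
      show (QuotientGroup.mk' M l) ^ p ^ e = 1
      rw [← map_pow]
      exact (QuotientGroup.eq_one_iff _).mpr (hpow l hl)
    have hle : N ≤ (P.mapSurjective hπ : Subgroup (Γ ⧸ M)) := hNp.le_sylow_of_normal _
    intro l hl
    have h1 : QuotientGroup.mk' M l ∈ S.map (QuotientGroup.mk' M) := by
      have := hle (Subgroup.mem_map_of_mem (QuotientGroup.mk' M) hl)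
      rwa [Sylow.coe_mapSurjective] at this
    obtain ⟨x, hx, hxl⟩ := Subgroup.mem_map.mp h1
    refine ⟨x, hx, x⁻¹ * l, ?_, by group⟩
    exact QuotientGroup.eq.mp hxl
  -- `p`-elements of `L` lie in `P`
  have hstar : ∀ z ∈ L, ∀ k : ℕ, z ^ p ^ k = 1 → z ∈ S := by
    intro z hz k hzk
    obtain ⟨x, hx, m, hm, rfl⟩ := hLPM z hz
    have hc : Commute x m := hcomm x hx m hm
    rw [hc.mul_pow] at hzk
    have h1 : m ^ p ^ k ∈ S ⊓ M := by
      refine ⟨?_, M.pow_mem hm _⟩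
      have : m ^ p ^ k = (x ^ p ^ k)⁻¹ := (eq_inv_of_mul_eq_one_right hzk)
      rw [this]
      exact S.inv_mem (S.pow_mem hx _)
    rw [hbot] at h1
    have h2 : m ^ p ^ k = 1 := Subgroup.mem_bot.mp h1
    have h3 : orderOf m ∣ p ^ k := orderOf_dvd_of_pow_eq_one h2
    have h4 : orderOf m ∣ Nat.card M := by
      have := orderOf_dvd_natCard (⟨m, hm⟩ : M)
      rwa [Subgroup.orderOf_mk] at this
    have h5 : Nat.Coprime (p ^ k) (Nat.card M) :=
      Nat.Coprime.pow_left k ((Nat.Prime.coprime_iff_not_dvd hp).mpr hi1)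
    have h6 : orderOf m = 1 := Nat.eq_one_of_dvd_coprimes h5 h3 h4
    rw [orderOf_eq_one_iff] at h6
    rw [h6, mul_one]
    exact hx
  -- an element of order `p` in `L`
  obtain ⟨l, hl⟩ := exists_prime_orderOf_dvd_card' (G := L) p hi2
  have hy1 : (l : Γ) ≠ 1 := by
    intro h
    have : l = 1 := Subtype.ext h
    rw [this, orderOf_one] at hl
    exact hp.one_lt.ne hl
  have hyp : (l : Γ) ^ p ^ 1 = 1 := by
    have h1 : l ^ p = 1 := by rw [← hl]; exact pow_orderOf_eq_one l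
    have h2 := congrArg Subtype.val h1
    rw [pow_one]
    simpa using h2
  have hyS : (l : Γ) ∈ S := hstar _ l.2 1 hyp
  have hall : ∀ g : Γ, g ∈ Subgroup.normalizer (S : Set Γ) := by
    intro g
    apply hTI' g (l : Γ) hyS hy1
    have h1 : g⁻¹ * (l : Γ) * g⁻¹⁻¹ ∈ L := hLn.conj_mem _ l.2 g⁻¹
    have h2 : (g⁻¹ * (l : Γ) * g⁻¹⁻¹) ^ p ^ 1 = 1 := by
      rw [conj_pow, hyp]
      group
    have h3 := hstar _ h1 1 h2
    rwa [inv_inv] at h3
  have htop : Subgroup.normalizer (S : Set Γ) = ⊤ := by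
    ext g
    simp [hall g]
  exact Subgroup.normalizer_eq_top_iff.mp htop

end TISolv

end Cfsg.Agent.H4
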