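import Mathlib
import Cfsg.Agent.H4.TnDefs
import Cfsg.Agent.H4.Chars
import Cfsg.Agent.H4.PaQb
import Cfsg.Agent.H4.Induction
import Cfsg.Agent.H4.Exceptional

/-!
# S3805 (TN project), piece GEN: `P₁ = Ind_C^G 1 - Ind_C^G λ` with `C = C_G(a)`
-/

set_option autoImplicit false
set_option linter.style.haveILetI false

namespace Cfsg.Agent.H4.Tn

open Subgroup

universe u

theorem gen (hL : StLam.{u}) (hC : StCa.{u}) (hTI : StTI.{u}) : StGen.{u} := by
  intro G _ _ T a b u v cfg
  classical
  haveI : Fintype G := Fintype.ofFinite G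
  obtain ⟨l, ω, hω1, hω3, hl, hlv⟩ := hL G T a b u v cfg
  obtain ⟨hCel, hAcomm, -, hC18, hCN, hNinv, hAnorm⟩ := hC G T a b u v cfg
  have hti := hTI G T a b u v cfg
  have hωsum : 1 + ω + ω ^ 2 = 0 := by
    have h : (ω - 1) * (1 + ω + ω ^ 2) = 0 := by
      have : (ω - 1) * (1 + ω + ω ^ 2) = ω ^ 3 - 1 := by ring
      rw [this, hω3, sub_self]
    rcases mul_eq_zero.mp h with h | h
    · exact absurd (sub_eq_zero.mp h) hω1
    · exact h
  have hmem : ∀ x : G, x ∈ (centralizer ({a} : Set G) : Subgroup G) ↔ a * x = x * a :=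
    fun x => Subgroup.mem_centralizer_singleton_iff.trans eq_comm
  have hwC : ∀ w ∈ closure ({b, u} : Set G), w ∈ centralizer ({a} : Set G) :=
    fun w hw => (hmem _).mpr (hAcomm w hw).symm
  have hawC : ∀ w ∈ closure ({b, u} : Set G), a * w ∈ centralizer ({a} : Set G) :=
    fun w hw => (hmem _).mpr (by rw [mul_assoc, hAcomm w hw])
  have haiwC : ∀ w ∈ closure ({b, u} : Set G), a⁻¹ * w ∈ centralizer ({a} : Set G) :=
    fun w hw => (hmem _).mpr (by rw [mul_assoc, hAcomm w hw]; group)
  set θ : centralizer ({a} : Set G) → ℂ := (fun _ => 1) - l with hθ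
  have he_not : ∀ y, y ∉ S1 a b u → extendByZero (centralizer ({a} : Set G)) θ y = 0 := by
    intro y hy
    by_cases hyC : y ∈ centralizer ({a} : Set G)
    · obtain ⟨w, hw, h | h | h⟩ := hCel y hyC
      · rw [extendByZero_of_mem _ _ hyC, hθ]
        simp only [Pi.sub_apply]
        rw [(hlv ⟨y, hyC⟩ w hw).1 h, sub_self]
      · exact absurd ⟨w, hw, Or.inl h⟩ hy
      · exact absurd ⟨w, hw, Or.inr h⟩ hy
    · exact extendByZero_of_not_mem _ _ hyC
  have he_p : ∀ w ∈ closure ({b, u} : Set G),
      extendByZero (centralizer ({a} : Set G)) θ (a * w) = 1 - ω := by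
    intro w hw
    rw [extendByZero_of_mem _ _ (hawC w hw), hθ]
    simp only [Pi.sub_apply]
    rw [(hlv ⟨a * w, hawC w hw⟩ w hw).2.1 rfl]
  have he_m : ∀ w ∈ closure ({b, u} : Set G),
      extendByZero (centralizer ({a} : Set G)) θ (a⁻¹ * w) = 1 - ω ^ 2 := by
    intro w hw
    rw [extendByZero_of_mem _ _ (haiwC w hw), hθ]
    simp only [Pi.sub_apply]
    rw [(hlv ⟨a⁻¹ * w, haiwC w hw⟩ w hw).2.2 rfl]
  -- conjugation facts
  have hconjA : ∀ x ∈ normalizer (T : Set G), ∀ w ∈ closure ({b, u} : Set G),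
      x⁻¹ * w * x ∈ closure ({b, u} : Set G) := by
    intro x hx w hw
    have := hAnorm x⁻¹ (inv_mem hx) w hw
    rwa [inv_inv] at this
  have hconj_in : ∀ x ∈ centralizer ({a} : Set G), x⁻¹ * a * x = a := by
    intro x hx
    have := (hmem _).mp hx
    rw [mul_assoc, this, inv_mul_cancel_left]
  have hconj_out : ∀ x ∈ normalizer (T : Set G), x ∉ centralizer ({a} : Set G) →
      x⁻¹ * a * x = a⁻¹ := by
    intro x hx hxC
    have := hNinv x⁻¹ (inv_mem hx) (fun h => hxC (by simpa using inv_mem h))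
    rwa [inv_inv] at this
  have hsplit : ∀ x s w : G, x⁻¹ * (s * w) * x = (x⁻¹ * s * x) * (x⁻¹ * w * x) := by
    intro x s w; group
  have hinvconj : ∀ x c : G, x⁻¹ * a * x = c → x⁻¹ * a⁻¹ * x = c⁻¹ := by
    intro x c h
    have : x⁻¹ * a⁻¹ * x = (x⁻¹ * a * x)⁻¹ := by group
    rw [this, h]
  -- the values on conjugates of `s ∈ S₁`
  have hval : ∀ s ∈ S1 a b u, ∃ e₁ e₂ : ℂ, e₁ + e₂ = 3 ∧
      ∀ x : G, extendByZero (centralizer ({a} : Set G)) θ (x⁻¹ * s * x) =
        if x ∈ normalizer (T : Set G) then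
          (if x ∈ centralizer ({a} : Set G) then e₁ else e₂) else 0 := by
    rintro s ⟨w, hw, rfl | rfl⟩
    · refine ⟨1 - ω, 1 - ω ^ 2, by linear_combination -hωsum, fun x => ?_⟩
      by_cases hxN : x ∈ normalizer (T : Set G)
      · rw [if_pos hxN]
        by_cases hxC : x ∈ centralizer ({a} : Set G)
        · rw [if_pos hxC, hsplit, hconj_in x hxC]; exact he_p _ (hconjA x hxN w hw)
        · rw [if_neg hxC, hsplit, hconj_out x hxN hxC]; exact he_m _ (hconjA x hxN w hw)
      · rw [if_neg hxN]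
        apply he_not
        intro h
        apply hxN
        have := hti (a * w) ⟨w, hw, Or.inl rfl⟩ x⁻¹ (by rwa [inv_inv])
        simpa using inv_mem this
    · refine ⟨1 - ω ^ 2, 1 - ω, by linear_combination -hωsum, fun x => ?_⟩
      by_cases hxN : x ∈ normalizer (T : Set G)
      · rw [if_pos hxN]
        by_cases hxC : x ∈ centralizer ({a} : Set G)
        · rw [if_pos hxC, hsplit, hinvconj x _ (hconj_in x hxC)]
          exact he_m _ (hconjA x hxN w hw)
        · rw [if_neg hxC, hsplit, hinvconj x _ (hconj_out x hxN hxC), inv_inv]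
          exact he_p _ (hconjA x hxN w hw)
      · rw [if_neg hxN]
        apply he_not
        intro h
        apply hxN
        have := hti (a⁻¹ * w) ⟨w, hw, Or.inr rfl⟩ x⁻¹ (by rwa [inv_inv])
        simpa using inv_mem this
  have hcardC : ((Finset.univ.filter (fun x : G => x ∈ centralizer ({a} : Set G))).card : ℂ)
      = 18 := by
    have : (Finset.univ.filter (fun x : G => x ∈ centralizer ({a} : Set G))).card =
        Nat.card (centralizer ({a} : Set G)) := by
      rw [Nat.card_eq_fintype_card, Fintype.card_subtype]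
    rw [this, hC18]; norm_num
  have hcardN : ((Finset.univ.filter (fun x : G => x ∈ normalizer (T : Set G))).card : ℂ)
      = 36 := by
    have : (Finset.univ.filter (fun x : G => x ∈ normalizer (T : Set G))).card =
        Nat.card (normalizer (T : Set G)) := by
      rw [Nat.card_eq_fintype_card, Fintype.card_subtype]
    rw [this, cfg.cardN]; norm_num
  refine ⟨indFun (centralizer ({a} : Set G)) (fun _ => 1), indFun (centralizer ({a} : Set G)) l,
    isCharacter_indFun _ _ (isCharacter_of_isIrrCharacter (trivialIrr _).2),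
    isCharacter_indFun _ l hl, fun g => ?_⟩
  have hsub : indFun (centralizer ({a} : Set G)) (fun _ => (1 : ℂ)) g -
      indFun (centralizer ({a} : Set G)) l g = indFun (centralizer ({a} : Set G)) θ g := by
    rw [hθ, indFun_sub]; rfl
  rw [hsub]
  by_cases hg : g ∈ S1G a b u
  · have hP : P1 a b u g = 3 := by rw [P1, Set.indicator_of_mem hg]
    obtain ⟨x₀, hx₀⟩ := hg
    rw [hP, ← indFun_isClassFunction (centralizer ({a} : Set G)) θ g x₀, indFun_apply]
    obtain ⟨e₁, e₂, hsum, hv⟩ := hval _ hx₀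
    rw [Finset.sum_congr rfl (fun x _ => hv x)]
    have hre : ∀ x : G, (if x ∈ normalizer (T : Set G) then
          (if x ∈ centralizer ({a} : Set G) then e₁ else e₂) else 0) =
        (if x ∈ normalizer (T : Set G) then e₂ else 0) +
          (if x ∈ centralizer ({a} : Set G) then e₁ - e₂ else 0) := by
      intro x
      by_cases hxC : x ∈ centralizer ({a} : Set G)
      · have hxN : x ∈ normalizer (T : Set G) := hCN hxC
        simp [hxC, hxN]
      · by_cases hxN : x ∈ normalizer (T : Set G) <;> simp [hxC, hxN]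
    rw [Finset.sum_congr rfl (fun x _ => hre x), Finset.sum_add_distrib]
    have h1 : ∑ x : G, (if x ∈ normalizer (T : Set G) then e₂ else 0) = 36 * e₂ := by
      rw [← Finset.sum_filter, Finset.sum_const, nsmul_eq_mul, hcardN]
    have h2 : ∑ x : G, (if x ∈ centralizer ({a} : Set G) then e₁ - e₂ else 0) =
        18 * (e₁ - e₂) := by
      rw [← Finset.sum_filter, Finset.sum_const, nsmul_eq_mul, hcardC]
    rw [h1, h2, hC18]
    have : e₁ = 3 - e₂ := by linear_combination hsum
    rw [this]; push_cast; ring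
  · have hP : P1 a b u g = 0 := by rw [P1, Set.indicator_of_notMem hg]
    rw [hP, indFun_apply, Finset.sum_eq_zero, mul_zero]
    intro x _
    apply he_not
    intro h
    exact hg ⟨x⁻¹, by rwa [inv_inv]⟩

end Cfsg.Agent.H4.Tn
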