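import Mathlib
import Cfsg.Agent.H4.TnDefs
import Cfsg.Agent.H4.TnGen
import Cfsg.Agent.H3.TnNormal
import Cfsg.Agent.H5.TnTI
import Cfsg.Agent.H5.TnS1
import Cfsg.Agent.H5.TnCa
import Cfsg.Agent.H19.TnIA12
import Cfsg.Agent.H19.TnIB9
import Cfsg.Agent.H20.TnTIT
import Cfsg.Agent.H20.TnFratt
import Cfsg.Agent.H24.TnInva
import Cfsg.Agent.H24.TnUv
import Cfsg.Agent.H25.TnCount
import Cfsg.Agent.H25.TnPairsGlob
import Cfsg.Agent.H25.TnL1
import Cfsg.Agent.H29.TnPairsLoc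
import Cfsg.Agent.H36.TnNT
import Cfsg.Agent.H36.TnTwist
import Cfsg.Agent.H18.TnNorm3
import Cfsg.Agent.H37.TnCent
import Cfsg.Agent.H53.TnDecomp
import Cfsg.Agent.H53.TnLam
import Cfsg.Agent.H58.TnFpf
import Cfsg.Agent.H63.TnSwap
import Cfsg.Agent.H63.TnStruct
import Cfsg.Agent.H63.TnCompl
import Cfsg.Agent.H63.TnFin
import Cfsg.Agent.H70.TnRT2
import Cfsg.Agent.H70.TnRT3
import Cfsg.Agent.H70.TnVals
import Cfsg.Agent.H90.TnF2
import Cfsg.Agent.H91.TnInv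
import Cfsg.Agent.Lib.Helper30.TnF0

/-!
# S3805 (TN project): wiring of all pieces into the final statement
-/

set_option autoImplicit false

namespace Cfsg.Agent.H4.Tn

open Subgroup

universe u

theorem w_tit : StTIT.{u} := Cfsg.Agent.H20.Tn.tit
theorem w_s1 : StS1.{u} := Cfsg.Agent.H5.Tn.s1
theorem w_ti : StTI.{u} := Cfsg.Agent.H5.Tn.ti w_tit
theorem w_ca : StCa.{u} := Cfsg.Agent.H5.Tn.ca
theorem w_vals : StVals.{u} := Cfsg.Agent.H70.Tn.vals w_s1 w_tit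
theorem w_count : StCount.{u} := Cfsg.Agent.H25.Tn.count w_s1 w_ti
theorem w_lam : StLam.{u} := Cfsg.Agent.H53.Tn.lam w_ca
theorem w_gen : StGen.{u} := gen w_lam w_ca w_ti
theorem w_norm3 : StNorm3.{u} := Cfsg.Agent.H18.Tn.norm3
theorem w_decomp : StDecomp.{u} := Cfsg.Agent.H53.Tn.decomp w_vals w_count w_gen w_norm3
theorem w_pairsLoc : StPairsLoc.{u} := Cfsg.Agent.H29.Tn.pairsLoc w_s1 w_ti w_ca
theorem w_pairsGlob : StPairsGlob.{u} := Cfsg.Agent.H25.Tn.pairsGlob w_s1 w_ti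
theorem w_inv : StInv.{u} := Cfsg.Agent.H91.Tn.inv w_vals w_pairsLoc w_pairsGlob
theorem w_swap : StSwap.{u} := Cfsg.Agent.H63.Tn.swap
theorem w_invA : StInvA.{u} := Cfsg.Agent.H24.Tn.invA w_tit
theorem w_uv : StUV.{u} := Cfsg.Agent.H24.Tn.uv w_tit
theorem w_cent : StCent.{u} := Cfsg.Agent.H37.Tn.cent
theorem w_l1 : StL1.{u} :=
  Cfsg.Agent.H25.Tn.l1 w_vals w_cent Cfsg.Agent.H70.Tn.rt3 Cfsg.Agent.H20.Tn.fratt
theorem w_fin : StFin.{u} := Cfsg.Agent.H63.Tn.fin Cfsg.Agent.H58.Tn.fpf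
theorem w_f0 : StF0.{u} :=
  Cfsg.Agent.Lib.Helper30.Tn.f0 w_decomp w_swap w_inv w_invA w_l1 w_fin
theorem w_f2 : StF2.{u} :=
  Cfsg.Agent.H90.Tn.f2 w_decomp w_swap w_inv w_invA w_l1 (Cfsg.Agent.H19.Tn.ia12 w_tit)
    (Cfsg.Agent.H19.Tn.ib9 w_tit) Cfsg.Agent.H36.Tn.nt Cfsg.Agent.H36.Tn.twist w_vals w_cent
    Cfsg.Agent.H70.Tn.rt3 Cfsg.Agent.H70.Tn.rt2
theorem w_struct : StStruct.{u} :=
  Cfsg.Agent.H63.Tn.struct Cfsg.Agent.H63.Tn.compl Cfsg.Agent.H3.Tn.normal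

/-- S3805. -/
theorem final {G : Type u} [Group G] [Finite G]
    (T : Sylow 3 G) (hT : Cfsg.IsElementaryAbelian 3 (T : Subgroup G)) (hcard : Nat.card T = 9)
    (hC : Subgroup.centralizer ((T : Subgroup G) : Set G) = T)
    [((T : Subgroup G).subgroupOf (Subgroup.normalizer ((T : Subgroup G) : Set G))).Normal]
    (hK : IsKleinFour (↥(Subgroup.normalizer ((T : Subgroup G) : Set G)) ⧸
      (T : Subgroup G).subgroupOf (Subgroup.normalizer ((T : Subgroup G) : Set G))))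
    (hloc : ∀ t ∈ (T : Subgroup G), t ≠ 1 →
      Subgroup.centralizer ({t} : Set G) ≤ Subgroup.normalizer ((T : Subgroup G) : Set G)) :
    Subgroup.normalizer ((T : Subgroup G) : Set G) = ⊤ :=
  main w_struct w_swap w_uv w_f0 w_f2 T hT hcard hC hK hloc

end Cfsg.Agent.H4.Tn
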